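import Mathlib

set_option autoImplicit false

namespace Cfsg.Agent.Lib.Helper23.D8

open DihedralGroup

def K (j : ZMod 4) : Subgroup (DihedralGroup 4) where
  carrier := {d | d = 1 ∨ d = r 2 ∨ d = sr j ∨ d = sr (j + 2)}
  mul_mem' := by
    rintro a b (rfl | rfl | rfl | rfl) (rfl | rfl | rfl | rfl) <;> revert j <;> decide
  one_mem' := Or.inl rfl
  inv_mem' := by
    rintro a (rfl | rfl | rfl | rfl) <;> revert j <;> decide

theorem mem_K {j : ZMod 4} {d : DihedralGroup 4} :
    d ∈ K j ↔ d = 1 ∨ d = r 2 ∨ d = sr j ∨ d = sr (j + 2) := Iff.rfl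

theorem card_K (j : ZMod 4) : Nat.card (K j) = 4 := by
  have hc : ∀ j : ZMod 4, ({1, r 2, sr j, sr (j + 2)} : Finset (DihedralGroup 4)).card = 4 := by
    decide
  have h1 : ((K j : Subgroup (DihedralGroup 4)) : Set (DihedralGroup 4)) =
      ((({1, r 2, sr j, sr (j + 2)} : Finset (DihedralGroup 4)) : Finset (DihedralGroup 4)) :
        Set (DihedralGroup 4)) := by
    ext d
    simp only [SetLike.mem_coe, mem_K, Finset.coe_insert, Finset.coe_singleton,
      Set.mem_insert_iff, Set.mem_singleton_iff]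
  have h2 : Nat.card (K j) = Set.ncard ((K j : Subgroup (DihedralGroup 4)) :
      Set (DihedralGroup 4)) := (Nat.card_coe_set_eq _)
  rw [h2, h1, Set.ncard_coe_finset]
  exact hc j

theorem classify (D : Subgroup (DihedralGroup 4)) (hD : Nat.card D = 4)
    (hexp : ∀ d ∈ D, d ^ 2 = 1) (k : ZMod 4) : D = K k ∨ D = K (k + 1) := by
  have hr : ∀ j : ZMod 4, (r j : DihedralGroup 4) ^ 2 = 1 → j = 0 ∨ j = 2 := by decide
  have hall : ∀ k j : ZMod 4, j = k ∨ j = k + 2 ∨ j = k + 1 ∨ j = k + 1 + 2 := by decide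
  have hodd : ∀ k i j : ZMod 4, (i = k ∨ i = k + 2) → (j = k + 1 ∨ j = k + 1 + 2) →
      ¬ (j - i = 0 ∨ j - i = 2) := by decide
  by_cases h : ∃ i, sr i ∈ D ∧ (i = k ∨ i = k + 2)
  · obtain ⟨i, hi, hik⟩ := h
    left
    refine Subgroup.eq_of_le_of_card_ge ?_ (by rw [hD, card_K])
    intro d hd
    rw [mem_K]
    cases d with
    | r j =>
      rcases hr j (hexp _ hd) with rfl | rfl
      · left
        rfl
      · right; left
        rfl
    | sr j =>
      rcases hall k j with h1 | h1 | h1 | h1
      · right; right; left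
        rw [h1]
      · right; right; right
        rw [h1]
      · exfalso
        have h2 := mul_mem hi hd
        rw [sr_mul_sr] at h2
        exact hodd k i j hik (Or.inl h1) (hr _ (hexp _ h2))
      · exfalso
        have h2 := mul_mem hi hd
        rw [sr_mul_sr] at h2
        exact hodd k i j hik (Or.inr h1) (hr _ (hexp _ h2))
  · right
    refine Subgroup.eq_of_le_of_card_ge ?_ (by rw [hD, card_K])
    intro d hd
    rw [mem_K]
    cases d with
    | r j =>
      rcases hr j (hexp _ hd) with rfl | rfl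
      · left
        rfl
      · right; left
        rfl
    | sr j =>
      rcases hall k j with h1 | h1 | h1 | h1
      · exact absurd ⟨j, hd, Or.inl h1⟩ h
      · exact absurd ⟨j, hd, Or.inr h1⟩ h
      · right; right; left
        rw [h1]
      · right; right; right
        rw [h1]

theorem exp_K (j : ZMod 4) : ∀ d ∈ K j, d ^ 2 = 1 := by
  rintro d (rfl | rfl | rfl | rfl) <;> revert j <;> decide

end Cfsg.Agent.Lib.Helper23.D8
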