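import Mathlib

set_option autoImplicit false

namespace Cfsg.Agent.Lib.Helper23.D8

section core

variable {S : Type*} [Group S] {M : Type*} [AddCommGroup M] [Module (ZMod 2) M]

theorem add_self' (m : M) : m + m = 0 := by
  rw [← two_smul (ZMod 2) m]
  have h : (2 : ZMod 2) = 0 := by decide
  rw [h, zero_smul]

theorem rho_comm (ρ : Representation (ZMod 2) S M) {s a b : S} (h : s * a = b * s) (m : M) :
    ρ s (ρ a m) = ρ b (ρ s m) := by
  rw [← Module.End.mul_apply, ← Module.End.mul_apply, ← map_mul, ← map_mul, h]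

theorem rho_mul2 (ρ : Representation (ZMod 2) S M) {a b c d : S} (h : a * b = c * d) (m : M) :
    ρ a (ρ b m) = ρ c (ρ d m) := by
  rw [← Module.End.mul_apply, ← Module.End.mul_apply, ← map_mul, ← map_mul, h]

theorem rho_inv_fix (ρ : Representation (ZMod 2) S M) {a : S} {m : M} (h : ρ a m = m) :
    ρ a⁻¹ m = m := by
  have h1 : ρ a⁻¹ (ρ a m) = m := by
    rw [← Module.End.mul_apply, ← map_mul, inv_mul_cancel, map_one, Module.End.one_apply]
  rw [h] at h1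
  exact h1

theorem conj_inv {s a b : S} (h : s * a = b * s) : s * a⁻¹ = b⁻¹ * s := by
  rw [eq_comm, inv_mul_eq_iff_eq_mul, ← mul_assoc, ← h, mul_assoc, mul_inv_cancel, mul_one]

theorem inv_fix (W : Submodule (ZMod 2) M) (hW : W ≠ ⊥) (f : M →ₗ[ZMod 2] M)
    (hf : ∀ x ∈ W, f x ∈ W) (hff : ∀ x ∈ W, f (f x) = x) : ∃ x ∈ W, x ≠ 0 ∧ f x = x := by
  obtain ⟨m, hm, hm0⟩ := (Submodule.ne_bot_iff W).mp hW
  by_cases h : f m = m
  · exact ⟨m, hm, hm0, h⟩
  · refine ⟨m + f m, add_mem hm (hf m hm), ?_, ?_⟩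
    · intro h0
      apply h
      have e : f m = m + (m + f m) := by rw [← add_assoc, add_self', zero_add]
      rw [e, h0, add_zero]
    · rw [map_add, hff m hm, add_comm]

theorem sup_inv_same (P Q : Submodule (ZMod 2) M) (f : M →ₗ[ZMod 2] M)
    (hP : ∀ x ∈ P, f x ∈ P) (hQ : ∀ x ∈ Q, f x ∈ Q) : ∀ m ∈ P ⊔ Q, f m ∈ P ⊔ Q := by
  intro m hm
  obtain ⟨x, hx, y, hy, rfl⟩ := Submodule.mem_sup.mp hm
  rw [map_add]
  exact Submodule.add_mem_sup (hP x hx) (hQ y hy)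

theorem sup_inv_swap (P Q : Submodule (ZMod 2) M) (f : M →ₗ[ZMod 2] M)
    (hP : ∀ x ∈ P, f x ∈ Q) (hQ : ∀ x ∈ Q, f x ∈ P) : ∀ m ∈ P ⊔ Q, f m ∈ P ⊔ Q := by
  intro m hm
  obtain ⟨x, hx, y, hy, rfl⟩ := Submodule.mem_sup.mp hm
  rw [map_add, add_comm]
  exact Submodule.add_mem_sup (hQ y hy) (hP x hx)

theorem zmod2_cases (c : ZMod 2) : c = 0 ∨ c = 1 := by
  revert c
  decide

theorem core [Finite M] (ρ : Representation (ZMod 2) S M) (r t u v : S)
    (ht2 : t * t = 1) (hz2 : (r * r) * (r * r) = 1) (hzt : (r * r) * t = t * (r * r))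
    (htr : t * r = r * ((r * r) * t))
    (hv3 : v * v * v = 1) (huv : u * v = v * u)
    (c_tu : t * u = u * t) (c_tv : t * v = v⁻¹ * t) (c_ru : r * u = v * r)
    (c_rv : r * v = u⁻¹ * r)
    (h0 : ∀ m : M, ρ u m = m → ρ v m = m → m = 0)
    (hgen : ∀ N : Submodule (ZMod 2) M, (∀ m ∈ N, ρ u m ∈ N) → (∀ m ∈ N, ρ v m ∈ N) →
      (∀ m ∈ N, ρ r m ∈ N) → (∀ m ∈ N, ρ t m ∈ N) → N = ⊥ ∨ N = ⊤)
    (hne : ∃ m : M, m ≠ 0 ∧ ρ u m = m) :
    Nat.card M = 16 ∧ Nat.card {m : M // ρ (r * r) m = m ∧ ρ t m = m} = 4 ∧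
      Nat.card {m : M // ρ (r * r) m = m ∧ ρ (t * r) m = m} = 2 := by
  have a_tu : ∀ m, ρ t (ρ u m) = ρ u (ρ t m) := fun m => rho_comm ρ c_tu m
  have a_tv : ∀ m, ρ t (ρ v m) = ρ v⁻¹ (ρ t m) := fun m => rho_comm ρ c_tv m
  have a_ru : ∀ m, ρ r (ρ u m) = ρ v (ρ r m) := fun m => rho_comm ρ c_ru m
  have a_rv : ∀ m, ρ r (ρ v m) = ρ u⁻¹ (ρ r m) := fun m => rho_comm ρ c_rv m
  have a_uv : ∀ m, ρ u (ρ v m) = ρ v (ρ u m) := fun m => rho_comm ρ huv m
  have a_zt : ∀ m, ρ (r * r) (ρ t m) = ρ t (ρ (r * r) m) := fun m => rho_comm ρ hzt m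
  have a_tr : ∀ m, ρ t (ρ r m) = ρ r (ρ (r * r) (ρ t m)) := by
    intro m
    rw [← Module.End.mul_apply, ← map_mul, htr, map_mul, map_mul, Module.End.mul_apply,
      Module.End.mul_apply]
  have a_tt : ∀ m, ρ t (ρ t m) = m := by
    intro m
    rw [← Module.End.mul_apply, ← map_mul, ht2, map_one, Module.End.one_apply]
  have a_z : ∀ m, ρ (r * r) m = ρ r (ρ r m) := by
    intro m
    rw [map_mul, Module.End.mul_apply]
  have a_zz : ∀ m, ρ (r * r) (ρ (r * r) m) = m := by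
    intro m
    rw [← Module.End.mul_apply, ← map_mul, hz2, map_one, Module.End.one_apply]
  have a_vvv : ∀ m, ρ v (ρ v (ρ v m)) = m := by
    intro m
    rw [← Module.End.mul_apply, ← Module.End.mul_apply, ← map_mul, ← map_mul, hv3, map_one,
      Module.End.one_apply]
  have hvinv : v⁻¹ = v * v := (eq_inv_of_mul_eq_one_left hv3).symm
  have a_vinv : ∀ m, ρ v⁻¹ m = ρ v (ρ v m) := by
    intro m
    rw [hvinv, map_mul, Module.End.mul_apply]
  have c_zv : (r * r) * v = v⁻¹ * (r * r) := by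
    calc r * r * v = r * (r * v) := mul_assoc _ _ _
      _ = r * (u⁻¹ * r) := by rw [c_rv]
      _ = (r * u⁻¹) * r := (mul_assoc _ _ _).symm
      _ = v⁻¹ * r * r := by rw [conj_inv c_ru]
      _ = v⁻¹ * (r * r) := mul_assoc _ _ _
  have c_zv' : (r * r) * v⁻¹ = v * (r * r) := by
    have h := conj_inv c_zv
    rwa [inv_inv] at h
  have a_zv' : ∀ m, ρ (r * r) (ρ v⁻¹ m) = ρ v (ρ (r * r) m) := fun m => rho_comm ρ c_zv' m
  have c_ur : u * r = r * v⁻¹ := by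
    rw [eq_mul_inv_iff_mul_eq, mul_assoc, c_rv, ← mul_assoc, mul_inv_cancel, one_mul]
  have a_ur : ∀ m, ρ u (ρ r m) = ρ r (ρ v⁻¹ m) := fun m => rho_mul2 ρ c_ur m
  have a_vr : ∀ m, ρ v (ρ r m) = ρ r (ρ u m) := fun m => rho_mul2 ρ c_ru.symm m
  have a_zr : ∀ m, ρ (r * r) (ρ r m) = ρ r (ρ (r * r) m) := by
    intro m
    rw [a_z, a_z]
  -- invariance facts
  have r_V : ∀ m, ρ u m = m → ρ v (ρ r m) = ρ r m := fun m h => by rw [← a_ru, h]
  have r_V' : ∀ m, ρ v m = m → ρ u (ρ r m) = ρ r m := by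
    intro m h
    have h1 := a_rv m
    rw [h] at h1
    have h2 := rho_inv_fix ρ h1.symm
    rwa [inv_inv] at h2
  have t_V : ∀ m, ρ u m = m → ρ u (ρ t m) = ρ t m := fun m h => by rw [← a_tu, h]
  have t_V' : ∀ m, ρ v m = m → ρ v (ρ t m) = ρ t m := by
    intro m h
    have h1 := a_tv m
    rw [h] at h1
    have h2 := rho_inv_fix ρ h1.symm
    rwa [inv_inv] at h2
  have v_V : ∀ m, ρ u m = m → ρ u (ρ v m) = ρ v m := fun m h => by rw [a_uv, h]
  have u_V' : ∀ m, ρ v m = m → ρ v (ρ u m) = ρ u m := fun m h => by rw [← a_uv, h]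
  have z_V : ∀ m, ρ u m = m → ρ u (ρ (r * r) m) = ρ (r * r) m := by
    intro m h
    rw [a_z]
    exact r_V' _ (r_V m h)
  have z_V' : ∀ m, ρ v m = m → ρ v (ρ (r * r) m) = ρ (r * r) m := by
    intro m h
    rw [a_z]
    exact r_V _ (r_V' m h)
  obtain ⟨V, hVdef⟩ : ∃ V : Submodule (ZMod 2) M, V = LinearMap.ker (ρ u - 1) := ⟨_, rfl⟩
  obtain ⟨V', hV'def⟩ : ∃ V' : Submodule (ZMod 2) M, V' = LinearMap.ker (ρ v - 1) := ⟨_, rfl⟩
  have memV : ∀ m, m ∈ V ↔ ρ u m = m := by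
    intro m
    rw [hVdef, LinearMap.mem_ker, LinearMap.sub_apply, Module.End.one_apply, sub_eq_zero]
  have memV' : ∀ m, m ∈ V' ↔ ρ v m = m := by
    intro m
    rw [hV'def, LinearMap.mem_ker, LinearMap.sub_apply, Module.End.one_apply, sub_eq_zero]
  have hVne : V ≠ ⊥ := by
    obtain ⟨m, hm0, hm⟩ := hne
    exact (Submodule.ne_bot_iff V).mpr ⟨m, (memV m).mpr hm, hm0⟩
  have hdisj : ∀ m, m ∈ V → m ∈ V' → m = 0 := fun m h1 h2 => h0 m ((memV m).mp h1) ((memV' m).mp h2)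
  have htop : V ⊔ V' = ⊤ := by
    rcases hgen (V ⊔ V')
      (sup_inv_same V V' (ρ u) (fun x hx => by rw [(memV x).mp hx]; exact hx)
        (fun x hx => (memV' _).mpr (u_V' x ((memV' x).mp hx))))
      (sup_inv_same V V' (ρ v) (fun x hx => (memV _).mpr (v_V x ((memV x).mp hx)))
        (fun x hx => by rw [(memV' x).mp hx]; exact hx))
      (sup_inv_swap V V' (ρ r) (fun x hx => (memV' _).mpr (r_V x ((memV x).mp hx)))
        (fun x hx => (memV _).mpr (r_V' x ((memV' x).mp hx))))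
      (sup_inv_same V V' (ρ t) (fun x hx => (memV _).mpr (t_V x ((memV x).mp hx)))
        (fun x hx => (memV' _).mpr (t_V' x ((memV' x).mp hx)))) with h | h
    · exfalso
      apply hVne
      rw [eq_bot_iff, ← h]
      exact le_sup_left
    · exact h
  -- the big lemma
  have big : ∀ W : Submodule (ZMod 2) M, W ≤ V → W ≠ ⊥ → (∀ x ∈ W, ρ v x ∈ W) →
      (∀ x ∈ W, ρ t x ∈ W) → (∀ x ∈ W, ρ (r * r) (ρ t x) = x) → V ≤ W := by
    intro W hWV hWne hWv hWt hWt'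
    have hWz : ∀ x ∈ W, ρ (r * r) x = ρ t x := by
      intro x hx
      have h1 := hWt' (ρ t x) (hWt x hx)
      rw [a_tt] at h1
      exact h1
    have hN : W ⊔ W.map (ρ r) = ⊤ := by
      rcases hgen (W ⊔ W.map (ρ r))
        (sup_inv_same _ _ (ρ u) (fun x hx => by rw [(memV x).mp (hWV hx)]; exact hx)
          (by
            rintro y ⟨x, hx, rfl⟩
            rw [a_ur, a_vinv]
            exact ⟨_, hWv _ (hWv x hx), rfl⟩))
        (sup_inv_same _ _ (ρ v) hWv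
          (by
            rintro y ⟨x, hx, rfl⟩
            rw [a_vr, (memV x).mp (hWV hx)]
            exact ⟨x, hx, rfl⟩))
        (sup_inv_swap _ _ (ρ r) (fun x hx => ⟨x, hx, rfl⟩)
          (by
            rintro y ⟨x, hx, rfl⟩
            rw [← a_z, hWz x hx]
            exact hWt x hx))
        (sup_inv_same _ _ (ρ t) hWt
          (by
            rintro y ⟨x, hx, rfl⟩
            rw [a_tr, hWt' x hx]
            exact ⟨x, hx, rfl⟩)) with h | h
      · exfalso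
        apply hWne
        rw [eq_bot_iff, ← h]
        exact le_sup_left
      · exact h
    intro m hm
    have hmN : m ∈ W ⊔ W.map (ρ r) := by
      rw [hN]
      exact Submodule.mem_top
    obtain ⟨x, hx, y, ⟨x', hx', rfl⟩, hxy⟩ := Submodule.mem_sup.mp hmN
    have hy : ρ r x' = m - x := by
      rw [← hxy]
      abel
    have hyV : ρ r x' ∈ V := by
      rw [hy]
      exact sub_mem hm (hWV hx)
    have hyV' : ρ r x' ∈ V' := (memV' _).mpr (r_V x' ((memV x').mp (hWV hx')))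
    have hy0 := hdisj _ hyV hyV'
    rw [hy0, add_zero] at hxy
    rw [← hxy]
    exact hx
  -- t' = z t is trivial on V
  have T1 : ∀ x ∈ V, ρ (r * r) (ρ t x) = x := by
    obtain ⟨V₀, hV₀def⟩ : ∃ V₀ : Submodule (ZMod 2) M,
        V₀ = V ⊓ LinearMap.ker (ρ (r * r) * ρ t - 1) := ⟨_, rfl⟩
    have memV₀ : ∀ m, m ∈ V₀ ↔ m ∈ V ∧ ρ (r * r) (ρ t m) = m := by
      intro m
      rw [hV₀def, Submodule.mem_inf, LinearMap.mem_ker, LinearMap.sub_apply,
        Module.End.mul_apply, Module.End.one_apply, sub_eq_zero]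
    have hle : V ≤ V₀ := by
      apply big V₀
      · intro m hm
        exact ((memV₀ m).mp hm).1
      · obtain ⟨x, hxV, hx0, hx⟩ := inv_fix V hVne (ρ (r * r) * ρ t)
          (fun x hx => by
            rw [Module.End.mul_apply]
            exact (memV _).mpr (z_V _ (t_V x ((memV x).mp hx))))
          (fun x _ => by
            rw [Module.End.mul_apply, Module.End.mul_apply, ← a_zt, a_zz, a_tt])
        rw [Module.End.mul_apply] at hx
        exact (Submodule.ne_bot_iff V₀).mpr ⟨x, (memV₀ x).mpr ⟨hxV, hx⟩, hx0⟩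
      · intro x hx
        obtain ⟨hxV, hx'⟩ := (memV₀ x).mp hx
        refine (memV₀ _).mpr ⟨(memV _).mpr (v_V x ((memV x).mp hxV)), ?_⟩
        rw [a_tv, a_zv', hx']
      · intro x hx
        obtain ⟨hxV, hx'⟩ := (memV₀ x).mp hx
        refine (memV₀ _).mpr ⟨(memV _).mpr (t_V x ((memV x).mp hxV)), ?_⟩
        rw [a_zt, hx']
      · intro x hx
        exact ((memV₀ x).mp hx).2
    intro x hx
    exact ((memV₀ x).mp (hle hx)).2
  have T2 : ∀ x ∈ V, ρ (r * r) x = ρ t x := by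
    intro x hx
    have h1 := T1 (ρ t x) ((memV _).mpr (t_V x ((memV x).mp hx)))
    rw [a_tt] at h1
    exact h1
  -- the vector m₀
  obtain ⟨m₀, hm₀V, hm₀, htm₀⟩ := inv_fix V hVne (ρ t)
    (fun x hx => (memV _).mpr (t_V x ((memV x).mp hx))) (fun x _ => a_tt x)
  have hum₀ := (memV m₀).mp hm₀V
  have he0 : m₀ + ρ v m₀ + ρ v (ρ v m₀) = 0 := by
    apply h0
    · rw [map_add, map_add, hum₀, v_V m₀ hum₀, v_V _ (v_V m₀ hum₀)]
    · rw [map_add, map_add, a_vvv]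
      abel
  have hvv : ρ v (ρ v m₀) = m₀ + ρ v m₀ := by
    have h1 : (m₀ + ρ v m₀) + (m₀ + ρ v m₀ + ρ v (ρ v m₀)) = ρ v (ρ v m₀) := by
      rw [← add_assoc, add_self', zero_add]
    rw [he0, add_zero] at h1
    exact h1.symm
  have hspan : ∀ x ∈ V, ∃ c d : ZMod 2, c • m₀ + d • ρ v m₀ = x := by
    have hle : V ≤ Submodule.span (ZMod 2) {m₀, ρ v m₀} := by
      apply big
      · rw [Submodule.span_le]
        rintro x (rfl | rfl)
        · exact hm₀V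
        · exact (memV _).mpr (v_V _ hum₀)
      · exact (Submodule.ne_bot_iff _).mpr
          ⟨m₀, Submodule.subset_span (Set.mem_insert _ _), hm₀⟩
      · intro x hx
        obtain ⟨c, d, rfl⟩ := Submodule.mem_span_pair.mp hx
        refine Submodule.mem_span_pair.mpr ⟨d, c + d, ?_⟩
        rw [map_add, map_smul, map_smul, hvv]
        module
      · intro x hx
        obtain ⟨c, d, rfl⟩ := Submodule.mem_span_pair.mp hx
        refine Submodule.mem_span_pair.mpr ⟨c + d, d, ?_⟩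
        rw [map_add, map_smul, map_smul, a_tv, htm₀, a_vinv, hvv]
        module
      · intro x hx
        apply T1
        have hle' : Submodule.span (ZMod 2) {m₀, ρ v m₀} ≤ V := by
          rw [Submodule.span_le]
          rintro y (rfl | rfl)
          · exact hm₀V
          · exact (memV _).mpr (v_V _ hum₀)
        exact hle' hx
    intro x hx
    exact Submodule.mem_span_pair.mp (hle hx)
  have hind : ∀ c d : ZMod 2, c • m₀ + d • ρ v m₀ = 0 → c = 0 ∧ d = 0 := by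
    intro c d h
    have hvm : ρ v m₀ ≠ 0 := by
      intro h1
      apply hm₀
      have h2 := a_vvv m₀
      rw [h1, map_zero, map_zero] at h2
      exact h2.symm
    rcases zmod2_cases c with rfl | rfl <;> rcases zmod2_cases d with rfl | rfl
    · exact ⟨rfl, rfl⟩
    · rw [zero_smul, zero_add, one_smul] at h
      exact absurd h hvm
    · rw [zero_smul, add_zero, one_smul] at h
      exact absurd h hm₀
    · rw [one_smul, one_smul] at h
      exfalso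
      apply hm₀
      apply h0 m₀ hum₀
      have e : ρ v m₀ = m₀ + (m₀ + ρ v m₀) := by rw [← add_assoc, add_self', zero_add]
      rw [e, h, add_zero]
  have hrinj : ∀ x : M, ρ r x = 0 → x = 0 := by
    intro x hx
    have h1 : ρ r⁻¹ (ρ r x) = x := by
      rw [← Module.End.mul_apply, ← map_mul, inv_mul_cancel, map_one, Module.End.one_apply]
    rw [hx, map_zero] at h1
    exact h1.symm
  have hv1V : ρ v m₀ ∈ V := (memV _).mpr (v_V _ hum₀)
  have key : ∀ c d c' d' : ZMod 2,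
      c • m₀ + d • ρ v m₀ + c' • ρ r m₀ + d' • ρ r (ρ v m₀) = 0 →
      c = 0 ∧ d = 0 ∧ c' = 0 ∧ d' = 0 := by
    intro c d c' d' h
    have hxV : c • m₀ + d • ρ v m₀ ∈ V := add_mem (V.smul_mem c hm₀V) (V.smul_mem d hv1V)
    have hy : c' • ρ r m₀ + d' • ρ r (ρ v m₀) = ρ r (c' • m₀ + d' • ρ v m₀) := by
      rw [map_add, map_smul, map_smul]
    have hyV' : ρ r (c' • m₀ + d' • ρ v m₀) ∈ V' :=
      (memV' _).mpr (r_V _ ((memV _).mp (add_mem (V.smul_mem c' hm₀V) (V.smul_mem d' hv1V))))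
    have hxy : c • m₀ + d • ρ v m₀ = ρ r (c' • m₀ + d' • ρ v m₀) := by
      have h1 : c • m₀ + d • ρ v m₀ + ρ r (c' • m₀ + d' • ρ v m₀) = 0 := by
        rw [← hy, ← add_assoc]
        exact h
      have e : c • m₀ + d • ρ v m₀ = (c • m₀ + d • ρ v m₀ + ρ r (c' • m₀ + d' • ρ v m₀)) +
          ρ r (c' • m₀ + d' • ρ v m₀) := by
        rw [add_assoc, add_self', add_zero]
      rw [e, h1, zero_add]
    have hx0 : c • m₀ + d • ρ v m₀ = 0 := hdisj _ hxV (hxy ▸ hyV')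
    have hy0 : c' • m₀ + d' • ρ v m₀ = 0 := by
      apply hrinj
      rw [← hxy]
      exact hx0
    exact ⟨(hind c d hx0).1, (hind c d hx0).2, (hind c' d' hy0).1, (hind c' d' hy0).2⟩
  obtain ⟨Ψ, hΨ⟩ : ∃ Ψ : ZMod 2 × ZMod 2 × ZMod 2 × ZMod 2 → M, ∀ q, Ψ q =
      q.1 • m₀ + q.2.1 • ρ v m₀ + q.2.2.1 • ρ r m₀ + q.2.2.2 • ρ r (ρ v m₀) := ⟨_, fun q => rfl⟩
  have hΨinj : Function.Injective Ψ := by
    rintro ⟨c, d, c', d'⟩ ⟨a, b, a', b'⟩ h
    rw [hΨ, hΨ] at h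
    have h1 : (c - a) • m₀ + (d - b) • ρ v m₀ + (c' - a') • ρ r m₀ +
        (d' - b') • ρ r (ρ v m₀) = 0 := by
      have e : (c - a) • m₀ + (d - b) • ρ v m₀ + (c' - a') • ρ r m₀ +
          (d' - b') • ρ r (ρ v m₀) =
          (c • m₀ + d • ρ v m₀ + c' • ρ r m₀ + d' • ρ r (ρ v m₀)) -
          (a • m₀ + b • ρ v m₀ + a' • ρ r m₀ + b' • ρ r (ρ v m₀)) := by module
      rw [e]
      exact sub_eq_zero.mpr h
    obtain ⟨e1, e2, e3, e4⟩ := key _ _ _ _ h1
    rw [sub_eq_zero.mp e1, sub_eq_zero.mp e2, sub_eq_zero.mp e3, sub_eq_zero.mp e4]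
  have hΨsurj : Function.Surjective Ψ := by
    intro m
    have hm : m ∈ V ⊔ V' := by
      rw [htop]
      exact Submodule.mem_top
    obtain ⟨x, hx, y, hy, rfl⟩ := Submodule.mem_sup.mp hm
    obtain ⟨c, d, rfl⟩ := hspan x hx
    have hy' : ρ r (ρ (r * r) y) ∈ V :=
      (memV _).mpr (r_V' _ (z_V' y ((memV' y).mp hy)))
    obtain ⟨c', d', hcd⟩ := hspan _ hy'
    have hyy : y = c' • ρ r m₀ + d' • ρ r (ρ v m₀) := by
      have h1 : ρ r (ρ r (ρ (r * r) y)) = y := by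
        rw [← a_z, a_zz]
      rw [← h1, ← hcd, map_add, map_smul, map_smul]
    refine ⟨(c, d, c', d'), ?_⟩
    rw [hΨ, hyy]
    abel
  -- action on the basis
  have te₂ : ρ t (ρ v m₀) = m₀ + ρ v m₀ := by
    rw [a_tv, htm₀, a_vinv, hvv]
  have te₃ : ρ t (ρ r m₀) = ρ r m₀ := by
    rw [a_tr, T1 m₀ hm₀V]
  have te₄ : ρ t (ρ r (ρ v m₀)) = ρ r (ρ v m₀) := by
    rw [a_tr, T1 _ hv1V]
  have ze₁ : ρ (r * r) m₀ = m₀ := by
    rw [T2 m₀ hm₀V, htm₀]
  have ze₂ : ρ (r * r) (ρ v m₀) = m₀ + ρ v m₀ := by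
    rw [T2 _ hv1V, te₂]
  have ze₃ : ρ (r * r) (ρ r m₀) = ρ r m₀ := by
    rw [a_zr, ze₁]
  have ze₄ : ρ (r * r) (ρ r (ρ v m₀)) = ρ r m₀ + ρ r (ρ v m₀) := by
    rw [a_zr, ze₂, map_add]
  have re₃ : ρ r (ρ r m₀) = m₀ := by
    rw [← a_z, ze₁]
  have re₄ : ρ r (ρ r (ρ v m₀)) = m₀ + ρ v m₀ := by
    rw [← a_z, ze₂]
  have tre₄ : ρ t (m₀ + ρ v m₀) = ρ v m₀ := by
    rw [map_add, htm₀, te₂, ← add_assoc, add_self', zero_add]
  have actt : ∀ q, ρ t (Ψ q) = Ψ (q.1 + q.2.1, q.2.1, q.2.2.1, q.2.2.2) := by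
    intro q
    rw [hΨ, hΨ]
    simp only [map_add, map_smul, htm₀, te₂, te₃, te₄]
    module
  have actz : ∀ q, ρ (r * r) (Ψ q) = Ψ (q.1 + q.2.1, q.2.1, q.2.2.1 + q.2.2.2, q.2.2.2) := by
    intro q
    rw [hΨ, hΨ]
    simp only [map_add, map_smul, ze₁, ze₂, ze₃, ze₄]
    module
  have acttr : ∀ q, ρ (t * r) (Ψ q) = Ψ (q.2.2.1, q.2.2.2, q.1, q.2.1) := by
    intro q
    rw [hΨ, hΨ, map_mul, Module.End.mul_apply]
    simp only [map_add, map_smul, re₃, re₄, tre₄, te₃, te₄, htm₀]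
    module
  have hcardQ : Nat.card (ZMod 2 × ZMod 2 × ZMod 2 × ZMod 2) = 16 := by
    rw [Nat.card_eq_fintype_card]
    decide
  refine ⟨?_, ?_, ?_⟩
  · rw [← Nat.card_congr (Equiv.ofBijective Ψ ⟨hΨinj, hΨsurj⟩), hcardQ]
  · have e := Nat.card_congr (Equiv.subtypeEquiv (Equiv.ofBijective Ψ ⟨hΨinj, hΨsurj⟩)
      (p := fun q : ZMod 2 × ZMod 2 × ZMod 2 × ZMod 2 =>
        (q.1 + q.2.1, q.2.1, q.2.2.1 + q.2.2.2, q.2.2.2) = q ∧
        (q.1 + q.2.1, q.2.1, q.2.2.1, q.2.2.2) = q)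
      (q := fun m : M => ρ (r * r) m = m ∧ ρ t m = m)
      (fun q => by
        show _ ↔ ρ (r * r) (Ψ q) = Ψ q ∧ ρ t (Ψ q) = Ψ q
        rw [actz, actt]
        exact ⟨fun h => ⟨congrArg Ψ h.1, congrArg Ψ h.2⟩, fun h => ⟨hΨinj h.1, hΨinj h.2⟩⟩))
    rw [← e, Nat.card_eq_fintype_card]
    decide
  · have e := Nat.card_congr (Equiv.subtypeEquiv (Equiv.ofBijective Ψ ⟨hΨinj, hΨsurj⟩)
      (p := fun q : ZMod 2 × ZMod 2 × ZMod 2 × ZMod 2 =>
        (q.1 + q.2.1, q.2.1, q.2.2.1 + q.2.2.2, q.2.2.2) = q ∧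
        (q.2.2.1, q.2.2.2, q.1, q.2.1) = q)
      (q := fun m : M => ρ (r * r) m = m ∧ ρ (t * r) m = m)
      (fun q => by
        show _ ↔ ρ (r * r) (Ψ q) = Ψ q ∧ ρ (t * r) (Ψ q) = Ψ q
        rw [actz, acttr]
        exact ⟨fun h => ⟨congrArg Ψ h.1, congrArg Ψ h.2⟩, fun h => ⟨hΨinj h.1, hΨinj h.2⟩⟩))
    rw [← e, Nat.card_eq_fintype_card]
    decide

end core

end Cfsg.Agent.Lib.Helper23.D8
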