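import Mathlib
import Cfsg.Agent.Lib.Helper23.D8a
import Cfsg.Agent.Lib.Helper23.D8b

set_option autoImplicit false

namespace Cfsg.Agent.Lib.Helper23.D8

open DihedralGroup

section grp

variable {S : Type*} [Group S]

theorem ne_inv_of_cube {w : S} (h3 : w ^ 3 = 1) (h1 : w ≠ 1) : w ≠ w⁻¹ := by
  intro h
  apply h1
  have h2 : w * w = 1 := by
    have h4 := mul_inv_cancel w
    rwa [← h] at h4
  have h5 : w ^ 3 = w := by rw [pow_succ, pow_two, h2, one_mul]
  rw [h3] at h5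
  exact h5.symm

theorem cube_mul {w : S} (h3 : w ^ 3 = 1) : w * w * w = 1 := by
  rw [← h3, pow_succ, pow_two]

theorem lemG [Finite S] (A : Subgroup S) (hA9 : Nat.card A = 9) (hexp : ∀ a ∈ A, a ^ 3 = 1)
    (L : Subgroup S) {w w' : S} (hw : w ∈ A) (hw' : w' ∈ A) (hw1 : w ≠ 1)
    (h1 : w' ≠ 1) (h2 : w' ≠ w) (h3 : w' ≠ w⁻¹) (hwL : w ∈ L) (hw'L : w' ∈ L) : A ≤ L := by
  have hdvd : Nat.card ↥(A ⊓ L) ∣ 9 := by
    rw [← hA9]
    exact Subgroup.card_dvd_of_le inf_le_left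
  have hcases : Nat.card ↥(A ⊓ L) = 1 ∨ Nat.card ↥(A ⊓ L) = 3 ∨ Nat.card ↥(A ⊓ L) = 9 := by
    have hle : Nat.card ↥(A ⊓ L) ≤ 9 := Nat.le_of_dvd (by norm_num) hdvd
    generalize Nat.card ↥(A ⊓ L) = n at hdvd hle
    interval_cases n <;> revert hdvd <;> decide
  rcases hcases with h | h | h
  · exfalso
    apply hw1
    have hb := Subgroup.card_eq_one.mp h
    have hm : w ∈ A ⊓ L := ⟨hw, hwL⟩
    rw [hb] at hm
    exact Subgroup.mem_bot.mp hm
  · exfalso
    have : Fact (Nat.Prime 3) := ⟨by norm_num⟩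
    have hg : (⟨w, hw, hwL⟩ : ↥(A ⊓ L)) ≠ 1 := by
      intro hh
      exact hw1 (congrArg Subtype.val hh)
    have hmem := mem_powers_of_prime_card h (g' := (⟨w', hw', hw'L⟩ : ↥(A ⊓ L))) hg
    obtain ⟨k, hk⟩ := (Submonoid.mem_powers_iff _ _).mp hmem
    have hk' : w ^ k = w' := by
      have h4 := congrArg Subtype.val hk
      simpa using h4
    have hw3 := hexp w hw
    have hmod : w ^ k = w ^ (k % 3) := by
      conv_lhs => rw [← Nat.div_add_mod k 3]
      rw [pow_add, pow_mul, hw3, one_pow, one_mul]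
    have hk3 : k % 3 < 3 := Nat.mod_lt _ (by norm_num)
    rw [hmod] at hk'
    interval_cases (k % 3)
    · rw [pow_zero] at hk'
      exact h1 hk'.symm
    · rw [pow_one] at hk'
      exact h2 hk'.symm
    · apply h3
      rw [← hk', eq_inv_iff_mul_eq_one, pow_two]
      exact cube_mul hw3
  · have h4 : A ⊓ L = A := Subgroup.eq_of_le_of_card_ge inf_le_left (by rw [h, hA9])
    rw [← h4]
    exact inf_le_right

theorem lemFPF (A : Subgroup S) [hAn : A.Normal] (hcomm : ∀ a ∈ A, ∀ b ∈ A, a * b = b * a)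
    (s : S) (hs : s * s = 1) :
    (∃ a ∈ A, a ≠ 1 ∧ s * a = a * s) ∨ (∀ a ∈ A, s * a = a⁻¹ * s) := by
  by_cases h : ∃ a ∈ A, a ≠ 1 ∧ s * a = a * s
  · exact Or.inl h
  · right
    intro a ha
    have hsinv : s⁻¹ = s := inv_eq_of_mul_eq_one_left hs
    have hc : s * a * s ∈ A := by
      have h1 := hAn.conj_mem a ha s
      rwa [hsinv] at h1
    by_contra hne
    apply h
    refine ⟨a * (s * a * s), mul_mem ha hc, ?_, ?_⟩
    · intro h1
      apply hne
      have h2 : s * a * s = a⁻¹ := eq_inv_of_mul_eq_one_right h1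
      calc s * a = s * a * (s * s) := by rw [hs, mul_one]
        _ = (s * a * s) * s := by group
        _ = a⁻¹ * s := by rw [h2]
    · calc s * (a * (s * a * s)) = (s * a * s) * a * s := by group
        _ = a * (s * a * s) * s := by rw [hcomm _ hc a ha]

/-- relations for the conjugate `v = r u r⁻¹` -/
theorem rels {r t u : S} (htr : t * r = r * ((r * r) * t))
    (hzu : (r * r) * u = u⁻¹ * (r * r)) (htu : t * u = u * t) :
    r * u = (r * u * r⁻¹) * r ∧ r * (r * u * r⁻¹) = u⁻¹ * r ∧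
      t * (r * u * r⁻¹) = (r * u * r⁻¹)⁻¹ * t := by
  refine ⟨by group, ?_, ?_⟩
  · calc r * (r * u * r⁻¹) = ((r * r) * u) * r⁻¹ := by group
      _ = (u⁻¹ * (r * r)) * r⁻¹ := by rw [hzu]
      _ = u⁻¹ * r := by group
  · calc t * (r * u * r⁻¹) = (t * r) * u * r⁻¹ := by group
      _ = (r * ((r * r) * t)) * u * r⁻¹ := by rw [htr]
      _ = r * (r * r) * (t * u) * r⁻¹ := by group
      _ = r * (r * r) * (u * t) * r⁻¹ := by rw [htu]
      _ = r * ((r * r) * u) * t * r⁻¹ := by group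
      _ = r * (u⁻¹ * (r * r)) * t * r⁻¹ := by rw [hzu]
      _ = (r * u * r⁻¹)⁻¹ * (r * ((r * r) * t)) * r⁻¹ := by group
      _ = (r * u * r⁻¹)⁻¹ * (t * r) * r⁻¹ := by rw [← htr]
      _ = (r * u * r⁻¹)⁻¹ * t := by group

theorem vne {t u v : S} (htu : t * u = u * t) (htv : t * v = v⁻¹ * t) (hv3 : v ^ 3 = 1)
    (hv1 : v ≠ 1) : v ≠ u ∧ v ≠ u⁻¹ := by
  have key : t * v = v * t → False := by
    intro h
    rw [htv] at h
    exact ne_inv_of_cube hv3 hv1 (mul_right_cancel h).symm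
  constructor
  · intro h
    apply key
    rw [h]
    exact htu
  · intro h
    apply key
    rw [h]
    exact conj_inv htu

theorem zinv [Finite S] (A : Subgroup S) [hAn : A.Normal]
    (hcomm : ∀ a ∈ A, ∀ b ∈ A, a * b = b * a)
    (hexp : ∀ a ∈ A, a ^ 3 = 1) (hA9 : Nat.card A = 9)
    (r : S) (hzz : (r * r) * (r * r) = 1)
    (hnc : ¬ ∀ a ∈ A, (r * r) * a = a * (r * r)) : ∀ a ∈ A, (r * r) * a = a⁻¹ * (r * r) := by
  rcases lemFPF A hcomm (r * r) hzz with h | h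
  swap
  · exact h
  exfalso
  obtain ⟨a₀, ha₀, ha₀1, ha₀z⟩ := h
  push Not at hnc
  obtain ⟨a₁, ha₁, ha₁z⟩ := hnc
  obtain ⟨z, hz⟩ : ∃ z : S, z = r * r := ⟨_, rfl⟩
  rw [← hz] at hzz ha₀z ha₁z
  have hzi : z⁻¹ = z := inv_eq_of_mul_eq_one_left hzz
  have hzr : z * r = r * z := by rw [hz]; group
  let I : Subgroup S :=
    { carrier := {a | a ∈ A ∧ z * a = a⁻¹ * z}
      mul_mem' := by
        rintro a b ⟨ha, ha'⟩ ⟨hb, hb'⟩
        refine ⟨mul_mem ha hb, ?_⟩
        calc z * (a * b) = (z * a) * b := by group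
          _ = a⁻¹ * (z * b) := by rw [ha']; group
          _ = a⁻¹ * b⁻¹ * z := by rw [hb']; group
          _ = (a * b)⁻¹ * z := by
            rw [mul_inv_rev, hcomm _ (inv_mem ha) _ (inv_mem hb)]
      one_mem' := ⟨one_mem A, by simp⟩
      inv_mem' := by
        rintro a ⟨ha, ha'⟩
        exact ⟨inv_mem ha, conj_inv ha'⟩ }
  have memI : ∀ a, a ∈ I ↔ a ∈ A ∧ z * a = a⁻¹ * z := fun a => Iff.rfl
  have ha₀I : a₀ ∉ I := by
    intro h
    have h1 := ((memI a₀).mp h).2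
    rw [ha₀z] at h1
    exact ne_inv_of_cube (hexp a₀ ha₀) ha₀1 (mul_right_cancel h1)
  obtain ⟨b, hb⟩ : ∃ b : S, b = a₁ * (z * a₁⁻¹ * z) := ⟨_, rfl⟩
  have hbA : b ∈ A := by
    rw [hb]
    refine mul_mem ha₁ ?_
    have h1 := hAn.conj_mem a₁⁻¹ (inv_mem ha₁) z
    rwa [hzi] at h1
  have hbz : z * b = b⁻¹ * z := by
    rw [hb]
    simp only [mul_inv_rev, inv_inv, hzi, mul_assoc]
  have hb1 : b ≠ 1 := by
    intro h
    rw [hb] at h
    have h2 : z * a₁⁻¹ * z = a₁⁻¹ := eq_inv_of_mul_eq_one_right h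
    have h3 : z * a₁⁻¹ = a₁⁻¹ * z := by
      calc z * a₁⁻¹ = z * a₁⁻¹ * (z * z) := by rw [hzz, mul_one]
        _ = (z * a₁⁻¹ * z) * z := by group
        _ = a₁⁻¹ * z := by rw [h2]
    have h4 := conj_inv h3
    rw [inv_inv] at h4
    exact ha₁z h4
  have hbI : b ∈ I := (memI b).mpr ⟨hbA, hbz⟩
  obtain ⟨c, hc⟩ : ∃ c : S, c = r * b * r⁻¹ := ⟨_, rfl⟩
  have hcA : c ∈ A := by
    rw [hc]
    exact hAn.conj_mem b hbA r
  have hcz : z * c = c⁻¹ * z := by
    rw [hc]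
    calc z * (r * b * r⁻¹) = (z * r) * b * r⁻¹ := by group
      _ = r * (z * b) * r⁻¹ := by rw [hzr]; group
      _ = r * b⁻¹ * (z * r⁻¹) := by rw [hbz]; group
      _ = r * b⁻¹ * (r⁻¹ * z) := by
        have h5 : z * r⁻¹ = r⁻¹ * z := by rw [hz]; group
        rw [h5]
      _ = (r * b * r⁻¹)⁻¹ * z := by group
  have hcI : c ∈ I := (memI c).mpr ⟨hcA, hcz⟩
  have hc1 : c ≠ 1 := by
    rw [hc]
    intro h
    exact hb1 (conj_eq_one_iff.mp h)
  have hbad : z * b = b * z → False := by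
    intro h
    rw [hbz] at h
    exact ne_inv_of_cube (hexp b hbA) hb1 (mul_right_cancel h).symm
  by_cases hcb : c = b
  · apply hbad
    have h1 : r * b = b * r := by
      have h2 : r * b = c * r := by rw [hc]; group
      rw [h2, hcb]
    rw [hz]
    calc r * r * b = r * (r * b) := by group
      _ = r * (b * r) := by rw [h1]
      _ = (r * b) * r := by group
      _ = (b * r) * r := by rw [h1]
      _ = b * (r * r) := by group
  by_cases hcb' : c = b⁻¹
  · apply hbad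
    have h1 : r * b = b⁻¹ * r := by
      have h2 : r * b = c * r := by rw [hc]; group
      rw [h2, hcb']
    have h1' : r * b⁻¹ = b * r := by
      have h3 := conj_inv h1
      rwa [inv_inv] at h3
    rw [hz]
    calc r * r * b = r * (r * b) := by group
      _ = r * (b⁻¹ * r) := by rw [h1]
      _ = (r * b⁻¹) * r := by group
      _ = (b * r) * r := by rw [h1']
      _ = b * (r * r) := by group
  exact ha₀I (lemG A hA9 hexp I hbA hcA hb1 hc1 hcb hcb' hbI hcI ha₀)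

end grp

section modl

variable {S : Type*} [Group S] {M : Type*} [AddCommGroup M] [Module (ZMod 2) M]

theorem lemE (ρ : Representation (ZMod 2) S M)
    {w : S} (hw : w ^ 3 = 1) (h : ∀ m : M, ρ w m = m → m = 0) (m : M) :
    m + ρ w m + ρ w (ρ w m) = 0 := by
  apply h
  have h3 : ρ w (ρ w (ρ w m)) = m := by
    rw [← Module.End.mul_apply, ← Module.End.mul_apply, ← map_mul, ← map_mul, cube_mul hw,
      map_one, Module.End.one_apply]
  rw [map_add, map_add, h3]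
  abel

theorem nine_sum (m a b c d e f g h : M)
    (E12 : m + a + b + c + d + e + f + g + h = 0) (E1 : m + c + f = 0) (E2 : m + a + b = 0)
    (E3 : m + d + h = 0) (E4 : m + e + g = 0) : m = 0 := by
  have key : (m + a + b + c + d + e + f + g + h) + (m + c + f) + (m + a + b) + (m + d + h) +
      (m + e + g) = m + ((m + m + a + b + c + d + e + f + g + h) +
        (m + m + a + b + c + d + e + f + g + h)) := by abel
  rw [E12, E1, E2, E3, E4, add_self' (m + m + a + b + c + d + e + f + g + h)] at key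
  simpa using key.symm

theorem P5 (ρ : Representation (ZMod 2) S M)
    {u v : S} (hu : u ^ 3 = 1) (hv : v ^ 3 = 1) (huv : u * v = v * u) (hM : ∃ m : M, m ≠ 0) :
    (∃ m : M, m ≠ 0 ∧ ρ u m = m) ∨ (∃ m : M, m ≠ 0 ∧ ρ v m = m) ∨
    (∃ m : M, m ≠ 0 ∧ ρ (u * v) m = m) ∨ (∃ m : M, m ≠ 0 ∧ ρ (u * v⁻¹) m = m) := by
  by_contra hcon
  push Not at hcon
  obtain ⟨h1, h2, h3, h4⟩ := hcon
  have g1 : ∀ m : M, ρ u m = m → m = 0 := fun m hm => by_contra fun h0 => h1 m h0 hm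
  have g2 : ∀ m : M, ρ v m = m → m = 0 := fun m hm => by_contra fun h0 => h2 m h0 hm
  have g3 : ∀ m : M, ρ (u * v) m = m → m = 0 := fun m hm => by_contra fun h0 => h3 m h0 hm
  have g4 : ∀ m : M, ρ (u * v⁻¹) m = m → m = 0 := fun m hm => by_contra fun h0 => h4 m h0 hm
  have hc : Commute u v := huv
  have huv3 : (u * v) ^ 3 = 1 := by rw [hc.mul_pow, hu, hv, one_mul]
  have huvi3 : (u * v⁻¹) ^ 3 = 1 := by rw [hc.inv_right.mul_pow, hu, inv_pow, hv, inv_one, one_mul]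
  have hvinv : v⁻¹ = v * v := (eq_inv_of_mul_eq_one_left (cube_mul hv)).symm
  have a_vu : ∀ x, ρ v (ρ u x) = ρ u (ρ v x) := fun x => (rho_comm ρ huv x).symm
  have a_v3 : ∀ x, ρ v (ρ v (ρ v x)) = x := by
    intro x
    rw [← Module.End.mul_apply, ← Module.End.mul_apply, ← map_mul, ← map_mul, cube_mul hv,
      map_one, Module.End.one_apply]
  obtain ⟨m, hm⟩ := hM
  apply hm
  have e1 := lemE ρ hu g1 m
  have e2 := lemE ρ hv g2 m
  have e3 : m + ρ u (ρ v m) + ρ u (ρ u (ρ v (ρ v m))) = 0 := by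
    have h5 := lemE ρ huv3 g3 m
    simp only [map_mul, Module.End.mul_apply, a_vu] at h5
    exact h5
  have e4 : m + ρ u (ρ v (ρ v m)) + ρ u (ρ u (ρ v m)) = 0 := by
    have h5 := lemE ρ huvi3 g4 m
    rw [hvinv] at h5
    simp only [map_mul, Module.End.mul_apply, a_vu, a_v3] at h5
    exact h5
  have e12 : m + ρ v m + ρ v (ρ v m) + ρ u m + ρ u (ρ v m) + ρ u (ρ v (ρ v m)) + ρ u (ρ u m) +
      ρ u (ρ u (ρ v m)) + ρ u (ρ u (ρ v (ρ v m))) = 0 := by
    have h5 := lemE ρ hu g1 (m + ρ v m + ρ v (ρ v m))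
    simp only [map_add] at h5
    rw [← h5]
    abel
  exact nine_sum m _ _ _ _ _ _ _ _ e12 e1 e2 e3 e4

end modl

end Cfsg.Agent.Lib.Helper23.D8
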