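import Mathlib
import Cfsg.Agent.Lib.Helper23.D8a
import Cfsg.Agent.Lib.Helper23.D8b
import Cfsg.Agent.Lib.Helper23.D8c

set_option autoImplicit false

namespace Cfsg.Agent.Lib.Helper23.D8

open DihedralGroup

section mid

variable {S : Type*} [Group S] {M : Type*} [AddCommGroup M] [Module (ZMod 2) M]

theorem mid [Finite S] [Finite M] (A : Subgroup S) [hAn : A.Normal]
    (hcomm : ∀ a ∈ A, ∀ b ∈ A, a * b = b * a)
    (hexp : ∀ a ∈ A, a ^ 3 = 1) (hA9 : Nat.card A = 9)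
    (ι : DihedralGroup 4 →* S)
    (hAX : ∀ L : Subgroup S, A ≤ L → (∀ d, ι d ∈ L) → L = ⊤)
    (hzinv : ∀ a ∈ A, (ι (r 1) * ι (r 1)) * a = a⁻¹ * (ι (r 1) * ι (r 1)))
    (ρ : Representation (ZMod 2) S M)
    (hCA : ∀ m : M, (∀ a ∈ A, ρ a m = m) → m = 0)
    (hirr : ∀ N : Submodule (ZMod 2) M, (∀ s : S, ∀ m ∈ N, ρ s m ∈ N) → N = ⊥ ∨ N = ⊤)
    (k : ZMod 4) (u : S) (hu : u ∈ A) (hu1 : u ≠ 1) (htu : ι (sr k) * u = u * ι (sr k))
    (hne : ∃ m : M, m ≠ 0 ∧ ρ u m = m) :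
    Nat.card M = 16 ∧
      Nat.card {m : M // ρ (ι (r 1) * ι (r 1)) m = m ∧ ρ (ι (sr k)) m = m} = 4 ∧
      Nat.card {m : M // ρ (ι (r 1) * ι (r 1)) m = m ∧ ρ (ι (sr (k + 1))) m = m} = 2 := by
  have d1 : ∀ k : ZMod 4, (sr k : DihedralGroup 4) * sr k = 1 := by decide
  have d2 : (r 1 * r 1 : DihedralGroup 4) * (r 1 * r 1) = 1 := by decide
  have d3 : ∀ k : ZMod 4, (r 1 * r 1 : DihedralGroup 4) * sr k = sr k * (r 1 * r 1) := by decide
  have d4 : ∀ k : ZMod 4, (sr k : DihedralGroup 4) * r 1 = r 1 * ((r 1 * r 1) * sr k) := by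
    decide
  have d5 : (r 1 : DihedralGroup 4)⁻¹ = r 1 * r 1 * r 1 := by decide
  have d6 : ∀ k : ZMod 4, (sr k : DihedralGroup 4)⁻¹ = sr k := by decide
  have htr1 : ι (sr (k + 1)) = ι (sr k) * ι (r 1) := by rw [← map_mul, sr_mul_r]
  obtain ⟨r₀, hr₀⟩ : ∃ r₀ : S, r₀ = ι (r 1) := ⟨_, rfl⟩
  obtain ⟨t, ht⟩ : ∃ t : S, t = ι (sr k) := ⟨_, rfl⟩
  rw [htr1, ← hr₀, ← ht]
  rw [← hr₀] at hzinv
  rw [← ht] at htu
  have ht2 : t * t = 1 := by rw [ht, ← map_mul, d1, map_one]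
  have hz2 : (r₀ * r₀) * (r₀ * r₀) = 1 := by
    rw [hr₀]
    simp only [← map_mul]
    rw [d2, map_one]
  have hzt : (r₀ * r₀) * t = t * (r₀ * r₀) := by
    rw [hr₀, ht]
    simp only [← map_mul]
    rw [d3]
  have htr : t * r₀ = r₀ * ((r₀ * r₀) * t) := by
    rw [hr₀, ht]
    simp only [← map_mul]
    rw [d4]
  have hr₀inv : r₀⁻¹ = r₀ * r₀ * r₀ := by
    rw [hr₀, ← map_inv, d5]
    simp only [map_mul]
  have htinv : t⁻¹ = t := by rw [ht, ← map_inv, d6]
  obtain ⟨v, hv⟩ : ∃ v : S, v = r₀ * u * r₀⁻¹ := ⟨_, rfl⟩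
  have hvA : v ∈ A := by
    rw [hv]
    exact hAn.conj_mem u hu r₀
  obtain ⟨c_ru, c_rv, c_tv⟩ := rels htr (hzinv u hu) htu
  rw [← hv] at c_ru c_rv c_tv
  have hv3 := hexp v hvA
  have hu3 := hexp u hu
  have hv1 : v ≠ 1 := by
    rw [hv]
    intro h
    exact hu1 (conj_eq_one_iff.mp h)
  obtain ⟨hvu, hvu'⟩ := vne htu c_tv hv3 hv1
  have hgenA : ∀ L : Subgroup S, u ∈ L → v ∈ L → A ≤ L := fun L h1 h2 =>
    lemG A hA9 hexp L hu hvA hu1 hv1 hvu hvu' h1 h2
  have huinv : u⁻¹ = u * u := (eq_inv_of_mul_eq_one_left (cube_mul hu3)).symm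
  have hvinv : v⁻¹ = v * v := (eq_inv_of_mul_eq_one_left (cube_mul hv3)).symm
  have h0 : ∀ m : M, ρ u m = m → ρ v m = m → m = 0 := by
    intro m h1 h2
    apply hCA
    let L : Subgroup S :=
      { carrier := {s | ρ s m = m}
        mul_mem' := by
          intro a b ha hb
          show ρ (a * b) m = m
          rw [map_mul, Module.End.mul_apply, hb, ha]
        one_mem' := by
          show ρ 1 m = m
          rw [map_one, Module.End.one_apply]
        inv_mem' := by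
          intro a ha
          exact rho_inv_fix ρ ha }
    intro a ha
    exact hgenA L h1 h2 ha
  have hgen : ∀ N : Submodule (ZMod 2) M, (∀ m ∈ N, ρ u m ∈ N) → (∀ m ∈ N, ρ v m ∈ N) →
      (∀ m ∈ N, ρ r₀ m ∈ N) → (∀ m ∈ N, ρ t m ∈ N) → N = ⊥ ∨ N = ⊤ := by
    intro N h1 h2 h3 h4
    apply hirr
    let L : Subgroup S :=
      { carrier := {s | ∀ m ∈ N, ρ s m ∈ N ∧ ρ s⁻¹ m ∈ N}
        mul_mem' := by
          intro a b ha hb m hm
          constructor
          · rw [map_mul, Module.End.mul_apply]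
            exact (ha _ (hb m hm).1).1
          · rw [mul_inv_rev, map_mul, Module.End.mul_apply]
            exact (hb _ (ha m hm).2).2
        one_mem' := by
          intro m hm
          rw [inv_one, map_one, Module.End.one_apply]
          exact ⟨hm, hm⟩
        inv_mem' := by
          intro a ha m hm
          rw [inv_inv]
          exact ⟨(ha m hm).2, (ha m hm).1⟩ }
    have memL : ∀ s, s ∈ L ↔ ∀ m ∈ N, ρ s m ∈ N ∧ ρ s⁻¹ m ∈ N := fun s => Iff.rfl
    have huL : u ∈ L := by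
      rw [memL]
      intro m hm
      refine ⟨h1 m hm, ?_⟩
      rw [huinv, map_mul, Module.End.mul_apply]
      exact h1 _ (h1 m hm)
    have hvL : v ∈ L := by
      rw [memL]
      intro m hm
      refine ⟨h2 m hm, ?_⟩
      rw [hvinv, map_mul, Module.End.mul_apply]
      exact h2 _ (h2 m hm)
    have hrL : r₀ ∈ L := by
      rw [memL]
      intro m hm
      refine ⟨h3 m hm, ?_⟩
      rw [hr₀inv, map_mul, map_mul, Module.End.mul_apply, Module.End.mul_apply]
      exact h3 _ (h3 _ (h3 m hm))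
    have htL : t ∈ L := by
      rw [memL]
      intro m hm
      rw [htinv]
      exact ⟨h4 m hm, h4 m hm⟩
    have hD : ∀ d : DihedralGroup 4, ι d ∈ L := by
      have hri : ∀ i : ZMod 4, ι (r i) ∈ L := by
        intro i
        have e : (r i : DihedralGroup 4) = r 1 ^ i.val := by
          rw [r_one_pow, ZMod.natCast_zmod_val]
        rw [e, map_pow, ← hr₀]
        exact pow_mem hrL _
      intro d
      cases d with
      | r i => exact hri i
      | sr i =>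
        have e : (sr i : DihedralGroup 4) = sr k * r (i - k) := by
          rw [sr_mul_r, add_sub_cancel]
        rw [e, map_mul, ← ht]
        exact mul_mem htL (hri _)
    have hLtop : L = ⊤ := hAX L (hgenA L huL hvL) hD
    intro s m hm
    have hs : s ∈ L := by
      rw [hLtop]
      exact Subgroup.mem_top s
    exact (hs m hm).1
  exact core ρ r₀ t u v ht2 hz2 hzt htr (cube_mul hv3) (hcomm u hu v hvA) htu c_tv c_ru c_rv h0
    hgen hne

theorem fixK (ι : DihedralGroup 4 →* S) (ρ : Representation (ZMod 2) S M) (j : ZMod 4) (m : M) :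
    (∀ b ∈ (K j).map ι, ρ b m = m) ↔ (ρ (ι (r 1) * ι (r 1)) m = m ∧ ρ (ι (sr j)) m = m) := by
  have e1 : (r 1 * r 1 : DihedralGroup 4) = r 2 := by decide
  have e2 : ∀ j : ZMod 4, (sr (j + 2) : DihedralGroup 4) = r 2 * sr j := by decide
  rw [← map_mul, e1]
  constructor
  · intro h
    exact ⟨h _ (Subgroup.mem_map_of_mem ι (mem_K.mpr (Or.inr (Or.inl rfl)))),
      h _ (Subgroup.mem_map_of_mem ι (mem_K.mpr (Or.inr (Or.inr (Or.inl rfl)))))⟩
  · rintro ⟨h1, h2⟩ b hb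
    obtain ⟨d, hd, rfl⟩ := Subgroup.mem_map.mp hb
    rcases mem_K.mp hd with rfl | rfl | rfl | rfl
    · rw [map_one, map_one, Module.End.one_apply]
    · exact h1
    · exact h2
    · rw [e2, map_mul, map_mul, Module.End.mul_apply, h2, h1]

end mid

end Cfsg.Agent.Lib.Helper23.D8
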