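import Mathlib
import Cfsg.Agent.Lib.Helper23.D8a
import Cfsg.Agent.Lib.Helper23.D8b
import Cfsg.Agent.Lib.Helper23.D8c
import Cfsg.Agent.Lib.Helper23.D8d

set_option autoImplicit false

namespace Cfsg.Agent.Lib.Helper23.D8

open DihedralGroup

theorem final {S : Type*} [Group S] [Finite S]
    (A : Subgroup S) [hAn : A.Normal] (hcomm : ∀ a ∈ A, ∀ b ∈ A, a * b = b * a)
    (hexp : ∀ a ∈ A, a ^ 3 = 1) (hA9 : Nat.card ↥A = 9)
    (hAC : Subgroup.centralizer (A : Set S) = A) (X : Subgroup S)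
    (φ : ↥X ≃* DihedralGroup 4) (hAX : A ⊔ X = ⊤)
    {M : Type*} [AddCommGroup M] [Module (ZMod 2) M] [Finite M]
    (ρ : Representation (ZMod 2) S M)
    (hfaith : Function.Injective ρ)
    (hirr : ∀ N : Submodule (ZMod 2) M, (∀ s : S, ∀ m ∈ N, ρ s m ∈ N) → N = ⊥ ∨ N = ⊤)
    (hM : Nontrivial M) :
    Nat.card M = 16 ∧
      ∃! B : Subgroup S, B ≤ X ∧ Nat.card ↥B = 4 ∧ (∀ b ∈ B, b ^ 2 = 1) ∧
        Nat.card {m : M // ∀ b ∈ B, ρ b m = m} = 2 := by
  obtain ⟨ι, hι⟩ : ∃ ι : DihedralGroup 4 →* S, ι = X.subtype.comp φ.symm.toMonoidHom :=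
    ⟨_, rfl⟩
  have hιapp : ∀ d, ι d = ((φ.symm d : ↥X) : S) := by
    intro d
    rw [hι]
    rfl
  have hιinj : Function.Injective ι := by
    intro d d' h
    rw [hιapp, hιapp] at h
    exact φ.symm.injective (Subtype.ext h)
  have hιX : ∀ d, ι d ∈ X := by
    intro d
    rw [hιapp]
    exact (φ.symm d).2
  have hXι : ∀ x ∈ X, ∃ d, ι d = x := by
    intro x hx
    refine ⟨φ ⟨x, hx⟩, ?_⟩
    rw [hιapp, MulEquiv.symm_apply_apply]
  have hd3 : ∀ d : DihedralGroup 4, d ^ 3 = 1 → d = 1 := by decide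
  have hAι : ∀ d, ι d ∈ A → d = 1 := by
    intro d hd
    have h3 := hexp _ hd
    rw [← map_pow] at h3
    exact hd3 d (hιinj (by rw [h3, map_one]))
  have hcent : ∀ d, (∀ a ∈ A, ι d * a = a * ι d) → d = 1 := by
    intro d h
    apply hAι
    rw [← hAC, Subgroup.mem_centralizer_iff]
    intro a ha
    exact (h a ha).symm
  have hAX' : ∀ L : Subgroup S, A ≤ L → (∀ d, ι d ∈ L) → L = ⊤ := by
    intro L hAL hd
    rw [eq_top_iff, ← hAX]
    refine sup_le hAL ?_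
    intro x hx
    obtain ⟨d, rfl⟩ := hXι x hx
    exact hd d
  have hzinv : ∀ a ∈ A, (ι (r 1) * ι (r 1)) * a = a⁻¹ * (ι (r 1) * ι (r 1)) := by
    apply zinv A hcomm hexp hA9 (ι (r 1))
    · simp only [← map_mul]
      have e : (r 1 * r 1 : DihedralGroup 4) * (r 1 * r 1) = 1 := by decide
      rw [e, map_one]
    · intro h
      rw [← map_mul] at h
      have h1 := hcent _ h
      revert h1
      decide
  have hCA : ∀ m : M, (∀ a ∈ A, ρ a m = m) → m = 0 := by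
    let N : Submodule (ZMod 2) M :=
      { carrier := {m | ∀ a ∈ A, ρ a m = m}
        add_mem' := by
          intro x y hx hy a ha
          rw [map_add, hx a ha, hy a ha]
        zero_mem' := by
          intro a ha
          rw [map_zero]
        smul_mem' := by
          intro c x hx a ha
          rw [map_smul, hx a ha] }
    have memN : ∀ m, m ∈ N ↔ ∀ a ∈ A, ρ a m = m := fun m => Iff.rfl
    have hN : N = ⊥ ∨ N = ⊤ := by
      apply hirr
      intro s m hm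
      rw [memN] at hm ⊢
      intro a ha
      have h1 : s⁻¹ * a * s ∈ A := by
        have h2 := hAn.conj_mem a ha s⁻¹
        rwa [inv_inv] at h2
      have h2 : a * s = s * (s⁻¹ * a * s) := by group
      rw [← Module.End.mul_apply, ← map_mul, h2, map_mul, Module.End.mul_apply, hm _ h1]
    rcases hN with h | h
    · intro m hm
      have h1 : m ∈ N := (memN m).mpr hm
      rw [h] at h1
      exact (Submodule.mem_bot _).mp h1
    · exfalso
      have hA1 : ∀ a ∈ A, a = 1 := by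
        intro a ha
        apply hfaith
        rw [map_one]
        ext m
        have h1 : m ∈ N := by
          rw [h]
          exact Submodule.mem_top
        rw [Module.End.one_apply]
        exact (memN m).mp h1 a ha
      have h2 : A = ⊥ := (Subgroup.eq_bot_iff_forall A).mpr hA1
      rw [h2, Subgroup.card_bot] at hA9
      norm_num at hA9
  have hs0 : ι (sr 0) * ι (sr 0) = 1 := by
    rw [← map_mul]
    have e : (sr 0 * sr 0 : DihedralGroup 4) = 1 := by decide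
    rw [e, map_one]
  obtain ⟨u₀, hu₀, hu₀1, htu₀⟩ : ∃ u₀ ∈ A, u₀ ≠ 1 ∧ ι (sr 0) * u₀ = u₀ * ι (sr 0) := by
    rcases lemFPF A hcomm (ι (sr 0)) hs0 with h | h
    · exact h
    · exfalso
      have h1 : (sr 0 * (r 1 * r 1) : DihedralGroup 4) = 1 := by
        apply hcent
        intro a ha
        rw [map_mul, map_mul, mul_assoc, hzinv a ha, ← mul_assoc, h a⁻¹ (inv_mem ha), inv_inv,
          mul_assoc]
      revert h1
      decide
  obtain ⟨r₀, hr₀⟩ : ∃ r₀ : S, r₀ = ι (r 1) := ⟨_, rfl⟩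
  obtain ⟨t₀, ht₀⟩ : ∃ t₀ : S, t₀ = ι (sr 0) := ⟨_, rfl⟩
  have hzinv' : ∀ a ∈ A, (r₀ * r₀) * a = a⁻¹ * (r₀ * r₀) := by
    rw [hr₀]
    exact hzinv
  have htu₀' : t₀ * u₀ = u₀ * t₀ := by
    rw [ht₀]
    exact htu₀
  have htr : t₀ * r₀ = r₀ * ((r₀ * r₀) * t₀) := by
    rw [hr₀, ht₀]
    simp only [← map_mul]
    have e : (sr 0 * r 1 : DihedralGroup 4) = r 1 * (r 1 * r 1 * sr 0) := by decide
    rw [e]
  obtain ⟨v₀, hv₀⟩ : ∃ v₀ : S, v₀ = r₀ * u₀ * r₀⁻¹ := ⟨_, rfl⟩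
  have hv₀A : v₀ ∈ A := by
    rw [hv₀]
    exact hAn.conj_mem u₀ hu₀ r₀
  obtain ⟨c_ru, c_rv, c_tv⟩ := rels htr (hzinv' u₀ hu₀) htu₀'
  rw [← hv₀] at c_ru c_rv c_tv
  have hu3 := hexp u₀ hu₀
  have hv3 := hexp v₀ hv₀A
  have hv1 : v₀ ≠ 1 := by
    rw [hv₀]
    intro h
    exact hu₀1 (conj_eq_one_iff.mp h)
  obtain ⟨hvu, hvu'⟩ := vne htu₀' c_tv hv3 hv1
  have huv : u₀ * v₀ = v₀ * u₀ := hcomm u₀ hu₀ v₀ hv₀A
  have c_rv' : r₀ * v₀⁻¹ = u₀ * r₀ := by
    have h2 := conj_inv c_rv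
    rwa [inv_inv] at h2
  have hex : ∃ k : ZMod 4, ∃ w ∈ A, w ≠ 1 ∧ ι (sr k) * w = w * ι (sr k) ∧
      ∃ m : M, m ≠ 0 ∧ ρ w m = m := by
    obtain ⟨m₁, hm₁⟩ := exists_ne (0 : M)
    rcases P5 ρ hu3 hv3 huv ⟨m₁, hm₁⟩ with h | h | h | h
    · exact ⟨0, u₀, hu₀, hu₀1, htu₀, h⟩
    · refine ⟨2, v₀, hv₀A, hv1, ?_, h⟩
      have e : ι (sr 2) = r₀ * t₀ * r₀⁻¹ := by
        rw [hr₀, ht₀, ← map_inv]
        simp only [← map_mul]
        have e' : (sr 2 : DihedralGroup 4) = r 1 * sr 0 * (r 1)⁻¹ := by decide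
        rw [← e']
      rw [e, hv₀]
      calc r₀ * t₀ * r₀⁻¹ * (r₀ * u₀ * r₀⁻¹) = r₀ * (t₀ * u₀) * r₀⁻¹ := by group
        _ = r₀ * (u₀ * t₀) * r₀⁻¹ := by rw [htu₀']
        _ = r₀ * u₀ * r₀⁻¹ * (r₀ * t₀ * r₀⁻¹) := by group
    · refine ⟨3, u₀ * v₀, mul_mem hu₀ hv₀A, ?_, ?_, h⟩
      · intro h1
        exact hvu' (eq_inv_of_mul_eq_one_right h1)
      · have e : ι (sr 3) = r₀ * t₀ := by
          rw [hr₀, ht₀, ← map_mul]
          have e' : (sr 3 : DihedralGroup 4) = r 1 * sr 0 := by decide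
          rw [← e']
        rw [e]
        have c1 : r₀ * t₀ * u₀ = v₀ * (r₀ * t₀) := by
          calc r₀ * t₀ * u₀ = r₀ * (t₀ * u₀) := by group
            _ = r₀ * (u₀ * t₀) := by rw [htu₀']
            _ = (r₀ * u₀) * t₀ := by group
            _ = (v₀ * r₀) * t₀ := by rw [c_ru]
            _ = v₀ * (r₀ * t₀) := by group
        have c2 : r₀ * t₀ * v₀ = u₀ * (r₀ * t₀) := by
          calc r₀ * t₀ * v₀ = r₀ * (t₀ * v₀) := by group
            _ = r₀ * (v₀⁻¹ * t₀) := by rw [c_tv]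
            _ = (r₀ * v₀⁻¹) * t₀ := by group
            _ = (u₀ * r₀) * t₀ := by rw [c_rv']
            _ = u₀ * (r₀ * t₀) := by group
        calc r₀ * t₀ * (u₀ * v₀) = (r₀ * t₀ * u₀) * v₀ := by group
          _ = v₀ * (r₀ * t₀ * v₀) := by rw [c1]; group
          _ = v₀ * (u₀ * (r₀ * t₀)) := by rw [c2]
          _ = (v₀ * u₀) * (r₀ * t₀) := by group
          _ = u₀ * v₀ * (r₀ * t₀) := by rw [huv]
    · refine ⟨1, u₀ * v₀⁻¹, mul_mem hu₀ (inv_mem hv₀A), ?_, ?_, h⟩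
      · intro h1
        exact hvu (mul_inv_eq_one.mp h1).symm
      · have e : ι (sr 1) = t₀ * r₀ := by
          rw [hr₀, ht₀, ← map_mul]
          have e' : (sr 1 : DihedralGroup 4) = sr 0 * r 1 := by decide
          rw [← e']
        rw [e]
        have c1 : t₀ * r₀ * u₀ = v₀⁻¹ * (t₀ * r₀) := by
          calc t₀ * r₀ * u₀ = t₀ * (r₀ * u₀) := by group
            _ = t₀ * (v₀ * r₀) := by rw [c_ru]
            _ = (t₀ * v₀) * r₀ := by group
            _ = (v₀⁻¹ * t₀) * r₀ := by rw [c_tv]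
            _ = v₀⁻¹ * (t₀ * r₀) := by group
        have c2 : t₀ * r₀ * v₀⁻¹ = u₀ * (t₀ * r₀) := by
          calc t₀ * r₀ * v₀⁻¹ = t₀ * (r₀ * v₀⁻¹) := by group
            _ = t₀ * (u₀ * r₀) := by rw [c_rv']
            _ = (t₀ * u₀) * r₀ := by group
            _ = (u₀ * t₀) * r₀ := by rw [htu₀']
            _ = u₀ * (t₀ * r₀) := by group
        calc t₀ * r₀ * (u₀ * v₀⁻¹) = (t₀ * r₀ * u₀) * v₀⁻¹ := by group
          _ = v₀⁻¹ * (t₀ * r₀ * v₀⁻¹) := by rw [c1]; group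
          _ = v₀⁻¹ * (u₀ * (t₀ * r₀)) := by rw [c2]
          _ = (v₀⁻¹ * u₀) * (t₀ * r₀) := by group
          _ = u₀ * v₀⁻¹ * (t₀ * r₀) := by rw [hcomm _ (inv_mem hv₀A) _ hu₀]
  obtain ⟨k, w, hw, hw1, htw, hne⟩ := hex
  obtain ⟨hcard, h4, h2⟩ := mid A hcomm hexp hA9 ι hAX' hzinv ρ hCA hirr k w hw hw1 htw hne
  refine ⟨hcard, ?_⟩
  have hcount : ∀ j : ZMod 4, Nat.card {m : M // ∀ b ∈ (K j).map ι, ρ b m = m} =
      Nat.card {m : M // ρ (ι (r 1) * ι (r 1)) m = m ∧ ρ (ι (sr j)) m = m} := fun j =>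
    Nat.card_congr (Equiv.subtypeEquivRight (fun m => fixK ι ρ j m))
  refine ⟨(K (k + 1)).map ι, ⟨?_, ?_, ?_, ?_⟩, ?_⟩
  · intro b hb
    obtain ⟨d, _, rfl⟩ := Subgroup.mem_map.mp hb
    exact hιX d
  · rw [Subgroup.card_map_of_injective hιinj, card_K]
  · intro b hb
    obtain ⟨d, hd, rfl⟩ := Subgroup.mem_map.mp hb
    rw [← map_pow, exp_K _ d hd, map_one]
  · rw [hcount, h2]
  · rintro B ⟨hBX, hB4, hBexp, hBcount⟩
    have hBmap : B = (B.comap ι).map ι := by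
      apply le_antisymm
      · intro b hb
        obtain ⟨d, rfl⟩ := hXι b (hBX hb)
        exact Subgroup.mem_map_of_mem ι (Subgroup.mem_comap.mpr hb)
      · exact Subgroup.map_comap_le ι B
    have hD4 : Nat.card (B.comap ι) = 4 := by
      rw [← Subgroup.card_map_of_injective hιinj, ← hBmap, hB4]
    have hDexp : ∀ d ∈ B.comap ι, d ^ 2 = 1 := by
      intro d hd
      apply hιinj
      rw [map_pow, map_one]
      exact hBexp _ (Subgroup.mem_comap.mp hd)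
    rcases classify (B.comap ι) hD4 hDexp k with h | h
    · exfalso
      rw [hBmap, h, hcount, h4] at hBcount
      norm_num at hBcount
    · rw [hBmap, h]

end Cfsg.Agent.Lib.Helper23.D8
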