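import Mathlib
import Cfsg.Prelude.Def_Solvable

set_option autoImplicit false

namespace Cfsg.Agent.Lib.Helper23.FrobSemi

open scoped Pointwise

universe u v

theorem mem_conj_smul {G : Type*} [Group G] (H : Subgroup G) (g y : G) :
    y ∈ MulAut.conj g • H ↔ g⁻¹ * y * g ∈ H := by
  rw [Subgroup.mem_pointwise_smul_iff_inv_smul_mem]
  simp [MulAut.smul_def]

theorem isFrobeniusComplement_iff {G : Type*} [Group G] (H : Subgroup G) :
    Cfsg.IsFrobeniusComplement H ↔
      H ≠ ⊥ ∧ H ≠ ⊤ ∧ ∀ g : G, g ∉ H → ∀ h ∈ H, g⁻¹ * h * g ∈ H → h = 1 := by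
  unfold Cfsg.IsFrobeniusComplement
  refine and_congr Iff.rfl (and_congr Iff.rfl (forall_congr' fun g => imp_congr Iff.rfl ?_))
  rw [eq_bot_iff]
  constructor
  · intro hle h hh hc
    have : h ∈ H ⊓ MulAut.conj g • H := ⟨hh, (mem_conj_smul H g h).2 hc⟩
    exact Subgroup.mem_bot.1 (hle this)
  · intro hall h hh
    rw [Subgroup.mem_bot]
    exact hall h hh.1 ((mem_conj_smul H g h).1 hh.2)

theorem isFrobeniusComplement_comap {G G' : Type*} [Group G] [Group G'] (e : G' ≃* G)
    (H : Subgroup G) (hH : Cfsg.IsFrobeniusComplement H) :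
    Cfsg.IsFrobeniusComplement (H.comap e.toMonoidHom) := by
  rw [isFrobeniusComplement_iff] at hH ⊢
  obtain ⟨h1, h2, h3⟩ := hH
  have hsurj : Function.Surjective e.toMonoidHom := e.surjective
  refine ⟨?_, ?_, ?_⟩
  · intro hbot
    apply h1
    rw [← Subgroup.map_comap_eq_self_of_surjective hsurj H, hbot, Subgroup.map_bot]
  · intro htop
    apply h2
    rw [← Subgroup.map_comap_eq_self_of_surjective hsurj H, htop, ← MonoidHom.range_eq_map,
      MonoidHom.range_eq_top_of_surjective _ hsurj]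
  · intro g hg h hh hc
    have hg' : e g ∉ H := hg
    have hh' : e h ∈ H := hh
    have hc' : (e g)⁻¹ * e h * e g ∈ H := by
      have : e (g⁻¹ * h * g) ∈ H := hc
      simpa using this
    have := h3 (e g) hg' (e h) hh' hc'
    exact e.injective (by rw [this, map_one])

theorem isFrobeniusComplement_semidirect {N : Type u} {C : Type v} [Group N] [Group C]
    [Nontrivial N] [Nontrivial C] (φ : C →* MulAut N)
    (hfpf : ∀ c : C, c ≠ 1 → ∀ n : N, φ c n = n → n = 1) :
    Cfsg.IsFrobeniusComplement (SemidirectProduct.inr : C →* N ⋊[φ] C).range := by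
  rw [isFrobeniusComplement_iff]
  have hmem : ∀ g : N ⋊[φ] C, g ∈ (SemidirectProduct.inr : C →* N ⋊[φ] C).range ↔ g.left = 1 := by
    intro g
    constructor
    · rintro ⟨c, rfl⟩
      rfl
    · intro hg
      refine ⟨g.right, ?_⟩
      ext
      · rw [SemidirectProduct.left_inr, hg]
      · rfl
  refine ⟨?_, ?_, ?_⟩
  · intro hbot
    obtain ⟨c, hc⟩ := exists_ne (1 : C)
    have h1 : (SemidirectProduct.inr c : N ⋊[φ] C) ∈ (SemidirectProduct.inr : C →* N ⋊[φ] C).range :=
      ⟨c, rfl⟩
    rw [hbot, Subgroup.mem_bot] at h1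
    apply hc
    have := congrArg SemidirectProduct.right h1
    simpa using this
  · intro htop
    obtain ⟨n, hn⟩ := exists_ne (1 : N)
    have h1 : (SemidirectProduct.inl n : N ⋊[φ] C) ∈ (SemidirectProduct.inr : C →* N ⋊[φ] C).range := by
      rw [htop]
      exact Subgroup.mem_top _
    rw [hmem] at h1
    exact hn (by simpa using h1)
  · intro g hg h hh hc
    rw [hmem] at hg hh hc
    obtain ⟨n, c⟩ := g
    obtain ⟨m, k⟩ := h
    simp only at hg hh
    subst hh
    have hleft : (φ c⁻¹) (n⁻¹ * (φ k) n) = 1 := by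
      have : ((⟨n, c⟩ : N ⋊[φ] C)⁻¹ * ⟨1, k⟩ * ⟨n, c⟩).left = (φ c⁻¹) (n⁻¹ * (φ k) n) := by
        simp only [SemidirectProduct.mul_left, SemidirectProduct.inv_left, SemidirectProduct.mul_right,
          SemidirectProduct.inv_right, map_one, mul_one, map_mul, MulAut.mul_apply]
      rw [← this]
      exact hc
    have h2 : n⁻¹ * (φ k) n = 1 := by
      have := (φ c⁻¹).injective (hleft.trans (map_one _).symm)
      exact this
    have h3 : (φ k) n = n := by
      have := congrArg (fun t => n * t) h2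
      simpa using this
    have hk : k = 1 := by
      by_contra hk
      exact hg (hfpf k hk n h3)
    subst hk
    rfl

theorem exists_small {L₁ : Type u} [Group L₁] [Finite L₁] (H₁ : Subgroup L₁)
    (hH : Cfsg.IsFrobeniusComplement H₁) :
    ∃ (L : Type) (_ : Group L) (_ : Finite L) (H : Subgroup L),
      Cfsg.IsFrobeniusComplement H ∧ Nonempty (H₁ ≃* H) := by
  let e : Shrink.{0} L₁ ≃* L₁ := Shrink.mulEquiv
  refine ⟨Shrink.{0} L₁, inferInstance, Finite.of_equiv L₁ (equivShrink.{0} L₁), H₁.comap e.toMonoidHom,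
    isFrobeniusComplement_comap e H₁ hH, ⟨?_⟩⟩
  have h1 : H₁.map e.symm.toMonoidHom = H₁.comap e.toMonoidHom := by
    ext x
    constructor
    · rintro ⟨y, hy, rfl⟩
      change e (e.symm y) ∈ H₁
      rw [MulEquiv.apply_symm_apply]
      exact hy
    · intro hx
      exact ⟨e x, hx, e.symm_apply_apply x⟩
  exact (e.symm.subgroupMap H₁).trans (MulEquiv.subgroupCongr h1)

theorem exists_frob_of_hom {N : Type u} {C : Type v} [Group N] [Finite N] [Nontrivial N]
    [Group C] [Finite C] [Nontrivial C] (φ : C →* MulAut N)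
    (hfpf : ∀ c : C, c ≠ 1 → ∀ n : N, φ c n = n → n = 1) :
    ∃ (L : Type) (_ : Group L) (_ : Finite L) (H : Subgroup L),
      Cfsg.IsFrobeniusComplement H ∧ Nonempty (C ≃* H) := by
  have hfin : Finite (N ⋊[φ] C) := Finite.of_equiv (N × C) SemidirectProduct.equivProd.symm
  obtain ⟨L, hL1, hL2, H, hH, ⟨e⟩⟩ :=
    exists_small (SemidirectProduct.inr : C →* N ⋊[φ] C).range
      (isFrobeniusComplement_semidirect φ hfpf)
  exact ⟨L, hL1, hL2, H, hH,
    ⟨(MonoidHom.ofInjective SemidirectProduct.inr_injective).trans e⟩⟩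

theorem exists_frob_of_action {N : Type u} {C : Type v} [Group N] [Finite N] [Nontrivial N]
    [Group C] [Finite C] [Nontrivial C] [MulDistribMulAction C N]
    (hfpf : ∀ c : C, c ≠ 1 → ∀ n : N, c • n = n → n = 1) :
    ∃ (L : Type) (_ : Group L) (_ : Finite L) (H : Subgroup L),
      Cfsg.IsFrobeniusComplement H ∧ Nonempty (C ≃* H) :=
  exists_frob_of_hom (MulDistribMulAction.toMulAut C N) hfpf

theorem exists_frob_of_addAction {A : Type u} {C : Type v} [AddGroup A] [Finite A] [Nontrivial A]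
    [Group C] [Finite C] [Nontrivial C] [DistribMulAction C A]
    (hfpf : ∀ c : C, c ≠ 1 → ∀ a : A, c • a = a → a = 0) :
    ∃ (L : Type) (_ : Group L) (_ : Finite L) (H : Subgroup L),
      Cfsg.IsFrobeniusComplement H ∧ Nonempty (C ≃* H) := by
  apply exists_frob_of_hom (N := Multiplicative A) (C := C)
    ((MulAutMultiplicative A).symm.toMonoidHom.comp (DistribMulAction.toAddAut C A))
  intro c hc n hn
  have h1 : c • (Multiplicative.toAdd n) = Multiplicative.toAdd n :=
    congrArg Multiplicative.toAdd hn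
  have := hfpf c hc (Multiplicative.toAdd n) h1
  exact Multiplicative.toAdd.injective this

end Cfsg.Agent.Lib.Helper23.FrobSemi
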