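import Mathlib
import Cfsg.Agent.Lib.Helper10.Glaub17
import Cfsg.Agent.Lib.Helper24.CharQuot
import Cfsg.Agent.Lib.Helper1.CharClifford2
import Cfsg.Agent.Lib.Helper1.CharSchur

set_option autoImplicit false
open Cfsg
open scoped ComplexConjugate

namespace Cfsg.Agent.Lib.Helper23.Inv31

universe u

theorem mem_of_pow_mem {Γ : Type*} [Group Γ] (Z : Subgroup Γ) {g : Γ} {m n : ℕ}
    (hmn : m.Coprime n) (hm : g ^ m ∈ Z) (hn : g ^ n ∈ Z) : g ∈ Z := by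
  have hb := Nat.gcd_eq_gcd_ab m n
  rw [Nat.Coprime.gcd_eq_one hmn] at hb
  have h1 : g = (g ^ m) ^ (Nat.gcdA m n) * (g ^ n) ^ (Nat.gcdB m n) := by
    rw [← zpow_natCast, ← zpow_natCast, ← zpow_mul, ← zpow_mul, ← zpow_add, ← hb]
    simp
  rw [h1]
  exact Z.mul_mem (Z.zpow_mem hm _) (Z.zpow_mem hn _)

theorem solvable_quot_of_surj {A B : Type*} [Group A] [Group B] (f : A →* B)
    (hf : Function.Surjective f) (H : Subgroup A) [H.Normal] (H' : Subgroup B) [H'.Normal]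
    (hle : H ≤ H'.comap f) [hs : Group.IsSolvable (A ⧸ H)] : Group.IsSolvable (B ⧸ H') := by
  have hsurj : Function.Surjective (QuotientGroup.map H H' f hle) := by
    intro y
    obtain ⟨b, rfl⟩ := QuotientGroup.mk_surjective y
    obtain ⟨a, rfl⟩ := hf b
    exact ⟨(a : A ⧸ H), rfl⟩
  exact Group.isSolvable_of_surjective hsurj

theorem solvable_quot_of_comap {A B : Type*} [Group A] [Group B] (f : A →* B)
    (H : Subgroup A) [H.Normal] (H' : Subgroup B) [H'.Normal] (hle : H ≤ H'.comap f)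
    (hge : H'.comap f ≤ H) [hs : Group.IsSolvable (B ⧸ H')] : Group.IsSolvable (A ⧸ H) := by
  have hinj : Function.Injective (QuotientGroup.map H H' f hle) := by
    rw [injective_iff_map_eq_one]
    intro x hx
    obtain ⟨a, rfl⟩ := QuotientGroup.mk_surjective x
    rw [QuotientGroup.map_mk, QuotientGroup.eq_one_iff] at hx
    rw [QuotientGroup.eq_one_iff]
    exact hge hx
  exact Group.isSolvable_of_isSolvable_injective hinj

theorem central_elt {Γ : Type u} [Group Γ] (H M : Subgroup Γ) [Fintype H] [Fintype M]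
    (hMH : M ≤ H) (hc : ∀ m ∈ M, ∀ h ∈ H, m * h = h * m) (χ : H → ℂ)
    (hχ : IsIrrCharacter H χ) (lam : M →* ℂˣ)
    (hne : classInner (fun m : M => χ ⟨m, hMH m.2⟩) (fun m => ((lam m : ℂˣ) : ℂ)) ≠ 0) :
    ∀ m : M, χ ⟨m, hMH m.2⟩ = ((lam m : ℂˣ) : ℂ) * χ 1 := by
  classical
  obtain ⟨n, hnpos, hn1⟩ := Cfsg.Agent.Lib.Helper1.IsIrrCharacter.degree_pos hχ
  obtain ⟨n', ρ, hρ, rfl⟩ := hχ
  have h1' : ρ.character 1 = (n' : ℂ) := by
    rw [Representation.char_one, Module.finrank_fin_fun]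
  have hn0 : (n' : ℂ) ≠ 0 := by
    rw [← h1', hn1]
    exact_mod_cast hnpos.ne'
  have hρ' := hρ
  have hsc : ∀ m : M, ρ ⟨m, hMH m.2⟩ =
      (ρ.character ⟨m, hMH m.2⟩ / (n' : ℂ)) • (1 : Module.End ℂ (Fin n' → ℂ)) := by
    intro m
    have h2 := Cfsg.Agent.Lib.Helper1.schur_scalar ρ (ρ ⟨m, hMH m.2⟩) (fun h => by
      have h3 : (⟨m, hMH m.2⟩ : H) * h = h * ⟨m, hMH m.2⟩ := Subtype.ext (hc m m.2 h h.2)
      have h4 := congrArg ρ h3
      rw [map_mul, map_mul] at h4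
      exact h4)
    rw [Module.finrank_fin_fun] at h2
    exact h2
  have hmul : ∀ z m : M, ρ.character ⟨(z * m : M), hMH (z * m).2⟩ =
      ρ.character ⟨z, hMH z.2⟩ / (n' : ℂ) * ρ.character ⟨m, hMH m.2⟩ := by
    intro z m
    have h3 : (⟨(z * m : M), hMH (z * m).2⟩ : H) = ⟨z, hMH z.2⟩ * ⟨m, hMH m.2⟩ := rfl
    rw [h3]
    show LinearMap.trace ℂ _ (ρ (_ * _)) = _ / _ * LinearMap.trace ℂ _ (ρ _)
    rw [map_mul, hsc z, smul_mul_assoc, one_mul, map_smul, smul_eq_mul]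
  have hsum : ∑ m : M, ρ.character ⟨m, hMH m.2⟩ * conj ((lam m : ℂˣ) : ℂ) ≠ 0 := by
    intro h0
    apply hne
    unfold classInner
    rw [h0, mul_zero]
  have hnorm : ∀ z : M, ((lam z : ℂˣ) : ℂ) * conj ((lam z : ℂˣ) : ℂ) = 1 := by
    intro z
    have h1 : ((lam z : ℂˣ) : ℂ) ^ Nat.card M = 1 := by
      rw [← Units.val_pow_eq_pow_val, ← map_pow, pow_card_eq_one', map_one, Units.val_one]
    have h2 : ‖((lam z : ℂˣ) : ℂ)‖ = 1 :=
      Complex.norm_eq_one_of_pow_eq_one h1 Nat.card_pos.ne'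
    rw [Complex.mul_conj, Complex.normSq_eq_norm_sq, h2]
    simp
  intro z
  have hre := Equiv.sum_comp (Equiv.mulLeft z)
    (fun m : M => ρ.character ⟨m, hMH m.2⟩ * conj ((lam m : ℂˣ) : ℂ))
  simp only [Equiv.coe_mulLeft] at hre
  have h5 : ∑ m : M, ρ.character ⟨(z * m : M), hMH (z * m).2⟩ * conj ((lam (z * m) : ℂˣ) : ℂ) =
      (ρ.character ⟨z, hMH z.2⟩ / (n' : ℂ) * conj ((lam z : ℂˣ) : ℂ)) *
        ∑ m : M, ρ.character ⟨m, hMH m.2⟩ * conj ((lam m : ℂˣ) : ℂ) := by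
    rw [Finset.mul_sum]
    refine Finset.sum_congr rfl (fun m _ => ?_)
    rw [hmul z m, map_mul, Units.val_mul, map_mul]
    ring
  have h6 : ρ.character ⟨z, hMH z.2⟩ / (n' : ℂ) * conj ((lam z : ℂˣ) : ℂ) = 1 := by
    have h7 : (ρ.character ⟨z, hMH z.2⟩ / (n' : ℂ) * conj ((lam z : ℂˣ) : ℂ)) *
        (∑ m : M, ρ.character ⟨m, hMH m.2⟩ * conj ((lam m : ℂˣ) : ℂ)) =
        1 * ∑ m : M, ρ.character ⟨m, hMH m.2⟩ * conj ((lam m : ℂˣ) : ℂ) := by
      rw [← h5, one_mul]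
      exact hre
    exact mul_right_cancel₀ hsum h7
  have h8 : ρ.character ⟨z, hMH z.2⟩ / (n' : ℂ) = ((lam z : ℂˣ) : ℂ) := by
    calc ρ.character ⟨z, hMH z.2⟩ / (n' : ℂ)
        = ρ.character ⟨z, hMH z.2⟩ / (n' : ℂ) *
            (((lam z : ℂˣ) : ℂ) * conj ((lam z : ℂˣ) : ℂ)) := by rw [hnorm, mul_one]
      _ = ((lam z : ℂˣ) : ℂ) *
            (ρ.character ⟨z, hMH z.2⟩ / (n' : ℂ) * conj ((lam z : ℂˣ) : ℂ)) := by ring
      _ = ((lam z : ℂˣ) : ℂ) := by rw [h6, mul_one]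
  rw [h1', ← h8]
  field_simp

theorem exists_twist {Γ : Type u} [Group Γ] [Finite Γ] (G Z : Subgroup Γ) (hZG : Z ≤ G)
    (hZ : ∀ z ∈ Z, ∀ x : Γ, x * z = z * x) (a n₁ : ℕ) (hcop : n₁.Coprime a)
    (ha : ∀ g ∈ G, g ^ a ∈ Z) (lam : Z →* ℂˣ) :
    ∃ ν : G →* ℂˣ, (∀ (x : Γ) (g g' : G), (g' : Γ) = x * g * x⁻¹ → ν g' = ν g) ∧
      ∀ (z : Z) (p : ℕ), p.Prime → p ∣ n₁ →
        (lam z * (ν ⟨z, hZG z.2⟩)⁻¹) ^ p = 1 → lam z * (ν ⟨z, hZG z.2⟩)⁻¹ = 1 := by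
  classical
  have hZ' : ∀ y ∈ Z.subgroupOf G, ∀ x : G, x * y = y * x := by
    intro y hy x
    apply Subtype.ext
    exact hZ y (Subgroup.mem_subgroupOf.mp hy) x
  haveI hZn : (Z.subgroupOf G).Normal := ⟨fun y hy x => by
    rw [hZ' y hy x, mul_inv_cancel_right]; exact hy⟩
  set idx := (Z.subgroupOf G).index with hidx
  have hcop' : n₁.Coprime idx := by
    apply Nat.coprime_of_dvd
    intro p hp hp1 hp2
    haveI := Fact.mk hp
    rw [hidx, Subgroup.index_eq_card] at hp2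
    obtain ⟨x, hx⟩ := exists_prime_orderOf_dvd_card' p hp2
    obtain ⟨g, rfl⟩ := QuotientGroup.mk_surjective x
    have h1 : ((g : G ⧸ Z.subgroupOf G)) ^ a = 1 := by
      rw [← QuotientGroup.mk_pow, QuotientGroup.eq_one_iff, Subgroup.mem_subgroupOf]
      exact ha g g.2
    have h2 : p ∣ a := by rw [← hx]; exact orderOf_dvd_of_pow_eq_one h1
    have h3 : p ∣ Nat.gcd n₁ a := Nat.dvd_gcd hp1 h2
    rw [Nat.Coprime.gcd_eq_one hcop] at h3
    exact hp.one_lt.ne' (Nat.dvd_one.mp h3)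
  let lam0 : Z.subgroupOf G →* ℂˣ := lam.comp (Subgroup.subgroupOfEquivOfLe hZG).toMonoidHom
  let V : G →* ℂˣ := MonoidHom.transfer lam0
  have hV : ∀ (g : G) (h : (g : Γ) ^ idx ∈ Z), V g = lam ⟨(g : Γ) ^ idx, h⟩ := by
    intro g h
    have key : ∀ (k : ℕ) (g₀ : G), g₀⁻¹ * g ^ k * g₀ ∈ Z.subgroupOf G →
        g₀⁻¹ * g ^ k * g₀ = g ^ k := by
      intro k g₀ hmem
      have h1 := hZ' _ hmem g₀
      rw [← mul_assoc, ← mul_assoc, mul_inv_cancel, one_mul] at h1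
      exact (mul_right_cancel h1).symm
    rw [show V g = MonoidHom.transfer lam0 g from rfl, MonoidHom.transfer_eq_pow lam0 g key]
    rfl
  have hpowZ : ∀ g : G, (g : Γ) ^ idx ∈ Z := by
    intro g
    have := Subgroup.pow_index_mem (Z.subgroupOf G) g
    exact Subgroup.mem_subgroupOf.mp this
  set e := n₁ ^ Nat.card Z with he
  have hcope : idx.Coprime e := Nat.Coprime.pow_right _ hcop'.symm
  have hb := Nat.gcd_eq_gcd_ab idx e
  rw [Nat.Coprime.gcd_eq_one hcope] at hb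
  refine ⟨(zpowGroupHom (Nat.gcdA idx e)).comp V, ?_, ?_⟩
  · intro x g g' hg
    have h1 : (g' : Γ) ^ idx = (g : Γ) ^ idx := by
      rw [hg, conj_pow]
      have := hZ _ (hpowZ g) x
      rw [this, mul_inv_cancel_right]
    show (V g') ^ (Nat.gcdA idx e) = (V g) ^ (Nat.gcdA idx e)
    rw [hV g' (hpowZ g'), hV g (hpowZ g)]
    have h2 : (⟨(g' : Γ) ^ idx, hpowZ g'⟩ : Z) = ⟨(g : Γ) ^ idx, hpowZ g⟩ := Subtype.ext h1
    rw [h2]
  · intro z p hp hp1 hpow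
    have hVz : V ⟨z, hZG z.2⟩ = lam z ^ idx := by
      rw [hV _ (hpowZ _), ← map_pow]
      rfl
    have hνz : ((zpowGroupHom (Nat.gcdA idx e)).comp V) ⟨z, hZG z.2⟩ =
        (lam z ^ idx) ^ (Nat.gcdA idx e) := by
      rw [MonoidHom.comp_apply, hVz]
      rfl
    rw [hνz] at hpow ⊢
    have h1 : lam z * ((lam z ^ idx) ^ (Nat.gcdA idx e))⁻¹ = (lam z ^ (Nat.gcdB idx e)) ^ e := by
      have h3 : (Nat.gcdB idx e) * (e : ℤ) = 1 - (idx : ℤ) * Nat.gcdA idx e := by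
        push_cast at hb
        linarith
      rw [← zpow_natCast (lam z ^ Nat.gcdB idx e) e, ← zpow_mul, h3, zpow_sub, zpow_one,
        zpow_mul, zpow_natCast]
    rw [h1] at hpow ⊢
    have hwc : (lam z ^ (Nat.gcdB idx e)) ^ Nat.card Z = 1 := by
      rw [← zpow_natCast, ← zpow_mul, mul_comm, zpow_mul, zpow_natCast, ← map_pow,
        pow_card_eq_one', map_one, one_zpow]
    generalize lam z ^ (Nat.gcdB idx e) = w at hpow hwc ⊢
    have hcard0 : Nat.card Z ≠ 0 := Nat.card_pos.ne'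
    obtain ⟨j, t, ht, hjt⟩ := Nat.exists_eq_pow_mul_and_not_dvd hcard0 p hp.ne_one
    have hj : j ≤ Nat.card Z := by
      have h4 : p ^ j ≤ Nat.card Z := by
        have h5 : 0 < t := Nat.pos_of_ne_zero (fun h0 => ht (by rw [h0]; exact dvd_zero p))
        calc p ^ j = p ^ j * 1 := (mul_one _).symm
          _ ≤ p ^ j * t := Nat.mul_le_mul_left _ h5
          _ = Nat.card Z := hjt.symm
      exact ((Nat.lt_pow_self hp.one_lt).trans_le h4).le
    obtain ⟨n', hn'⟩ := hp1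
    have he' : e * t = Nat.card Z * (p ^ (Nat.card Z - j) * n' ^ Nat.card Z) := by
      have h6 : e = p ^ j * (p ^ (Nat.card Z - j) * n' ^ Nat.card Z) := by
        rw [he, hn', mul_pow, ← mul_assoc, ← pow_add, Nat.add_sub_cancel' hj]
      have h7 : Nat.card Z * (p ^ (Nat.card Z - j) * n' ^ Nat.card Z) =
          p ^ j * t * (p ^ (Nat.card Z - j) * n' ^ Nat.card Z) := by
        rw [← hjt]
      rw [h7, h6]
      ring
    have h5 : (w ^ e) ^ t = 1 := by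
      rw [← pow_mul, he', pow_mul, hwc, one_pow]
    have h6 : orderOf (w ^ e) ∣ Nat.gcd p t :=
      Nat.dvd_gcd (orderOf_dvd_of_pow_eq_one hpow) (orderOf_dvd_of_pow_eq_one h5)
    rw [Nat.Coprime.gcd_eq_one ((Nat.Prime.coprime_iff_not_dvd hp).2 ht)] at h6
    exact orderOf_eq_one_iff.mp (Nat.dvd_one.mp h6)

set_option maxHeartbeats 1000000 in
theorem central_case {Γ : Type u} [Group Γ] [Finite Γ] (G Z : Subgroup Γ) [hG : G.Normal]
    (hZG : Z ≤ G) (hZ : ∀ z ∈ Z, ∀ x : Γ, x * z = z * x) (a : ℕ) (hcop : (G.index).Coprime a)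
    (ha : ∀ g ∈ G, g ^ a ∈ Z) [hsolv : Group.IsSolvable (Γ ⧸ G)] (lam : Z →* ℂˣ) :
    ∃ β : G → ℂ, IsIrrCharacter G β ∧
      (∀ z : Z, β ⟨z, hZG z.2⟩ = ((lam z : ℂˣ) : ℂ) * β 1) ∧
      ∀ (x : Γ) (g g' : G), (g' : Γ) = x * g * x⁻¹ → β g' = β g := by
  classical
  obtain ⟨ν, hνinv, hνP⟩ := exists_twist G Z hZG hZ a G.index hcop ha lam
  let lam' : Z →* ℂˣ := lam * (ν.comp (Subgroup.inclusion hZG))⁻¹
  have hlam' : ∀ z : Z, lam' z = lam z * (ν ⟨z, hZG z.2⟩)⁻¹ := fun z => rfl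
  let K : Subgroup Γ := lam'.ker.map Z.subtype
  have hKZ : K ≤ Z := Subgroup.map_subtype_le _
  have hKmem : ∀ k : Γ, k ∈ K ↔ ∃ hk : k ∈ Z, lam' ⟨k, hk⟩ = 1 := by
    intro k
    constructor
    · rintro ⟨z, hz, rfl⟩
      exact ⟨z.2, MonoidHom.mem_ker.mp hz⟩
    · rintro ⟨hk, h1⟩
      exact ⟨⟨k, hk⟩, MonoidHom.mem_ker.mpr h1, rfl⟩
  have hKn : K.Normal := ⟨fun k hk x => by
    have := hZ k (hKZ hk) x
    rw [this, mul_inv_cancel_right]
    exact hk⟩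
  let q := QuotientGroup.mk' K
  have hq : Function.Surjective q := QuotientGroup.mk'_surjective K
  let Gb : Subgroup (Γ ⧸ K) := G.map q
  let Zb : Subgroup (Γ ⧸ K) := Z.map q
  have hGbn : Gb.Normal := Subgroup.Normal.map hG q hq
  have hZbGb : Zb ≤ Gb := Subgroup.map_mono hZG
  have hZbc : ∀ z ∈ Zb, ∀ x : Γ ⧸ K, x * z = z * x := by
    rintro _ ⟨z, hz, rfl⟩ x
    obtain ⟨x, rfl⟩ := hq x
    rw [← map_mul, ← map_mul, hZ z hz x]
  have hidx : Gb.index = G.index :=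
    Subgroup.index_map_eq G hq (by rw [QuotientGroup.ker_mk']; exact hKZ.trans hZG)
  have hcopG : (Nat.card Gb).Coprime G.index := by
    apply Nat.Coprime.symm
    apply Nat.coprime_of_dvd
    intro p hp hp1 hp2
    haveI := Fact.mk hp
    obtain ⟨x, hx⟩ := exists_prime_orderOf_dvd_card' p hp2
    obtain ⟨x, hxG⟩ := x
    obtain ⟨g, hg, rfl⟩ := hxG
    have h1 : (⟨q g, Subgroup.mem_map_of_mem q hg⟩ : Gb) ^ p = 1 := by
      rw [← hx]
      exact pow_orderOf_eq_one _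
    have h2 : g ^ p ∈ K := by
      have h0 := congrArg Subtype.val h1
      rw [Subgroup.coe_pow, Subgroup.coe_one, ← map_pow] at h0
      exact (QuotientGroup.eq_one_iff _).mp h0
    have hpa : p.Coprime a := Nat.Coprime.coprime_dvd_left hp1 hcop
    have hgZ : g ∈ Z := mem_of_pow_mem Z hpa (hKZ h2) (ha g hg)
    obtain ⟨h3, h4⟩ := (hKmem _).mp h2
    have h5 : lam' ⟨g, hgZ⟩ = 1 := by
      rw [hlam']
      apply hνP ⟨g, hgZ⟩ p hp hp1
      rw [← hlam', ← map_pow]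
      exact h4
    have h6 : g ∈ K := (hKmem g).mpr ⟨hgZ, h5⟩
    have h7 : (⟨q g, Subgroup.mem_map_of_mem q hg⟩ : Gb) = 1 :=
      Subtype.ext ((QuotientGroup.eq_one_iff g).mpr h6)
    rw [h7, orderOf_one] at hx
    exact hp.one_lt.ne hx
  obtain ⟨Sb, hSb⟩ := Subgroup.exists_right_complement'_of_coprime (N := Gb)
    (by rw [hidx]; exact hcopG)
  have hScard : Nat.card Sb = G.index := by
    rw [← hidx]
    exact hSb.symm.index_eq_card.symm
  have hdisj : Gb ⊓ Sb = ⊥ := hSb.disjoint.eq_bot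
  have hsolvq : Group.IsSolvable ((Γ ⧸ K) ⧸ Gb) :=
    solvable_quot_of_surj q hq G Gb (Subgroup.le_comap_map q G)
  have hSsolv : Group.IsSolvable Sb := by
    let f : Sb →* (Γ ⧸ K) ⧸ Gb := (QuotientGroup.mk' Gb).comp Sb.subtype
    have hinj : Function.Injective f := by
      rw [injective_iff_map_eq_one]
      intro s hs
      have h1 : (s : Γ ⧸ K) ∈ Gb := (QuotientGroup.eq_one_iff _).mp hs
      have h2 : (s : Γ ⧸ K) ∈ Gb ⊓ Sb := ⟨h1, s.2⟩
      rw [hdisj] at h2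
      exact Subtype.ext (Subgroup.mem_bot.mp h2)
    exact Group.isSolvable_of_isSolvable_injective hinj
  let qZ : Z →* Zb := q.subgroupMap Z
  have hqZ : Function.Surjective qZ := q.subgroupMap_surjective Z
  have hker : qZ.ker ≤ lam'.ker := by
    intro z hz
    have h1 : q (z : Γ) = 1 := congrArg Subtype.val (MonoidHom.mem_ker.mp hz)
    have h2 : (z : Γ) ∈ K := (QuotientGroup.eq_one_iff _).mp h1
    obtain ⟨h3, h4⟩ := (hKmem _).mp h2
    exact MonoidHom.mem_ker.mpr h4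
  let lamM : Zb →* ℂˣ := qZ.liftOfSurjective hqZ ⟨lam', hker⟩
  have hlamM : ∀ z : Z, lamM (qZ z) = lam' z := fun z =>
    MonoidHom.liftOfRightInverse_comp_apply _ _ _ ⟨lam', hker⟩ z
  haveI : Fintype Gb := Fintype.ofFinite _
  haveI : Fintype Zb := Fintype.ofFinite _
  obtain ⟨χ, hχ, hχne, hχS⟩ := Cfsg.Agent.Lib.Helper10.Glaub.inv_above Sb hSsolv (Nat.card Gb)
    Gb Zb hZbGb rfl
    (fun s _ h hh => hGbn.conj_mem h hh s)
    (fun s _ h hh => by rw [hZbc h hh s, mul_inv_cancel_right]; exact hh)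
    (fun g _ m hm => by rw [hZbc m hm g, mul_inv_cancel_right]; exact hm)
    (by rw [hScard]; exact hcopG)
    (fun m => ((lamM m : ℂˣ) : ℂ)) (Cfsg.Agent.Lib.Helper1.isIrrCharacter_of_monoidHom lamM)
    (fun s _ g g' hg => by
      have : g' = g := Subtype.ext (by rw [hg, hZbc g g.2 s, mul_inv_cancel_right])
      rw [this])
  have hχel := central_elt Gb Zb hZbGb (fun m hm h _ => (hZbc m hm h).symm) χ hχ lamM hχne
  have hχinv : ∀ (x : Γ ⧸ K) (g g' : Gb), (g' : Γ ⧸ K) = x * g * x⁻¹ → χ g' = χ g := by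
    intro x g g' hg
    obtain ⟨⟨⟨y, hy⟩, ⟨s, hs⟩⟩, hys⟩ := hSb.2 x
    have hys' : y * s = x := hys
    let g₁ : Gb := ⟨s * g * s⁻¹, hGbn.conj_mem g g.2 s⟩
    have h1 : χ g₁ = χ g := hχS s hs g g₁ rfl
    have h2 : g' = (⟨y, hy⟩ : Gb) * g₁ * (⟨y, hy⟩ : Gb)⁻¹ := by
      apply Subtype.ext
      rw [hg, ← hys']
      show y * s * g * (y * s)⁻¹ = y * (s * g * s⁻¹) * y⁻¹
      group
    rw [h2, Cfsg.Agent.Lib.Helper1.IsIrrCharacter.isClassFunction hχ g₁ ⟨y, hy⟩, h1]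
  let qG : G →* Gb := q.subgroupMap G
  have hqG : Function.Surjective qG := q.subgroupMap_surjective G
  have hirr1 : IsIrrCharacter G (fun g => χ (qG g)) :=
    Cfsg.Agent.Lib.Helper24.CharQuot.irr_inflate qG hqG hχ
  haveI : Fintype G := Fintype.ofFinite _
  refine ⟨fun g => ((ν g : ℂˣ) : ℂ) * χ (qG g),
    Cfsg.Agent.Lib.Helper1.IsIrrCharacter.mul_linear hirr1 ν, ?_, ?_⟩
  · intro z
    have h1 : qG ⟨z, hZG z.2⟩ = ⟨qZ z, hZbGb (qZ z).2⟩ := rfl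
    have h2 := hχel (qZ z)
    rw [hlamM, hlam'] at h2
    show ((ν ⟨z, hZG z.2⟩ : ℂˣ) : ℂ) * χ (qG ⟨z, hZG z.2⟩) =
      ((lam z : ℂˣ) : ℂ) * (((ν 1 : ℂˣ) : ℂ) * χ (qG 1))
    rw [h1, h2, map_one, map_one]
    have hne : ((ν ⟨z, hZG z.2⟩ : ℂˣ) : ℂ) ≠ 0 := Units.ne_zero _
    simp only [Units.val_mul, Units.val_inv_eq_inv_val, Units.val_one, one_mul]
    field_simp
  · intro x g g' hg
    show ((ν g' : ℂˣ) : ℂ) * χ (qG g') = ((ν g : ℂˣ) : ℂ) * χ (qG g)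
    rw [hνinv x g g' hg, hχinv (q x) (qG g) (qG g') (by
      show q (g' : Γ) = q x * q (g : Γ) * (q x)⁻¹
      rw [hg]
      simp)]

end Cfsg.Agent.Lib.Helper23.Inv31
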