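import Mathlib
import Cfsg.Agent.Lib.Helper23.Inv31
import Cfsg.Agent.Lib.Helper10.CentExt
import Cfsg.Agent.Lib.Helper1.CharCoset
import Cfsg.Agent.Lib.Helper1.CharPRes

set_option autoImplicit false
open Cfsg
open scoped ComplexConjugate

namespace Cfsg.Agent.Lib.Helper23.Inv31

open Cfsg.Agent.Lib.Helper10.CentExt

universe u

theorem deflate_surj {A B : Type*} [Group A] [Finite A] [Group B] (π : A →* B)
    (hπ : Function.Surjective π) {χ : A → ℂ} (hχ : IsIrrCharacter A χ)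
    (hker : ∀ a : A, π a = 1 → χ a = χ 1) :
    ∃ ψ : B → ℂ, IsIrrCharacter B ψ ∧ ∀ a : A, ψ (π a) = χ a := by
  obtain ⟨ψ, hψ, hψχ⟩ := Cfsg.Agent.Lib.Helper24.CharQuot.irr_quotient π.ker hχ
    (fun x hx => hker x (MonoidHom.mem_ker.mp hx))
  let e := QuotientGroup.quotientKerEquivOfSurjective π hπ
  refine ⟨fun b => ψ (e.symm b),
    Cfsg.Agent.Lib.Helper24.CharQuot.irr_inflate e.symm.toMonoidHom e.symm.surjective hψ, ?_⟩
  intro a
  have h1 : e.symm (π a) = (a : A ⧸ π.ker) := by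
    rw [MulEquiv.symm_apply_eq]
    rfl
  show ψ (e.symm (π a)) = χ a
  rw [h1, hψχ]

set_option maxHeartbeats 1000000 in
theorem caseB {Γ : Type u} [Group Γ] [Finite Γ] (G N : Subgroup Γ) [hG : G.Normal]
    [hN : N.Normal] [Fintype G] [Fintype N] (hNG : N ≤ G)
    (hcop : (G.index).Coprime (N.relIndex G)) [hsolv : Group.IsSolvable (Γ ⧸ G)]
    (θ : N → ℂ) (hθ : IsIrrCharacter N θ)
    (hinv : ∀ (x : Γ) (n : N), θ ⟨x * n * x⁻¹, hN.conj_mem n n.2 x⟩ = θ n) :
    ∃ χ : G → ℂ, IsIrrCharacter G χ ∧ classInner (fun n : N => χ ⟨n, hNG n.2⟩) θ ≠ 0 ∧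
      ∀ (x : Γ) (g g' : G), (g' : Γ) = x * g * x⁻¹ → χ g' = χ g := by
  classical
  have hθ0 := hθ
  obtain ⟨d, Y, hYirr, rfl⟩ := hθ
  have hYirr' := hYirr
  have hinv' : ∀ (t : Γ) (m : N), Y.character (MulAut.conjNormal t m) = Y.character m := by
    intro t m
    have e1 : MulAut.conjNormal t m = ⟨t * m * t⁻¹, hN.conj_mem m m.2 t⟩ :=
      Subtype.ext (by simp [MulAut.conjNormal_apply])
    rw [e1]
    exact hinv t m
  have hKpos : 0 < Nat.card N := Nat.card_pos
  have hfin : Finite (Gam N Y (Nat.card N)) := finite_Gam N Y hinv' _ hKpos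
  have hd : (d : ℂ) ≠ 0 := by
    obtain ⟨n, hn, hn1⟩ := Cfsg.Agent.Lib.Helper1.IsIrrCharacter.degree_pos hθ0
    have h1 : Y.character 1 = (d : ℂ) := by
      rw [Representation.char_one, Module.finrank_fin_fun]
    rw [← h1, hn1]
    exact_mod_cast hn.ne'
  let π : Gam N Y (Nat.card N) →* Γ := pr N Y (Nat.card N)
  have hπ : Function.Surjective π := pr_surj N Y hinv' _
  let τ : Representation ℂ (Gam N Y (Nat.card N)) (Fin d → ℂ) := tau N Y (Nat.card N)
  let ι : N →* Gam N Y (Nat.card N) := iota N Y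
  let Nh : Subgroup (Gam N Y (Nat.card N)) := ι.range
  have hNhn : Nh.Normal := iota_range_normal N Y
  have hπι : ∀ n : N, π (ι n) = n := fun n => rfl
  let Gh : Subgroup (Gam N Y (Nat.card N)) := G.comap π
  have hGhn : Gh.Normal := hG.comap π
  let Zh : Subgroup (Gam N Y (Nat.card N)) := π.ker
  have hNhGh : Nh ≤ Gh := by
    rintro _ ⟨n, rfl⟩
    show π (ι n) ∈ G
    rw [hπι]
    exact hNG n.2
  have hZhGh : Zh ≤ Gh := fun z hz => by
    show π z ∈ G
    rw [MonoidHom.mem_ker.mp hz]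
    exact G.one_mem
  have hZhc : ∀ z ∈ Zh, ∀ x : Gam N Y (Nat.card N), x * z = z * x := by
    intro z hz x
    exact (central_of_fst N Y _ z (MonoidHom.mem_ker.mp hz) x).symm
  have hsc : ∀ z : Zh, τ z = (τ.character z / (d : ℂ)) • (1 : Module.End ℂ (Fin d → ℂ)) := by
    intro z
    obtain ⟨c, hc⟩ := scalar_of_comm N Y (τ z) (fun m => by
      have h2 := ((mem_Gam N Y _ _).mp (z : Gam N Y (Nat.card N)).2).1 m
      have h3 : ((z : Gam N Y (Nat.card N)) : Γ × (Module.End ℂ (Fin d → ℂ))ˣ).1 = 1 :=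
        MonoidHom.mem_ker.mp z.2
      rw [h3] at h2
      simp only [map_one, MulAut.one_apply] at h2
      exact h2)
    have h1 : τ.character z = c * d := by
      show LinearMap.trace ℂ _ (τ z) = _
      rw [hc, map_smul, smul_eq_mul]
      simp
    rw [h1, mul_div_assoc, div_self hd, mul_one]
    exact hc
  let f0 : Zh →* ℂ :=
    { toFun := fun z => τ.character z / (d : ℂ)
      map_one' := by
        show τ.character 1 / (d : ℂ) = 1
        rw [Representation.char_one, Module.finrank_fin_fun, div_self hd]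
      map_mul' := by
        intro z z'
        show LinearMap.trace ℂ _ (τ ((z : Gam N Y (Nat.card N)) * z')) / (d : ℂ) =
          τ.character z / (d : ℂ) * (LinearMap.trace ℂ _ (τ z') / (d : ℂ))
        rw [map_mul, hsc z, smul_mul_assoc, one_mul, map_smul, smul_eq_mul, mul_div_assoc] }
  let f : Zh →* ℂˣ := f0.toHomUnits
  have hf : ∀ z : Zh, ((f z : ℂˣ) : ℂ) = τ.character z / (d : ℂ) := fun z =>
    MonoidHom.coe_toHomUnits f0 z
  let q := QuotientGroup.mk' Nh
  have hq : Function.Surjective q := QuotientGroup.mk'_surjective Nh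
  let Gs : Subgroup (Gam N Y (Nat.card N) ⧸ Nh) := Gh.map q
  let Zs : Subgroup (Gam N Y (Nat.card N) ⧸ Nh) := Zh.map q
  have hGsn : Gs.Normal := Subgroup.Normal.map hGhn q hq
  have hZsGs : Zs ≤ Gs := Subgroup.map_mono hZhGh
  have hZsc : ∀ z ∈ Zs, ∀ x : Gam N Y (Nat.card N) ⧸ Nh, x * z = z * x := by
    rintro _ ⟨z, hz, rfl⟩ x
    obtain ⟨x, rfl⟩ := hq x
    rw [← map_mul, ← map_mul, hZhc z hz x]
  have hidx : Gs.index = G.index := by
    rw [Subgroup.index_map_eq Gh hq (by rw [QuotientGroup.ker_mk']; exact hNhGh)]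
    exact Subgroup.index_comap_of_surjective G hπ
  have ha' : ∀ g ∈ Gs, g ^ (N.relIndex G) ∈ Zs := by
    rintro _ ⟨g, hg, rfl⟩
    have h1 : (π g) ^ (N.relIndex G) ∈ N := by
      have h0 := Subgroup.pow_index_mem (N.subgroupOf G) (⟨π g, hg⟩ : G)
      exact Subgroup.mem_subgroupOf.mp h0
    obtain ⟨m, z, hz1, hgz⟩ := exists_central N Y (g ^ (N.relIndex G)) (by
      have h2 : ((g ^ (N.relIndex G) : Gam N Y (Nat.card N)) :
          Γ × (Module.End ℂ (Fin d → ℂ))ˣ).1 = (π g) ^ (N.relIndex G) := by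
        rw [← map_pow]
        rfl
      rw [h2]
      exact h1)
    rw [← map_pow, hgz, map_mul]
    have h3 : q (iota N Y m) = 1 := (QuotientGroup.eq_one_iff _).mpr ⟨m, rfl⟩
    rw [h3, one_mul]
    exact Subgroup.mem_map_of_mem q (MonoidHom.mem_ker.mpr hz1)
  have hsolv1 : Group.IsSolvable (Gam N Y (Nat.card N) ⧸ Gh) :=
    solvable_quot_of_comap π Gh G le_rfl le_rfl
  have hsolv2 : Group.IsSolvable ((Gam N Y (Nat.card N) ⧸ Nh) ⧸ Gs) :=
    solvable_quot_of_surj q hq Gh Gs (Subgroup.le_comap_map q Gh)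
  let qZ : Zh →* Zs := q.subgroupMap Zh
  have hqZ : Function.Surjective qZ := q.subgroupMap_surjective Zh
  have hker : qZ.ker ≤ (f⁻¹).ker := by
    intro z hz
    have h1 : q (z : Gam N Y (Nat.card N)) = 1 := congrArg Subtype.val (MonoidHom.mem_ker.mp hz)
    have h2 : (z : Gam N Y (Nat.card N)) ∈ Nh := (QuotientGroup.eq_one_iff _).mp h1
    obtain ⟨n, hn⟩ := h2
    have h3 : π (ι n) = 1 := by
      rw [hn]
      exact MonoidHom.mem_ker.mp z.2
    rw [hπι] at h3
    have h4 : n = 1 := Subtype.ext h3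
    have h5 : z = 1 := Subtype.ext (by rw [← hn, h4, map_one]; rfl)
    rw [h5]
    exact Subgroup.one_mem _
  let lamS : Zs →* ℂˣ := qZ.liftOfSurjective hqZ ⟨f⁻¹, hker⟩
  have hlamS : ∀ z : Zh, lamS (qZ z) = (f z)⁻¹ := fun z =>
    MonoidHom.liftOfRightInverse_comp_apply _ _ _ ⟨f⁻¹, hker⟩ z
  obtain ⟨βs, hβs, hβsZ, hβsinv⟩ := central_case Gs Zs hZsGs hZsc (N.relIndex G)
    (by rw [hidx]; exact hcop) ha' lamS
  let qG : Gh →* Gs := q.subgroupMap Gh
  have hqG : Function.Surjective qG := q.subgroupMap_surjective Gh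
  have hβh : IsIrrCharacter Gh (fun g => βs (qG g)) :=
    Cfsg.Agent.Lib.Helper24.CharQuot.irr_inflate qG hqG hβs
  let τG : Representation ℂ Gh (Fin d → ℂ) := τ.comp Gh.subtype
  let ιG : N →* Gh := ι.codRestrict Gh (fun n => hNhGh ⟨n, rfl⟩)
  have hτGirr : τG.IsIrreducible := irr_of_comp τG ιG (by
    have : τG.comp ιG = Y := MonoidHom.ext (tau_iota N Y)
    rw [this]
    exact hYirr)
  have hχτ : IsIrrCharacter Gh τG.character := ⟨d, τG, hτGirr, rfl⟩
  let N' : Subgroup Gh := Nh.subgroupOf Gh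
  haveI : Fintype Gh := Fintype.ofFinite _
  haveI : Fintype N' := Fintype.ofFinite _
  let ιN : N →* N' := ιG.codRestrict N' (fun n => Subgroup.mem_subgroupOf.mpr ⟨n, rfl⟩)
  have hχτN : IsIrrCharacter N' (fun n : N' => τG.character n) :=
    ⟨d, τG.comp N'.subtype, irr_of_comp (τG.comp N'.subtype) ιN (by
      have : (τG.comp N'.subtype).comp ιN = Y := MonoidHom.ext (tau_iota N Y)
      rw [this]
      exact hYirr), rfl⟩
  have hsrc : (fun g => βs (qG g)) ∈ {β : Gh → ℂ | IsIrrCharacter Gh β ∧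
      classInner (indFun N' (fun _ => (1 : ℂ))) β ≠ 0} := by
    obtain ⟨β', hβ', hβ'eq⟩ := Cfsg.Agent.Lib.Helper1.IsIrrCharacter.deflate N' hβh (by
      intro n hn
      have h1 : qG n = 1 := Subtype.ext ((QuotientGroup.eq_one_iff _).mpr
        (Subgroup.mem_subgroupOf.mp hn))
      show βs (qG n) = βs (qG 1)
      rw [h1, map_one])
    have h2 : (fun g => βs (qG g)) = fun g : Gh => β' (g : Gh ⧸ N') := funext hβ'eq
    rw [h2]
    exact Cfsg.Agent.Lib.Helper1.inflate_mem_source N' hβ'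
  have hχh := ((Cfsg.Agent.Lib.Helper1.gallagher_bij N' hχτ hχτN).1 hsrc).1
  let πG : Gh →* G := π.subgroupComap G
  have hπG : Function.Surjective πG := π.subgroupComap_surjective_of_surjective G hπ
  have hβs1 : βs 1 ≠ 0 := by
    obtain ⟨n, hn, hn1⟩ := Cfsg.Agent.Lib.Helper1.IsIrrCharacter.degree_pos hβs
    rw [hn1]
    exact_mod_cast hn.ne'
  have hkerχ : ∀ a : Gh, πG a = 1 →
      ((fun g => βs (qG g)) * τG.character) a = ((fun g => βs (qG g)) * τG.character) 1 := by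
    intro a ha
    have h1 : π (a : Gam N Y (Nat.card N)) = 1 := congrArg Subtype.val ha
    let z : Zh := ⟨a, MonoidHom.mem_ker.mpr h1⟩
    have h2 : qG a = ⟨qZ z, hZsGs (qZ z).2⟩ := rfl
    have h3 : βs (qG a) = ((f z : ℂˣ) : ℂ)⁻¹ * βs 1 := by
      rw [h2, hβsZ (qZ z), hlamS, Units.val_inv_eq_inv_val]
    have h4 : τG.character a = ((f z : ℂˣ) : ℂ) * d := by
      rw [hf z, div_mul_cancel₀ _ hd]
      rfl
    have h5 : τG.character 1 = (d : ℂ) := by
      rw [Representation.char_one, Module.finrank_fin_fun]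
    show βs (qG a) * τG.character a = βs (qG 1) * τG.character 1
    rw [h3, h4, h5, map_one]
    have hfz : ((f z : ℂˣ) : ℂ) ≠ 0 := Units.ne_zero _
    field_simp
  obtain ⟨χ, hχ, hχ'⟩ := deflate_surj πG hπG hχh hkerχ
  refine ⟨χ, hχ, ?_, ?_⟩
  · have h1 : ∀ n : N, χ ⟨n, hNG n.2⟩ = βs 1 * Y.character n := by
      intro n
      have h2 : (⟨n, hNG n.2⟩ : G) = πG (ιG n) := Subtype.ext (hπι n).symm
      rw [h2, hχ']
      have h3 : qG (ιG n) = 1 := Subtype.ext ((QuotientGroup.eq_one_iff _).mpr ⟨n, rfl⟩)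
      show βs (qG (ιG n)) * LinearMap.trace ℂ _ (τ (ι n)) = βs 1 * LinearMap.trace ℂ _ (Y n)
      rw [h3, tau_iota]
    have h4 : (fun n : N => χ ⟨n, hNG n.2⟩) = fun n => βs 1 * Y.character n := funext h1
    rw [h4]
    have h5 := Cfsg.Agent.Lib.Helper1.classInner_irr_self hθ0
    have h6 : classInner (fun n => βs 1 * Y.character n) Y.character =
        βs 1 * classInner Y.character Y.character := by
      unfold classInner
      have h7 : ∑ n : N, (βs 1 * Y.character n) * conj (Y.character n) =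
          βs 1 * ∑ n : N, Y.character n * conj (Y.character n) := by
        rw [Finset.mul_sum]
        exact Finset.sum_congr rfl (fun n _ => by ring)
      rw [h7]
      ring
    rw [h6, h5, mul_one]
    exact hβs1
  · intro x g g' hg
    obtain ⟨xh, rfl⟩ := hπ x
    obtain ⟨gh, rfl⟩ := hπG g
    have hmem : xh * gh * xh⁻¹ ∈ Gh := hGhn.conj_mem gh gh.2 xh
    have h1 : g' = πG ⟨xh * gh * xh⁻¹, hmem⟩ := Subtype.ext (by
      rw [hg]
      show π xh * π gh * (π xh)⁻¹ = π (xh * gh * xh⁻¹)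
      simp)
    rw [h1, hχ', hχ']
    show βs (qG ⟨xh * gh * xh⁻¹, hmem⟩) * τ.character (xh * gh * xh⁻¹) =
      βs (qG gh) * τ.character gh
    rw [hβsinv (q xh) (qG gh) (qG ⟨_, hmem⟩) (by
      show q (xh * gh * xh⁻¹) = q xh * q gh * (q xh)⁻¹
      simp), Representation.char_conj]

end Cfsg.Agent.Lib.Helper23.Inv31
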