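import Mathlib
import Cfsg.Agent.Lib.Helper23.Inv31b
import Cfsg.Agent.Lib.Helper1.CharCoprime2

set_option autoImplicit false
open Cfsg
open scoped ComplexConjugate

namespace Cfsg.Agent.Lib.Helper23.Inv31

universe u

theorem nongen_primes {X : Type*} [Group X] [Finite X] (M : Subgroup X) [hM : M.Normal]
    (hng : ∀ T : Subgroup X, T ⊔ M = ⊤ → T = ⊤) {p : ℕ} (hp : p.Prime)
    (hpX : p ∣ Nat.card X) : p ∣ M.index := by
  by_contra hnd
  haveI := Fact.mk hp
  obtain ⟨P₀⟩ : Nonempty (Sylow p M) := inferInstance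
  set Q : Subgroup X := (P₀ : Subgroup M).map M.subtype with hQ
  have hQn : Q.Normal := by
    rw [← Subgroup.normalizer_eq_top_iff]
    exact hng _ (Sylow.normalizer_sup_eq_top P₀)
  have hQidx : ¬ p ∣ Q.index := by
    rw [hQ, Subgroup.index_map_subtype]
    intro h
    rcases (Nat.Prime.dvd_mul hp).mp h with h | h
    · exact P₀.not_dvd_index h
    · exact hnd h
  have hQcard : ∃ k, Nat.card Q = p ^ k := by
    have h1 : IsPGroup p Q := P₀.2.map M.subtype
    exact IsPGroup.iff_card.mp h1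
  obtain ⟨k, hk⟩ := hQcard
  have hcop : (Nat.card Q).Coprime Q.index := by
    rw [hk]
    exact Nat.Coprime.pow_left _ ((Nat.Prime.coprime_iff_not_dvd hp).2 hQidx)
  obtain ⟨K, hK⟩ := Subgroup.exists_right_complement'_of_coprime hcop
  have hKtop : K = ⊤ := by
    apply hng
    have h1 : K ⊔ Q = ⊤ := by
      rw [sup_comm]
      exact hK.sup_eq_top
    have h2 : Q ≤ M := Subgroup.map_subtype_le _
    exact top_le_iff.mp (h1 ▸ sup_le_sup_left h2 K)
  have hQbot : Q = ⊥ := by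
    have h1 := hK.disjoint
    rw [hKtop] at h1
    exact disjoint_top.mp h1
  have h3 : Q.index = Nat.card X := by rw [hQbot, Subgroup.index_bot]
  rw [h3] at hQidx
  exact hQidx hpX

theorem exists_min_supp {Γ : Type*} [Group Γ] [Finite Γ] (G : Subgroup Γ) :
    ∃ S : Subgroup Γ, S ⊔ G = ⊤ ∧ ∀ T : Subgroup Γ, T ≤ S → T ⊔ G = ⊤ → T = S := by
  have hne : {S : Subgroup Γ | S ⊔ G = ⊤}.Nonempty := ⟨⊤, top_sup_eq _⟩
  obtain ⟨S, hS, hmin⟩ := wellFounded_lt.has_min {S : Subgroup Γ | S ⊔ G = ⊤} hne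
  refine ⟨S, hS, fun T hTS hT => ?_⟩
  by_contra hne'
  exact hmin T hT (lt_of_le_of_ne hTS hne')

theorem caseA {Γ : Type u} [Group Γ] [Finite Γ] (G N : Subgroup Γ) [hG : G.Normal]
    [hN : N.Normal] [Fintype G] [Fintype N] (hNG : N ≤ G)
    (hcop : (G.index).Coprime (N.relIndex G))
    (hsolv : Group.IsSolvable (G ⧸ N.subgroupOf G)) (θ : N → ℂ) (hθ : IsIrrCharacter N θ)
    (hinv : ∀ (x : Γ) (n : N), θ ⟨x * n * x⁻¹, hN.conj_mem n n.2 x⟩ = θ n) :
    ∃ χ : G → ℂ, IsIrrCharacter G χ ∧ classInner (fun n : N => χ ⟨n, hNG n.2⟩) θ ≠ 0 ∧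
      ∀ (x : Γ) (g g' : G), (g' : Γ) = x * g * x⁻¹ → χ g' = χ g := by
  classical
  obtain ⟨S, hSG, hSmin⟩ := exists_min_supp G
  have hng : ∀ T : Subgroup S, T ⊔ G.subgroupOf S = ⊤ → T = ⊤ := by
    intro T hT
    have h1 : T.map S.subtype ⊔ G = ⊤ := by
      have h2 : S ≤ T.map S.subtype ⊔ G := by
        have h3 : (T ⊔ G.subgroupOf S).map S.subtype = S := by
          rw [hT, ← MonoidHom.range_eq_map, Subgroup.range_subtype]
        rw [Subgroup.map_sup, Subgroup.subgroupOf_map_subtype] at h3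
        calc S = T.map S.subtype ⊔ G ⊓ S := h3.symm
          _ ≤ T.map S.subtype ⊔ G := sup_le_sup_left inf_le_left _
      apply top_le_iff.mp
      rw [← hSG]
      exact sup_le h2 le_sup_right
    have h4 := hSmin _ (Subgroup.map_subtype_le T) h1
    apply top_le_iff.mp
    intro s _
    have h5 : (s : Γ) ∈ T.map S.subtype := by
      rw [h4]
      exact s.2
    obtain ⟨t, ht, hts⟩ := h5
    have h6 : t = s := Subtype.ext hts
    rw [← h6]
    exact ht
  have hcopS : (N.relIndex G).Coprime (Nat.card S) := by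
    apply Nat.Coprime.symm
    apply Nat.coprime_of_dvd
    intro p hp hp1 hp2
    have h1 : p ∣ (G.subgroupOf S).index := nongen_primes (G.subgroupOf S) hng hp hp1
    have h2 : (G.subgroupOf S).index = G.index := by
      show G.relIndex S = G.index
      rw [← Subgroup.relIndex_sup_right, hSG, Subgroup.relIndex_top_right]
    rw [h2] at h1
    have h3 : p ∣ Nat.gcd G.index (N.relIndex G) := Nat.dvd_gcd h1 hp2
    rw [Nat.Coprime.gcd_eq_one hcop] at h3
    exact hp.one_lt.ne' (Nat.dvd_one.mp h3)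
  haveI : Fintype Γ := Fintype.ofFinite Γ
  obtain ⟨χ, hχ, hχne, hχS⟩ := Cfsg.Agent.Lib.Helper1.coprime_invariant_above G S N
    (fun s _ g hg => hG.conj_mem g hg s) hNG (fun s _ n hn => hN.conj_mem n hn s) hcopS hsolv
    θ hθ
    (fun s _ g g' hg => by
      have h0 : g' = ⟨s * g * s⁻¹, hN.conj_mem g g.2 s⟩ := Subtype.ext hg
      rw [h0]
      exact hinv s g)
  refine ⟨χ, hχ, hχne, ?_⟩
  intro x g g' hg
  have hx : x ∈ S ⊔ G := by
    rw [hSG]
    exact Subgroup.mem_top x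
  rw [← SetLike.mem_coe, Subgroup.mul_normal] at hx
  obtain ⟨s, hs, y, hy, rfl⟩ := Set.mem_mul.mp hx
  let g₁ : G := ⟨y * g * y⁻¹, hG.conj_mem g g.2 y⟩
  have h1 : χ g₁ = χ g := Cfsg.Agent.Lib.Helper1.IsIrrCharacter.isClassFunction hχ g ⟨y, hy⟩
  have h2 : χ g' = χ g₁ := hχS s hs g₁ g' (by
    rw [hg]
    show s * y * g * (s * y)⁻¹ = s * (y * g * y⁻¹) * s⁻¹
    group)
  rw [h2, h1]

end Cfsg.Agent.Lib.Helper23.Inv31
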