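import Mathlib
import Cfsg.Agent.Lib.Helper23.Klein4

set_option autoImplicit false
set_option linter.unusedSectionVars false
set_option linter.unusedVariables false
set_option linter.style.haveILetI false

namespace Cfsg.Agent.Lib.Helper23.Klein

open Cfsg Cfsg.Agent.Lib.Helper1 Cfsg.Agent.Lib.Helper6 Cfsg.Agent.Lib.Helper24
open scoped ComplexConjugate

universe u

variable {G : Type u} [Group G] [Fintype G] {M : Ideal AlgInt}

theorem two_elt_conj (P : Sylow 2 G) (J J₁ g₁ g₂ : G) (hg₁ : J₁ = g₁ * J * g₁⁻¹)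
    (hg₂ : J * J₁ = g₂ * J * g₂⁻¹)
    (hall : ∀ t ∈ (P : Subgroup G), t = 1 ∨ t = J ∨ t = J₁ ∨ t = J * J₁) (g : G)
    (hg : ∃ k : ℕ, orderOf g = 2 ^ k) : IsConj g 1 ∨ IsConj g J := by
  haveI : Fact (Nat.Prime 2) := ⟨Nat.prime_two⟩
  obtain ⟨k, hk⟩ := hg
  have hp : IsPGroup 2 (Subgroup.zpowers g) :=
    IsPGroup.of_card (n := k) (by rw [Nat.card_zpowers, hk])
  obtain ⟨c, hc⟩ :=
    Cfsg.Agent.Lib.Helper12.SylowBasic.exists_conj_le_sylow P (Subgroup.zpowers g) hp
  have hmem := hc g (Subgroup.mem_zpowers g)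
  have hconj : IsConj g (c * g * c⁻¹) := isConj_iff.mpr ⟨c, rfl⟩
  rcases hall _ hmem with h | h | h | h
  · left
    rw [h] at hconj
    exact hconj
  · right
    rw [h] at hconj
    exact hconj
  · right
    rw [h, hg₁] at hconj
    exact hconj.trans (isConj_iff.mpr ⟨g₁⁻¹, by group⟩)
  · right
    rw [h, hg₂] at hconj
    exact hconj.trans (isConj_iff.mpr ⟨g₂⁻¹, by group⟩)

theorem mem_core_iff (J : G)
    (hidx : (pPrimeCore 2 (Subgroup.centralizer ({J} : Set G))).index = 4)
    (s : Subgroup.centralizer ({J} : Set G)) :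
    (s : G) ∈ centralizerPPrimeCore 2 J ↔ ¬ 2 ∣ orderOf s := by
  have hOn : (pPrimeCore 2 (Subgroup.centralizer ({J} : Set G))).Normal :=
    Cfsg.Agent.Lib.Lead.Cores.pPrimeCore_normal 2
  have hOcop : (Nat.card (pPrimeCore 2 (Subgroup.centralizer ({J} : Set G)))).Coprime 2 :=
    Cfsg.Agent.Lib.Lead.Cores.pPrimeCore_card_coprime 2
  have hiff : (s : G) ∈ centralizerPPrimeCore 2 J
      ↔ s ∈ pPrimeCore 2 (Subgroup.centralizer ({J} : Set G)) := by
    constructor
    · rintro ⟨k', hk', hkk'⟩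
      have : k' = s := Subtype.ext hkk'
      rw [← this]
      exact hk'
    · intro hk
      exact ⟨s, hk, rfl⟩
  rw [hiff]
  constructor
  · intro hs hdvd
    have h1 := Subgroup.orderOf_dvd_natCard _ hs
    have h2 : 2 ∣ Nat.card (pPrimeCore 2 (Subgroup.centralizer ({J} : Set G))) := hdvd.trans h1
    have h3 := Nat.Coprime.eq_one_of_dvd hOcop.symm h2
    norm_num at h3
  · intro hodd
    have h1 : s ^ (pPrimeCore 2 (Subgroup.centralizer ({J} : Set G))).index
        ∈ pPrimeCore 2 (Subgroup.centralizer ({J} : Set G)) := Subgroup.pow_index_mem _ s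
    rw [hidx] at h1
    have hcop : Nat.Coprime 4 (orderOf s) := by
      have e : (4 : ℕ) = 2 ^ 2 := by norm_num
      rw [e]
      exact Nat.Coprime.pow_left 2 ((Nat.Prime.coprime_iff_not_dvd Nat.prime_two).mpr hodd)
    obtain ⟨m, hm⟩ := exists_pow_eq_self_of_coprime hcop
    rw [← hm]
    exact Subgroup.pow_mem _ h1 m

open Classical in
theorem sec_decomp (P : Sylow 2 G) (J J₁ g₁ g₂ : G) (hJ2 : orderOf J = 2)
    (hg₁ : J₁ = g₁ * J * g₁⁻¹) (hg₂ : J * J₁ = g₂ * J * g₂⁻¹)
    (hall : ∀ t ∈ (P : Subgroup G), t = 1 ∨ t = J ∨ t = J₁ ∨ t = J * J₁)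
    (hidx : (pPrimeCore 2 (Subgroup.centralizer ({J} : Set G))).index = 4)
    (f : G → ℂ) (hf : IsClassFunction G f) :
    (Nat.card (Subgroup.centralizer ({J} : Set G)) : ℂ) * ∑ g : G, f g
      = (Nat.card (Subgroup.centralizer ({J} : Set G)) : ℂ)
          * ∑ g : G, (if ¬ 2 ∣ orderOf g then f g else 0)
        + (Nat.card G : ℂ)
          * ∑ g : G, (if g ∈ centralizerPPrimeCore 2 J then f (J * g) else 0) := by
  haveI : Fintype (Subgroup.centralizer ({J} : Set G)) := Fintype.ofFinite _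
  have hJ1 : J ≠ 1 := by
    rintro rfl
    rw [orderOf_one] at hJ2
    norm_num at hJ2
  have hXrep : ∀ g : G, (∃ k : ℕ, orderOf g = 2 ^ k) →
      ∃! x, x ∈ ({1, J} : Finset G) ∧ IsConj g x := by
    intro g hg
    rcases two_elt_conj P J J₁ g₁ g₂ hg₁ hg₂ hall g hg with h | h
    · refine ⟨1, ⟨by simp, h⟩, ?_⟩
      rintro y ⟨hy, hgy⟩
      rw [Finset.mem_insert, Finset.mem_singleton] at hy
      rcases hy with rfl | rfl
      · rfl
      · exfalso
        have hg1 : g = 1 := isConj_one_left.mp h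
        rw [hg1] at hgy
        exact hJ1 (isConj_one_right.mp hgy)
    · refine ⟨J, ⟨by simp, h⟩, ?_⟩
      rintro y ⟨hy, hgy⟩
      rw [Finset.mem_insert, Finset.mem_singleton] at hy
      rcases hy with rfl | rfl
      · exfalso
        have hg1 : g = 1 := isConj_one_left.mp hgy
        rw [hg1] at h
        exact hJ1 (isConj_one_right.mp h)
      · rfl
  have hX := Subsec.sum_sections Nat.prime_two ({1, J} : Finset G) hXrep f
  rw [Finset.sum_pair (Ne.symm hJ1)] at hX
  have e1 : ∑ g : G, (if (∃ z, IsPPart 2 g z ∧ IsConj z 1) then f g else 0)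
      = ∑ g : G, (if ¬ 2 ∣ orderOf g then f g else 0) := by
    apply Finset.sum_congr rfl
    intro g _
    have hiff : (∃ z, IsPPart 2 g z ∧ IsConj z 1) ↔ ¬ 2 ∣ orderOf g := by
      constructor
      · rintro ⟨z, ⟨y, hy, -, -, hyo⟩, hz⟩
        have hz1 : z = 1 := isConj_one_left.mp hz
        rw [hz1, one_mul] at hy
        rw [← hy]
        exact hyo
      · intro h
        exact ⟨1, ⟨g, one_mul g, Commute.one_left g, ⟨0, by rw [orderOf_one, pow_zero]⟩, h⟩,
          IsConj.refl 1⟩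
    by_cases h : ¬ 2 ∣ orderOf g
    · rw [if_pos h, if_pos (hiff.mpr h)]
    · rw [if_neg h, if_neg (fun h' => h (hiff.mp h'))]
  have e2 := Subsec.sum_section Nat.prime_two J f hf
  have e3 := Subsec.sum_isPPart (p := 2) J ⟨1, by rw [hJ2]; norm_num⟩ f
  have e4 : ∑ s : Subgroup.centralizer ({J} : Set G),
        (if ¬ 2 ∣ orderOf s then f (J * (s : G)) else 0)
      = ∑ g : G, (if g ∈ centralizerPPrimeCore 2 J then f (J * g) else 0) := by
    rw [Brauer.sum_subgroup (Subgroup.centralizer ({J} : Set G))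
      (fun g => if g ∈ centralizerPPrimeCore 2 J then f (J * g) else 0)
      (fun x hx => if_neg (fun hx' => hx (Subgroup.map_subtype_le _ hx')))]
    apply Finset.sum_congr rfl
    intro s _
    have hiff := mem_core_iff J hidx s
    by_cases h : ¬ 2 ∣ orderOf s
    · rw [if_pos h, if_pos (hiff.mpr h)]
    · rw [if_neg h, if_neg (fun h' => h (hiff.mp h'))]
  rw [hX, e1, mul_add, e2, e3, e4]

open Classical in
theorem sum_sq_bij (Q : G → Prop) (o : ℕ) (ho : Odd o) (hQo : ∀ g, Q g → g ^ o = 1)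
    (hQpow : ∀ g, Q g → ∀ n : ℕ, Q (g ^ n)) (F : G → ℂ) :
    ∑ g : G, (if Q g then F (g * g) else 0) = ∑ g : G, (if Q g then F g else 0) := by
  rw [← Finset.sum_filter, ← Finset.sum_filter]
  obtain ⟨j, hj⟩ := ho
  apply Finset.sum_nbij' (fun g => g * g) (fun g => g ^ (j + 1))
  · intro g hg
    rw [Finset.mem_filter] at hg ⊢
    have h := hQpow g hg.2 2
    rw [pow_two] at h
    exact ⟨Finset.mem_univ _, h⟩
  · intro g hg
    rw [Finset.mem_filter] at hg ⊢
    exact ⟨Finset.mem_univ _, hQpow g hg.2 _⟩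
  · intro g hg
    rw [Finset.mem_filter] at hg
    show (g * g) ^ (j + 1) = g
    rw [← pow_two, ← pow_mul]
    have e : 2 * (j + 1) = o + 1 := by omega
    rw [e, pow_succ, hQo g hg.2, one_mul]
  · intro g hg
    rw [Finset.mem_filter] at hg
    show g ^ (j + 1) * g ^ (j + 1) = g
    rw [← pow_add]
    have e : j + 1 + (j + 1) = o + 1 := by omega
    rw [e, pow_succ, hQo g hg.2, one_mul]
  · intro g hg
    rfl

theorem cent_inv (g : G) :
    Subgroup.centralizer ({g⁻¹} : Set G) = Subgroup.centralizer ({g} : Set G) := by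
  ext x
  rw [Subgroup.mem_centralizer_singleton_iff, Subgroup.mem_centralizer_singleton_iff]
  constructor
  · intro h
    calc x * g = g * (g⁻¹ * x) * g := by group
      _ = g * (x * g⁻¹) * g := by rw [h]
      _ = g * x := by group
  · intro h
    calc x * g⁻¹ = g⁻¹ * (g * x) * g⁻¹ := by group
      _ = g⁻¹ * (x * g) * g⁻¹ := by rw [h]
      _ = g⁻¹ * x := by group

theorem conj_mem_principal (χ : IrrCharacter G) (hχ : χ ∈ principalBlock M G) :
    (⟨fun g => conj ((χ : G → ℂ) g), IsIrrCharacter.conj χ.2⟩ : IrrCharacter G)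
      ∈ principalBlock M G := by
  show SameBlock M (fun _ : G => (1 : ℂ)) (fun g => conj ((χ : G → ℂ) g))
  intro g
  have h : MemLocalIdeal M (centralChar (fun _ : G => (1 : ℂ)) g⁻¹
      - centralChar (χ : G → ℂ) g⁻¹) := hχ g⁻¹
  have e1 : centralChar (fun _ : G => (1 : ℂ)) g = centralChar (fun _ : G => (1 : ℂ)) g⁻¹ := by
    unfold centralChar
    rw [cent_inv]
  have e2 : centralChar (fun g => conj ((χ : G → ℂ) g)) g = centralChar (χ : G → ℂ) g⁻¹ := by
    unfold centralChar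
    rw [cent_inv, CharBasic.char_inv (CharBasic.isCharacter_of_irr χ.2) g]
    show _ * conj ((χ : G → ℂ) g) / conj ((χ : G → ℂ) 1) = _
    rw [CharBasic.char_one_nat (CharBasic.isCharacter_of_irr χ.2), Complex.conj_natCast]
  rw [e1, e2]
  exact h

end Cfsg.Agent.Lib.Helper23.Klein
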