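import Mathlib
import Cfsg.Agent.Lib.Helper23.Klein5
import Cfsg.Agent.S0158

set_option autoImplicit false
set_option linter.unusedSectionVars false
set_option linter.unusedVariables false
set_option linter.style.haveILetI false

namespace Cfsg.Agent.Lib.Helper23.Klein

open Cfsg Cfsg.Agent.Lib.Helper1 Cfsg.Agent.Lib.Helper6 Cfsg.Agent.Lib.Helper24
open scoped ComplexConjugate

universe u

variable {G : Type u} [Group G] [Fintype G] {M : Ideal AlgInt}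

theorem sum_irr_zero (χ : IrrCharacter G) (hχ1 : (χ : G → ℂ) ≠ fun _ => 1) :
    ∑ g : G, (χ : G → ℂ) g = 0 := by
  have h := CharBasic.irr_orthonormal χ.2 (CharBasic.irr_trivial (G := G))
  rw [if_neg hχ1] at h
  unfold classInner at h
  simp only [map_one, mul_one] at h
  rcases mul_eq_zero.mp h with h' | h'
  · exfalso
    have hcard : (Nat.card G : ℂ) ≠ 0 := by
      exact_mod_cast (Nat.card_pos (α := G)).ne'
    exact hcard (inv_eq_zero.mp h')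
  · exact h'

open Classical in
theorem K_sum_nat (K : Subgroup G) {χ : G → ℂ} (h : IsCharacter G χ) :
    ∃ m : ℕ, ∑ g : G, (if g ∈ K then χ g else 0) = (Nat.card K : ℂ) * m := by
  haveI : Fintype K := Fintype.ofFinite _
  obtain ⟨m, hm⟩ := CharBasic.sum_char_subgroup h K
  refine ⟨m, ?_⟩
  rw [Brauer.sum_subgroup K (fun g => if g ∈ K then χ g else 0) (fun x hx => if_neg hx), ← hm]
  apply Finset.sum_congr rfl
  intro x _
  rw [if_pos x.2]

theorem pow_card_sub (K : Subgroup G) (g : G) (hg : g ∈ K) : g ^ Nat.card K = 1 := by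
  have h := pow_card_eq_one' (G := K) (x := ⟨g, hg⟩)
  have h2 : (((⟨g, hg⟩ : K) ^ Nat.card K : K) : G) = ((1 : K) : G) := congrArg Subtype.val h
  rw [Subgroup.coe_pow] at h2
  exact h2

open Classical in
theorem fs_formula (hM : IsPModular 2 M) (g₀ : ℕ) (hg₀ : Odd g₀) (hG : Nat.card G = 4 * g₀)
    (P : Sylow 2 G) (J J₁ g₁ g₂ : G) (hJ2 : orderOf J = 2)
    (hg₁ : J₁ = g₁ * J * g₁⁻¹) (hg₂ : J * J₁ = g₂ * J * g₂⁻¹)
    (hall : ∀ t ∈ (P : Subgroup G), t = 1 ∨ t = J ∨ t = J₁ ∨ t = J * J₁)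
    (hKC : centralizerPPrimeCore 2 J ≤ Subgroup.centralizer ({J} : Set G))
    (hKcard : Nat.card (centralizerPPrimeCore 2 J) * 4
      = Nat.card (Subgroup.centralizer ({J} : Set G)))
    (hidx : (pPrimeCore 2 (Subgroup.centralizer ({J} : Set G))).index = 4)
    (hKcop : (Nat.card (centralizerPPrimeCore 2 J)).Coprime 2)
    (χ : IrrCharacter G) (hχ : χ ∈ principalBlock M G) (hχ1 : (χ : G → ℂ) ≠ fun _ => 1)
    (c : ℕ)
    (hc : ∑ g : G, (if g ∈ centralizerPPrimeCore 2 J then (χ : G → ℂ) g else 0)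
      = (Nat.card (centralizerPPrimeCore 2 J) : ℂ) * c) :
    4 * ∑ g : G, (χ : G → ℂ) (g * g) = (Nat.card G : ℂ) * ((c : ℂ) - (χ : G → ℂ) J) := by
  have hJJ : J * J = 1 := by rw [← pow_two, ← hJ2, pow_orderOf_eq_one]
  have hcl : IsClassFunction G (χ : G → ℂ) := fun g h =>
    CharBasic.char_conj_invariant (CharBasic.isCharacter_of_irr χ.2) g h
  have hcl2 : IsClassFunction G (fun g => (χ : G → ℂ) (g * g)) := by
    intro g h
    show (χ : G → ℂ) (h * g * h⁻¹ * (h * g * h⁻¹)) = (χ : G → ℂ) (g * g)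
    have e : h * g * h⁻¹ * (h * g * h⁻¹) = h * (g * g) * h⁻¹ := by group
    rw [e]
    exact hcl (g * g) h
  have D1 := sec_decomp P J J₁ g₁ g₂ hJ2 hg₁ hg₂ hall hidx (χ : G → ℂ) hcl
  have D2 := sec_decomp P J J₁ g₁ g₂ hJ2 hg₁ hg₂ hall hidx
    (fun g => (χ : G → ℂ) (g * g)) hcl2
  obtain ⟨K, hK⟩ : ∃ K : Subgroup G, K = centralizerPPrimeCore 2 J := ⟨_, rfl⟩
  rw [← hK] at hKC hKcard hKcop hc D1 D2
  rw [sum_irr_zero χ hχ1, mul_zero] at D1
  have eA : ∑ g : G, (if g ∈ K then (χ : G → ℂ) (J * g) else 0)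
      = (Nat.card K : ℂ) * (χ : G → ℂ) J := by
    rw [← sum_mem_const]
    apply Finset.sum_congr rfl
    intro g _
    by_cases hg : g ∈ K
    · rw [if_pos hg, if_pos hg, prin_const hM J hJ2 χ hχ g (hK ▸ hg)]
    · rw [if_neg hg, if_neg hg]
  rw [eA] at D1
  have hRo : ∀ g : G, ¬ 2 ∣ orderOf g → g ^ g₀ = 1 := by
    intro g hg
    apply orderOf_dvd_iff_pow_eq_one.mp
    have h1 : orderOf g ∣ 4 * g₀ := hG ▸ orderOf_dvd_natCard g
    have hcop : Nat.Coprime (orderOf g) 4 := by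
      have e : (4 : ℕ) = 2 ^ 2 := by norm_num
      rw [e]
      exact Nat.Coprime.pow_right 2
        (Nat.Coprime.symm ((Nat.Prime.coprime_iff_not_dvd Nat.prime_two).mpr hg))
    exact Nat.Coprime.dvd_of_dvd_mul_left hcop h1
  have eR : ∑ g : G, (if ¬ 2 ∣ orderOf g then (χ : G → ℂ) (g * g) else 0)
      = ∑ g : G, (if ¬ 2 ∣ orderOf g then (χ : G → ℂ) g else 0) := by
    have h := sum_sq_bij (fun g => ¬ 2 ∣ orderOf g) g₀ hg₀ hRo
      (fun g hg n h2 => hg (h2.trans (orderOf_pow_dvd n))) (χ : G → ℂ)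
    convert h
  have eK1 : ∑ g : G, (if g ∈ K then (χ : G → ℂ) (J * g * (J * g)) else 0)
      = ∑ g : G, (if g ∈ K then (χ : G → ℂ) (g * g) else 0) := by
    apply Finset.sum_congr rfl
    intro g _
    by_cases hg : g ∈ K
    · rw [if_pos hg, if_pos hg]
      have hgJ : g * J = J * g := Subgroup.mem_centralizer_singleton_iff.mp (hKC hg)
      have e : J * g * (J * g) = g * g := by
        calc J * g * (J * g) = J * (g * J) * g := by group
          _ = J * (J * g) * g := by rw [hgJ]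
          _ = (J * J) * (g * g) := by group
          _ = g * g := by rw [hJJ, one_mul]
      rw [e]
    · rw [if_neg hg, if_neg hg]
  have eK2 : ∑ g : G, (if g ∈ K then (χ : G → ℂ) (g * g) else 0)
      = ∑ g : G, (if g ∈ K then (χ : G → ℂ) g else 0) :=
    sum_sq_bij (fun g => g ∈ K) (Nat.card K) (Nat.Coprime.odd_of_right hKcop)
      (fun g hg => pow_card_sub K g hg) (fun g hg n => K.pow_mem hg n) (χ : G → ℂ)
  rw [eR, eK1, eK2, hc] at D2
  have hKc : (Nat.card K : ℂ) * 4 = (Nat.card (Subgroup.centralizer ({J} : Set G)) : ℂ) := by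
    exact_mod_cast hKcard
  have hK0 : (Nat.card K : ℂ) ≠ 0 := by
    exact_mod_cast (Nat.card_pos (α := K)).ne'
  apply mul_left_cancel₀ hK0
  rw [← hKc] at D1 D2
  linear_combination D2 - D1

open Classical in
theorem c_rel (hM : IsPModular 2 M) (J : G) (hJ2 : orderOf J = 2)
    (hKcop : (Nat.card (centralizerPPrimeCore 2 J)).Coprime 2)
    (χ₁ χ₂ χ₃ : IrrCharacter G) (ε₁ ε₂ ε₃ : ℤ)
    (hB : principalBlock M G = {χ : IrrCharacter G |
      (χ : G → ℂ) = (fun _ => 1) ∨ χ = χ₁ ∨ χ = χ₂ ∨ χ = χ₃})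
    (hdist : (χ₁ : G → ℂ) ≠ (fun _ => 1) ∧ (χ₂ : G → ℂ) ≠ (fun _ => 1) ∧
      (χ₃ : G → ℂ) ≠ (fun _ => 1) ∧ χ₁ ≠ χ₂ ∧ χ₁ ≠ χ₃ ∧ χ₂ ≠ χ₃)
    (hval : (χ₁ : G → ℂ) J = ε₁ ∧ (χ₂ : G → ℂ) J = ε₂ ∧ (χ₃ : G → ℂ) J = ε₃)
    (c₁ c₂ c₃ : ℕ)
    (hc₁ : ∑ g : G, (if g ∈ centralizerPPrimeCore 2 J then (χ₁ : G → ℂ) g else 0)
      = (Nat.card (centralizerPPrimeCore 2 J) : ℂ) * c₁)
    (hc₂ : ∑ g : G, (if g ∈ centralizerPPrimeCore 2 J then (χ₂ : G → ℂ) g else 0)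
      = (Nat.card (centralizerPPrimeCore 2 J) : ℂ) * c₂)
    (hc₃ : ∑ g : G, (if g ∈ centralizerPPrimeCore 2 J then (χ₃ : G → ℂ) g else 0)
      = (Nat.card (centralizerPPrimeCore 2 J) : ℂ) * c₃) :
    (1 : ℂ) + ε₁ * c₁ + ε₂ * c₂ + ε₃ * c₃ = 0 := by
  obtain ⟨K, hK⟩ : ∃ K : Subgroup G, K = centralizerPPrimeCore 2 J := ⟨_, rfl⟩
  rw [← hK] at hKcop hc₁ hc₂ hc₃
  obtain ⟨hv₁, hv₂, hv₃⟩ := hval
  have hpt : ∀ g ∈ K, (1 : ℂ) + ε₁ * (χ₁ : G → ℂ) g⁻¹ + ε₂ * (χ₂ : G → ℂ) g⁻¹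
      + ε₃ * (χ₃ : G → ℂ) g⁻¹ = 0 := by
    intro g hg
    have hodd : ¬ 2 ∣ orderOf g := by
      intro hdvd
      have h1 := Subgroup.orderOf_dvd_natCard K hg
      have h3 := Nat.Coprime.eq_one_of_dvd hKcop.symm (hdvd.trans h1)
      norm_num at h3
    have h := orth_reg hM J hJ2 g hodd
    rw [finsum_four χ₁ χ₂ χ₃ hB hdist (fun χ => (χ : G → ℂ) J * (χ : G → ℂ) g⁻¹)] at h
    simp only [hv₁, hv₂, hv₃] at h
    linear_combination h
  have hsum : ∑ g : G, (if g ∈ K then ((1 : ℂ) + ε₁ * (χ₁ : G → ℂ) g⁻¹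
      + ε₂ * (χ₂ : G → ℂ) g⁻¹ + ε₃ * (χ₃ : G → ℂ) g⁻¹) else 0) = 0 := by
    apply Finset.sum_eq_zero
    intro g _
    by_cases hg : g ∈ K
    · rw [if_pos hg, hpt g hg]
    · rw [if_neg hg]
  have hinv : ∀ χ : IrrCharacter G, ∑ g : G, (if g ∈ K then (χ : G → ℂ) g⁻¹ else 0)
      = ∑ g : G, (if g ∈ K then (χ : G → ℂ) g else 0) := by
    intro χ
    rw [← Equiv.sum_comp (Equiv.inv G) (fun g => if g ∈ K then (χ : G → ℂ) g else 0)]
    apply Finset.sum_congr rfl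
    intro g _
    show _ = if g⁻¹ ∈ K then (χ : G → ℂ) g⁻¹ else 0
    by_cases hg : g ∈ K
    · rw [if_pos hg, if_pos (K.inv_mem hg)]
    · rw [if_neg hg, if_neg (fun h => hg (by simpa using K.inv_mem h))]
  have hsplit : ∑ g : G, (if g ∈ K then ((1 : ℂ) + ε₁ * (χ₁ : G → ℂ) g⁻¹
        + ε₂ * (χ₂ : G → ℂ) g⁻¹ + ε₃ * (χ₃ : G → ℂ) g⁻¹) else 0)
      = (Nat.card K : ℂ) * 1
        + (ε₁ : ℂ) * ∑ g : G, (if g ∈ K then (χ₁ : G → ℂ) g⁻¹ else 0)
        + (ε₂ : ℂ) * ∑ g : G, (if g ∈ K then (χ₂ : G → ℂ) g⁻¹ else 0)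
        + (ε₃ : ℂ) * ∑ g : G, (if g ∈ K then (χ₃ : G → ℂ) g⁻¹ else 0) := by
    rw [← sum_mem_const, Finset.mul_sum, Finset.mul_sum, Finset.mul_sum,
      ← Finset.sum_add_distrib, ← Finset.sum_add_distrib, ← Finset.sum_add_distrib]
    apply Finset.sum_congr rfl
    intro g _
    by_cases hg : g ∈ K
    · simp only [if_pos hg]
    · simp only [if_neg hg]
      ring
  rw [hsplit, hinv, hinv, hinv, hc₁, hc₂, hc₃] at hsum
  have hK0 : (Nat.card K : ℂ) ≠ 0 := by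
    exact_mod_cast (Nat.card_pos (α := K)).ne'
  apply mul_left_cancel₀ hK0
  linear_combination hsum

end Cfsg.Agent.Lib.Helper23.Klein
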