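import Mathlib
import Cfsg.Agent.Lib.Helper23.Klein6

set_option autoImplicit false
set_option linter.unusedSectionVars false
set_option linter.unusedVariables false
set_option linter.style.haveILetI false

namespace Cfsg.Agent.Lib.Helper23.Klein

open Cfsg Cfsg.Agent.Lib.Helper1 Cfsg.Agent.Lib.Helper6 Cfsg.Agent.Lib.Helper24
open scoped ComplexConjugate

universe u

theorem nu_cases {G : Type u} [Group G] [Fintype G] (χ : IrrCharacter G) :
    ((Nat.card G : ℂ)⁻¹ * ∑ s : G, (χ : G → ℂ) (s * s) = 0 ∨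
      (Nat.card G : ℂ)⁻¹ * ∑ s : G, (χ : G → ℂ) (s * s) = 1 ∨
      (Nat.card G : ℂ)⁻¹ * ∑ s : G, (χ : G → ℂ) (s * s) = -1) ∧
    ((Nat.card G : ℂ)⁻¹ * ∑ s : G, (χ : G → ℂ) (s * s) = 0 ↔
      ∃ s : G, ((χ : G → ℂ) s).im ≠ 0) := by
  obtain ⟨n, ρ, hirr, hρ⟩ := χ.2
  haveI := hirr
  have h := Cfsg.Agent.S0158.result ρ
  rw [hρ] at h
  exact h

theorem klein_x_eq {G : Type u} [Group G] [Finite G] (M : Ideal AlgInt) (hM : IsPModular 2 M)
    (g₀ : ℕ) (hg₀ : Odd g₀) (hG : Nat.card G = 4 * g₀)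
    (hnc : ¬ ∃ N : Subgroup G, N.Normal ∧ Nat.card N = g₀) (P : Sylow 2 G) (J : G)
    (hJ : J ∈ (P : Subgroup G)) (hJ2 : orderOf J = 2) (χ₁ χ₂ χ₃ : IrrCharacter G)
    (ε₁ ε₂ ε₃ : ℤ)
    (hB : principalBlock M G = {χ : IrrCharacter G |
      (χ : G → ℂ) = (fun _ => 1) ∨ χ = χ₁ ∨ χ = χ₂ ∨ χ = χ₃})
    (hdist : (χ₁ : G → ℂ) ≠ (fun _ => 1) ∧ (χ₂ : G → ℂ) ≠ (fun _ => 1) ∧
      (χ₃ : G → ℂ) ≠ (fun _ => 1) ∧ χ₁ ≠ χ₂ ∧ χ₁ ≠ χ₃ ∧ χ₂ ≠ χ₃)
    (hε : (ε₁ = 1 ∨ ε₁ = -1) ∧ (ε₂ = 1 ∨ ε₂ = -1) ∧ (ε₃ = 1 ∨ ε₃ = -1))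
    (hval : (χ₁ : G → ℂ) J = ε₁ ∧ (χ₂ : G → ℂ) J = ε₂ ∧ (χ₃ : G → ℂ) J = ε₃)
    (hprod : ε₁ * ε₂ * ε₃ = -1) (hε₃ : ε₃ = -1) :
    ε₁ = 1 ∧ ε₂ = 1 ∧
      charDegree (χ₃ : G → ℂ) = 1 + charDegree (χ₁ : G → ℂ) + charDegree (χ₂ : G → ℂ) ∧
      charDegree (χ₂ : G → ℂ) = charDegree (χ₁ : G → ℂ) := by
  classical
  haveI : Fintype G := Fintype.ofFinite G
  haveI : Fintype (IrrCharacter G) := irrFintype
  obtain ⟨h4, hJ1, hJJ, J₁, g₁, g₂, hJ₁P, hg₁, hg₂, hall, hKC, hnorm, hKcard, hdec, hidx,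
    hKcop⟩ := setup g₀ hg₀ hG hnc P J hJ hJ2
  obtain ⟨-, H2⟩ := klein_core M hM g₀ hg₀ hG hnc P J hJ hJ2 χ₁ χ₂ χ₃ ε₁ ε₂ ε₃ hB hdist hε hval
  have hx₁ : 0 < charDegree (χ₁ : G → ℂ) := CharBasic.irr_degree_pos χ₁.2
  have hx₂ : 0 < charDegree (χ₂ : G → ℂ) := CharBasic.irr_degree_pos χ₂.2
  have hx₃ : 0 < charDegree (χ₃ : G → ℂ) := CharBasic.irr_degree_pos χ₃.2
  have hd₁ := CharBasic.char_one_nat (CharBasic.isCharacter_of_irr χ₁.2)
  have hd₂ := CharBasic.char_one_nat (CharBasic.isCharacter_of_irr χ₂.2)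
  have H2z : (1 : ℤ) + ε₁ * (charDegree (χ₁ : G → ℂ) : ℤ) + ε₂ * (charDegree (χ₂ : G → ℂ) : ℤ)
      + ε₃ * (charDegree (χ₃ : G → ℂ) : ℤ) = 0 := by exact_mod_cast H2
  have he12 : ε₁ = 1 ∧ ε₂ = 1 := by
    subst hε₃
    rcases hε.1 with h1 | h1 <;> rcases hε.2.1 with h2 | h2
    · exact ⟨h1, h2⟩
    · rw [h1, h2] at hprod
      norm_num at hprod
    · rw [h1, h2] at hprod
      norm_num at hprod
    · exfalso
      rw [h1, h2] at H2z
      have a1 : (1 : ℤ) ≤ (charDegree (χ₁ : G → ℂ) : ℤ) := by exact_mod_cast hx₁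
      have a2 : (1 : ℤ) ≤ (charDegree (χ₂ : G → ℂ) : ℤ) := by exact_mod_cast hx₂
      have a3 : (1 : ℤ) ≤ (charDegree (χ₃ : G → ℂ) : ℤ) := by exact_mod_cast hx₃
      linarith
  obtain ⟨he1, he2⟩ := he12
  subst he1 he2 hε₃
  refine ⟨rfl, rfl, ?_, ?_⟩
  · have : ((charDegree (χ₃ : G → ℂ) : ℕ) : ℤ)
        = ((1 + charDegree (χ₁ : G → ℂ) + charDegree (χ₂ : G → ℂ) : ℕ) : ℤ) := by
      push_cast
      linarith
    exact_mod_cast this
  · obtain ⟨hv₁, hv₂, hv₃⟩ := hval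
    obtain ⟨c₁, hc₁⟩ := K_sum_nat (centralizerPPrimeCore 2 J) (CharBasic.isCharacter_of_irr χ₁.2)
    obtain ⟨c₂, hc₂⟩ := K_sum_nat (centralizerPPrimeCore 2 J) (CharBasic.isCharacter_of_irr χ₂.2)
    obtain ⟨c₃, hc₃⟩ := K_sum_nat (centralizerPPrimeCore 2 J) (CharBasic.isCharacter_of_irr χ₃.2)
    have hcr := c_rel hM J hJ2 hKcop χ₁ χ₂ χ₃ 1 1 (-1) hB hdist ⟨hv₁, hv₂, hv₃⟩ c₁ c₂ c₃ hc₁ hc₂ hc₃
    have hcrz : (1 : ℤ) + c₁ + c₂ - c₃ = 0 := by
      have : ((1 : ℤ) + c₁ + c₂ - c₃ : ℂ) = 0 := by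
        push_cast at hcr ⊢
        linear_combination hcr
      exact_mod_cast this
    have hmem₁ : χ₁ ∈ principalBlock M G := by
      rw [hB]
      exact Or.inr (Or.inl rfl)
    have hmem₃ : χ₃ ∈ principalBlock M G := by
      rw [hB]
      exact Or.inr (Or.inr (Or.inr rfl))
    have F1 := fs_formula hM g₀ hg₀ hG P J J₁ g₁ g₂ hJ2 hg₁ hg₂ hall hKC hKcard hidx hKcop χ₁
      hmem₁ hdist.1 c₁ hc₁
    have F3 := fs_formula hM g₀ hg₀ hG P J J₁ g₁ g₂ hJ2 hg₁ hg₂ hall hKC hKcard hidx hKcop χ₃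
      hmem₃ hdist.2.2.1 c₃ hc₃
    rw [hv₁] at F1
    rw [hv₃] at F3
    have hcard : (Nat.card G : ℂ) ≠ 0 := by
      exact_mod_cast (Nat.card_pos (α := G)).ne'
    have N1 : (Nat.card G : ℂ)⁻¹ * ∑ s : G, (χ₁ : G → ℂ) (s * s) = ((c₁ : ℂ) - 1) / 4 := by
      rw [eq_div_iff (by norm_num : (4 : ℂ) ≠ 0), inv_mul_eq_div, div_mul_eq_mul_div,
        div_eq_iff hcard]
      push_cast at F1
      linear_combination F1
    have N3 : (Nat.card G : ℂ)⁻¹ * ∑ s : G, (χ₃ : G → ℂ) (s * s) = ((c₃ : ℂ) + 1) / 4 := by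
      rw [eq_div_iff (by norm_num : (4 : ℂ) ≠ 0), inv_mul_eq_div, div_mul_eq_mul_div,
        div_eq_iff hcard]
      push_cast at F3
      linear_combination F3
    obtain ⟨S1a, S1b⟩ := nu_cases χ₁
    obtain ⟨S3a, -⟩ := nu_cases χ₃
    rw [N1] at S1a S1b
    rw [N3] at S3a
    have hc3 : c₃ = 3 := by
      rcases S3a with h | h | h
      · exfalso
        have h' : ((c₃ + 1 : ℕ) : ℂ) = 0 := by
          push_cast
          linear_combination 4 * h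
        have h'' : c₃ + 1 = 0 := by exact_mod_cast h'
        omega
      · have h' : ((c₃ + 1 : ℕ) : ℂ) = ((4 : ℕ) : ℂ) := by
          push_cast
          linear_combination 4 * h
        have h'' : c₃ + 1 = 4 := by exact_mod_cast h'
        omega
      · exfalso
        have h' : ((c₃ + 1 + 4 : ℕ) : ℂ) = 0 := by
          push_cast
          linear_combination 4 * h
        have h'' : c₃ + 1 + 4 = 0 := by exact_mod_cast h'
        omega
    have hc1 : c₁ = 1 := by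
      have hle : c₁ ≤ 2 := by
        rw [hc3] at hcrz
        push_cast at hcrz
        omega
      rcases S1a with h | h | h
      · have h' : ((c₁ : ℕ) : ℂ) = ((1 : ℕ) : ℂ) := by
          push_cast
          linear_combination 4 * h
        exact_mod_cast h'
      · exfalso
        have h' : ((c₁ : ℕ) : ℂ) = ((5 : ℕ) : ℂ) := by
          push_cast
          linear_combination 4 * h
        have h'' : c₁ = 5 := by exact_mod_cast h'
        omega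
      · exfalso
        have h' : ((c₁ + 3 : ℕ) : ℂ) = 0 := by
          push_cast
          linear_combination 4 * h
        have h'' : c₁ + 3 = 0 := by exact_mod_cast h'
        omega
    have hnu0 : ((c₁ : ℂ) - 1) / 4 = 0 := by
      rw [hc1]
      norm_num
    obtain ⟨s, hs⟩ := S1b.mp hnu0
    have hψ := conj_mem_principal (M := M) χ₁ hmem₁
    rw [hB] at hψ
    rcases hψ with h | h | h | h
    · exfalso
      apply hs
      have h1 : conj ((χ₁ : G → ℂ) s) = 1 := congrFun h s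
      have h2 : (χ₁ : G → ℂ) s = 1 := by
        have := congrArg conj h1
        rwa [Complex.conj_conj, map_one] at this
      rw [h2]
      simp
    · exfalso
      apply hs
      have h1 : conj ((χ₁ : G → ℂ) s) = (χ₁ : G → ℂ) s := congrFun (congrArg Subtype.val h) s
      exact Complex.conj_eq_iff_im.mp h1
    · have h1 : conj ((χ₁ : G → ℂ) 1) = (χ₂ : G → ℂ) 1 := congrFun (congrArg Subtype.val h) 1
      rw [hd₁, hd₂, Complex.conj_natCast] at h1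
      exact_mod_cast h1.symm
    · exfalso
      have h1 : conj ((χ₁ : G → ℂ) J) = (χ₃ : G → ℂ) J := congrFun (congrArg Subtype.val h) J
      rw [hv₁, hv₃] at h1
      norm_num at h1

end Cfsg.Agent.Lib.Helper23.Klein
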