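import Mathlib

set_option autoImplicit false

namespace Cfsg.Agent.Lib.Helper23.MinDeg

open scoped Pointwise
open Finset
open Classical

noncomputable section

/-- orbital relation of the pair `(x, y)` -/
def Eo (G : Type*) {Ω : Type*} [Group G] [MulAction G Ω] (x y u w : Ω) : Prop :=
  ∃ k : G, k • x = u ∧ k • y = w

/-- distinguishing set of a pair -/
def Dst (G : Type*) {Ω : Type*} [Group G] [MulAction G Ω] [Fintype Ω] (x y : Ω) : Finset Ω :=
  univ.filter (fun z => ¬ ∃ k : G, k • z = z ∧ k • x = y)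

/-- out-neighbourhood in the orbital graph -/
def Ro (G : Type*) {Ω : Type*} [Group G] [MulAction G Ω] [Fintype Ω] (x y u : Ω) : Finset Ω :=
  univ.filter (fun w => Eo G x y u w)

variable {G Ω : Type*} [Group G] [MulAction G Ω]

theorem Eo_smul {x y u w : Ω} (k : G) (h : Eo G x y u w) : Eo G x y (k • u) (k • w) := by
  obtain ⟨k₀, h1, h2⟩ := h
  exact ⟨k * k₀, by rw [mul_smul, h1], by rw [mul_smul, h2]⟩

theorem Eo_irrefl {x y u : Ω} (hxy : x ≠ y) : ¬ Eo G x y u u := by
  rintro ⟨k, h1, h2⟩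
  exact hxy (MulAction.injective k (h1.trans h2.symm))

theorem Eo_symm {x y u w : Ω} (hsp : Eo G x y y x) (h : Eo G x y u w) : Eo G x y w u := by
  obtain ⟨k, h1, h2⟩ := h
  obtain ⟨k₀, h3, h4⟩ := hsp
  exact ⟨k * k₀, by rw [mul_smul, h3, h2], by rw [mul_smul, h4, h1]⟩

theorem Eo_base (x y : Ω) : Eo G x y x y := ⟨1, one_smul _ _, one_smul _ _⟩

variable [Fintype Ω]

theorem mem_Dst {x y z : Ω} : z ∈ Dst G x y ↔ ¬ ∃ k : G, k • z = z ∧ k • x = y := by
  simp [Dst]

theorem mem_Ro {x y u w : Ω} : w ∈ Ro G x y u ↔ Eo G x y u w := by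
  simp [Ro]

theorem Dst_symm (x y : Ω) : Dst G x y = Dst G y x := by
  ext z
  simp only [mem_Dst, not_iff_not]
  constructor
  · rintro ⟨k, h1, h2⟩
    exact ⟨k⁻¹, by rw [inv_smul_eq_iff, h1], by rw [inv_smul_eq_iff, h2]⟩
  · rintro ⟨k, h1, h2⟩
    exact ⟨k⁻¹, by rw [inv_smul_eq_iff, h1], by rw [inv_smul_eq_iff, h2]⟩

theorem Dst_tri (x y z : Ω) : Dst G x z ⊆ Dst G x y ∪ Dst G y z := by
  intro w hw
  rw [mem_union, mem_Dst, mem_Dst]
  rw [mem_Dst] at hw
  by_contra hcon
  rw [not_or, not_not, not_not] at hcon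
  obtain ⟨⟨k1, h1, h2⟩, ⟨k2, h3, h4⟩⟩ := hcon
  exact hw ⟨k2 * k1, by rw [mul_smul, h1, h3], by rw [mul_smul, h2, h4]⟩

theorem Dst_smul (k : G) (x y : Ω) :
    Dst G (k • x) (k • y) = (Dst G x y).image (fun z => k • z) := by
  ext z
  simp only [mem_Dst, mem_image]
  constructor
  · intro h
    refine ⟨k⁻¹ • z, ?_, by rw [smul_inv_smul]⟩
    rintro ⟨k', h1, h2⟩
    exact h ⟨k * k' * k⁻¹, by rw [mul_smul, mul_smul, h1, smul_inv_smul],
      by rw [mul_smul, mul_smul, inv_smul_smul, h2]⟩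
  · rintro ⟨w, hw, rfl⟩ ⟨k', h1, h2⟩
    exact hw ⟨k⁻¹ * k' * k, by rw [mul_smul, mul_smul, h1, inv_smul_smul],
      by rw [mul_smul, mul_smul, h2, inv_smul_smul]⟩

theorem Dst_card_smul (k : G) (x y : Ω) : (Dst G (k • x) (k • y)).card = (Dst G x y).card := by
  rw [Dst_smul, card_image_of_injective _ (MulAction.injective k)]

theorem Dst_card_of_Eo {x y u w : Ω} (h : Eo G x y u w) :
    (Dst G u w).card = (Dst G x y).card := by
  obtain ⟨k, rfl, rfl⟩ := h
  exact Dst_card_smul k x y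

theorem self_mem_Dst {x y : Ω} (hxy : x ≠ y) : x ∈ Dst G x y := by
  rw [mem_Dst]
  rintro ⟨k, h1, h2⟩
  exact hxy (h1.symm.trans h2)

theorem Ro_smul (k : G) (x y u : Ω) :
    Ro G x y (k • u) = (Ro G x y u).image (fun z => k • z) := by
  ext w
  simp only [mem_Ro, mem_image]
  constructor
  · intro h
    refine ⟨k⁻¹ • w, ?_, by rw [smul_inv_smul]⟩
    have := Eo_smul k⁻¹ h
    rwa [inv_smul_smul] at this
  · rintro ⟨w', hw, rfl⟩
    exact Eo_smul k hw

theorem Ro_card_smul (k : G) (x y u : Ω) : (Ro G x y (k • u)).card = (Ro G x y u).card := by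
  rw [Ro_smul, card_image_of_injective _ (MulAction.injective k)]

theorem Ro_card [MulAction.IsPretransitive G Ω] (x y u w : Ω) :
    (Ro G x y u).card = (Ro G x y w).card := by
  obtain ⟨k, rfl⟩ := MulAction.exists_smul_eq G w u
  exact Ro_card_smul k x y w

theorem Ro_sdiff_subset (x y u w : Ω) : Ro G x y u \ Ro G x y w ⊆ Dst G u w := by
  intro z hz
  rw [mem_sdiff, mem_Ro, mem_Ro] at hz
  rw [mem_Dst]
  rintro ⟨k, h1, h2⟩
  apply hz.2
  have := Eo_smul k hz.1
  rwa [h1, h2] at this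

theorem two_mul_sdiff_le [MulAction.IsPretransitive G Ω] (x y u w : Ω) :
    2 * (Ro G x y u \ Ro G x y w).card ≤ (Dst G u w).card := by
  have h1 := Ro_sdiff_subset (G := G) x y u w
  have h2 := Ro_sdiff_subset (G := G) x y w u
  rw [Dst_symm] at h2
  have h3 : (Ro G x y u \ Ro G x y w).card = (Ro G x y w \ Ro G x y u).card :=
    card_sdiff_comm (Ro_card x y u w)
  have h4 : Disjoint (Ro G x y u \ Ro G x y w) (Ro G x y w \ Ro G x y u) := by
    rw [Finset.disjoint_left]
    intro z hz1 hz2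
    rw [mem_sdiff] at hz1 hz2
    exact hz1.2 hz2.1
  have h5 := card_le_card (union_subset h1 h2)
  rw [card_union_of_disjoint h4] at h5
  omega

theorem conn [MulAction.IsPreprimitive G Ω] {x y : Ω} (hxy : x ≠ y) (W : Set Ω)
    (hne : W.Nonempty) (hcl : ∀ u ∈ W, ∀ w, Eo G x y u w → w ∈ W) : W = Set.univ := by
  let P : Set Ω → Prop := fun W => W.Nonempty ∧ ∀ u ∈ W, ∀ w, Eo G x y u w → w ∈ W
  obtain ⟨W₀, hW₀, hmin⟩ := exists_minimal_of_wellFoundedLT P ⟨W, hne, hcl⟩
  have hblock : MulAction.IsBlock G W₀ := by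
    rw [MulAction.isBlock_iff_smul_eq_of_nonempty]
    intro g hg
    have hP : P (g • W₀ ∩ W₀) := by
      refine ⟨hg, ?_⟩
      intro u hu w huw
      refine ⟨?_, hW₀.2 u hu.2 w huw⟩
      obtain ⟨u', hu', rfl⟩ := hu.1
      have := Eo_smul g⁻¹ huw
      rw [inv_smul_smul] at this
      have h2 := hW₀.2 u' hu' _ this
      exact Set.mem_smul_set_iff_inv_smul_mem.mpr h2
    have hle : W₀ ≤ g • W₀ ∩ W₀ := hmin hP Set.inter_subset_right
    have hsub : W₀ ⊆ g • W₀ := fun a ha => (hle ha).1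
    exact (Set.eq_of_subset_of_ncard_le hsub (by rw [Set.ncard_smul_set]) (Set.toFinite _)).symm
  rcases hblock.subsingleton_or_eq_univ with hs | hu
  · exfalso
    obtain ⟨u, hu⟩ := hW₀.1
    obtain ⟨k, rfl⟩ := MulAction.exists_smul_eq G x u
    have h1 : k • y ∈ W₀ := hW₀.2 _ hu _ ⟨k, rfl, rfl⟩
    exact hxy (MulAction.injective k (hs hu h1))
  · have : (Set.univ : Set Ω) ≤ W := by
      rw [← hu]
      exact hmin ⟨hne, hcl⟩ (by rw [hu]; exact Set.subset_univ _)
    exact Set.eq_univ_of_univ_subset this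

theorem card_le [MulAction.IsPreprimitive G Ω] {x y : Ω} (hxy : x ≠ y) :
    Fintype.card Ω + (Ro G x y x).card ≤ 1 + (Ro G x y x).card * (Dst G x y).card := by
  have hcover : univ.erase x ⊆ (Ro G x y x).biUnion (fun y' => (Dst G x y').erase x) := by
    intro z hz
    rw [mem_erase] at hz
    rw [mem_biUnion]
    by_contra hcon
    have hA : ({a | ∃ k : G, k • z = z ∧ k • x = a} : Set Ω) = Set.univ := by
      apply conn (G := G) hxy
      · exact ⟨x, 1, one_smul _ _, one_smul _ _⟩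
      · rintro a ⟨k, hk1, rfl⟩ a' haa'
        have h1 : Eo G x y x (k⁻¹ • a') := by
          have := Eo_smul k⁻¹ haa'
          rwa [inv_smul_smul] at this
        have h3 : ¬ z ∈ Dst G x (k⁻¹ • a') := by
          intro h3
          exact hcon ⟨k⁻¹ • a', mem_Ro.mpr h1, mem_erase.mpr ⟨hz.1, h3⟩⟩
        rw [mem_Dst, not_not] at h3
        obtain ⟨k', hk'1, hk'2⟩ := h3
        exact ⟨k * k', by rw [mul_smul, hk'1, hk1], by rw [mul_smul, hk'2, smul_inv_smul]⟩
    have hz' : z ∈ ({a | ∃ k : G, k • z = z ∧ k • x = a} : Set Ω) := by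
      rw [hA]; exact Set.mem_univ _
    obtain ⟨k, h1, h2⟩ := hz'
    exact hz.1 (MulAction.injective k (h1.trans h2.symm))
  have hcard := card_le_card hcover
  rw [card_erase_of_mem (mem_univ x), card_univ] at hcard
  have hsum : ((Ro G x y x).biUnion (fun y' => (Dst G x y').erase x)).card
      ≤ (Ro G x y x).card * ((Dst G x y).card - 1) := by
    refine card_biUnion_le.trans ?_
    rw [← smul_eq_mul, ← sum_const]
    apply sum_le_sum
    intro y' hy'
    rw [mem_Ro] at hy'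
    have hne : x ≠ y' := by
      rintro rfl
      exact Eo_irrefl hxy hy'
    rw [card_erase_of_mem (self_mem_Dst hne), Dst_card_of_Eo hy']
  have hd : 1 ≤ (Dst G x y).card := card_pos.mpr ⟨x, self_mem_Dst hxy⟩
  have hn : 1 ≤ Fintype.card Ω := Fintype.card_pos_iff.mpr ⟨x⟩
  obtain ⟨d', hd'⟩ : ∃ d', (Dst G x y).card = d' + 1 := ⟨(Dst G x y).card - 1, by omega⟩
  rw [hd'] at hsum ⊢
  have : (Ro G x y x).card * (d' + 1) = (Ro G x y x).card * d' + (Ro G x y x).card := by ring
  rw [this]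
  simp only [Nat.add_sub_cancel] at hsum
  omega

theorem nonself [MulAction.IsPretransitive G Ω] {x y : Ω} (hxy : x ≠ y)
    (hns : ¬ Eo G x y y x) : (Ro G x y x).card + 1 ≤ (Dst G x y).card := by
  have hasym : ∀ u w, Eo G x y u w → ¬ Eo G x y w u := by
    rintro u w ⟨k, rfl, rfl⟩ h2
    apply hns
    have := Eo_smul k⁻¹ h2
    rwa [inv_smul_smul, inv_smul_smul] at this
  have hout : ∀ a ∈ Ro G x y x, 2 * (Ro G x y x).card
      ≤ 2 * ((Ro G x y x).bipartiteAbove (Eo G x y) a).card + (Dst G x y).card := by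
    intro a ha
    have h1 := two_mul_sdiff_le (G := G) x y x a
    rw [Dst_card_of_Eo (mem_Ro.mp ha)] at h1
    have h2 : Ro G x y x ⊆ (Ro G x y x).bipartiteAbove (Eo G x y) a
        ∪ (Ro G x y x \ Ro G x y a) := by
      intro b hb
      by_cases hab : Eo G x y a b
      · exact mem_union_left _ ((mem_bipartiteAbove _).mpr ⟨hb, hab⟩)
      · exact mem_union_right _ (mem_sdiff.mpr ⟨hb, by rwa [mem_Ro]⟩)
    have h3 := (card_le_card h2).trans (card_union_le _ _)
    omega
  have hinout : ∀ a ∈ Ro G x y x, ((Ro G x y x).bipartiteAbove (Eo G x y) a).card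
      + ((Ro G x y x).bipartiteBelow (Eo G x y) a).card + 1 ≤ (Ro G x y x).card := by
    intro a ha
    have hdisj : Disjoint ((Ro G x y x).bipartiteAbove (Eo G x y) a)
        ((Ro G x y x).bipartiteBelow (Eo G x y) a) := by
      rw [Finset.disjoint_left]
      intro b hb1 hb2
      exact hasym a b ((mem_bipartiteAbove _).mp hb1).2 ((mem_bipartiteBelow _).mp hb2).2
    have hsub : (Ro G x y x).bipartiteAbove (Eo G x y) a
        ∪ (Ro G x y x).bipartiteBelow (Eo G x y) a ⊆ (Ro G x y x).erase a := by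
      intro b hb
      rw [mem_union] at hb
      rw [mem_erase]
      rcases hb with hb | hb
      · refine ⟨fun h => ?_, ((mem_bipartiteAbove _).mp hb).1⟩
        have h2 := ((mem_bipartiteAbove _).mp hb).2
        rw [h] at h2
        exact Eo_irrefl hxy h2
      · refine ⟨fun h => ?_, ((mem_bipartiteBelow _).mp hb).1⟩
        have h2 := ((mem_bipartiteBelow _).mp hb).2
        rw [h] at h2
        exact Eo_irrefl hxy h2
    have := card_le_card hsub
    rw [card_union_of_disjoint hdisj, card_erase_of_mem ha] at this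
    have hpos : 0 < (Ro G x y x).card := card_pos.mpr ⟨a, ha⟩
    omega
  have hdc := sum_card_bipartiteAbove_eq_sum_card_bipartiteBelow (Eo G x y)
    (s := Ro G x y x) (t := Ro G x y x)
  have e1 := sum_le_sum hout
  have e2 := sum_le_sum hinout
  simp only [sum_add_distrib, sum_const, smul_eq_mul, ← mul_sum, mul_one] at e1 e2
  rw [← hdc] at e2
  have hpos : 0 < (Ro G x y x).card := card_pos.mpr ⟨y, mem_Ro.mpr (Eo_base x y)⟩
  have e3 : (Ro G x y x).card * ((Ro G x y x).card + 1)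
      ≤ (Ro G x y x).card * (Dst G x y).card := by nlinarith
  exact Nat.le_of_mul_le_mul_left e3 hpos

end

end Cfsg.Agent.Lib.Helper23.MinDeg
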