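import Mathlib
import Cfsg.Agent.Lib.Helper23.MinDeg1

set_option autoImplicit false

namespace Cfsg.Agent.Lib.Helper23.MinDeg

open scoped Pointwise
open Finset
open Classical

noncomputable section

/-- 2-transitivity, elementwise -/
def TwoTr (G Ω : Type*) [Group G] [MulAction G Ω] : Prop :=
  ∀ a b c d : Ω, a ≠ b → c ≠ d → ∃ k : G, k • a = c ∧ k • b = d

variable {G Ω : Type*} [Group G] [MulAction G Ω] [Fintype Ω]

theorem all_sdiff_le [MulAction.IsPreprimitive G Ω] {x y : Ω} (hxy : x ≠ y)
    (hsp : Eo G x y y x) (hk : 2 * (Dst G x y).card < (Ro G x y x).card) (z : Ω) :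
    (Ro G x y x \ Ro G x y z).card ≤ (Dst G x y).card := by
  have hW : ({w | (Ro G x y x \ Ro G x y w).card ≤ (Dst G x y).card} : Set Ω) = Set.univ := by
    apply conn (G := G) hxy
    · exact ⟨x, by simp⟩
    · intro w hw w' hww'
      simp only [Set.mem_ofPred_eq] at hw ⊢
      have h1 := two_mul_sdiff_le (G := G) x y w w'
      rw [Dst_card_of_Eo hww'] at h1
      have h2 : (Ro G x y x \ Ro G x y w').card
          ≤ (Ro G x y x \ Ro G x y w).card + (Ro G x y w \ Ro G x y w').card :=
        (card_le_card (show Ro G x y x \ Ro G x y w'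
          ⊆ (Ro G x y x \ Ro G x y w) ∪ (Ro G x y w \ Ro G x y w') from
            sdiff_triangle _ _ _)).trans (card_union_le _ _)
      have h3 : (Ro G x y x \ Ro G x y w').card < (Ro G x y x).card := by omega
      have h4 : ∃ u, u ∈ Ro G x y x ∧ u ∈ Ro G x y w' := by
        by_contra hcon
        have : Ro G x y x \ Ro G x y w' = Ro G x y x := by
          rw [Finset.sdiff_eq_self_iff_disjoint, Finset.disjoint_left]
          intro u hu1 hu2
          exact hcon ⟨u, hu1, hu2⟩
        rw [this] at h3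
        exact lt_irrefl _ h3
      obtain ⟨u, hu1, hu2⟩ := h4
      rw [mem_Ro] at hu1 hu2
      have h5 := two_mul_sdiff_le (G := G) x y x u
      rw [Dst_card_of_Eo hu1] at h5
      have h6 := two_mul_sdiff_le (G := G) x y u w'
      rw [Dst_card_of_Eo (Eo_symm hsp hu2)] at h6
      have h7 : (Ro G x y x \ Ro G x y w').card
          ≤ (Ro G x y x \ Ro G x y u).card + (Ro G x y u \ Ro G x y w').card :=
        (card_le_card (show Ro G x y x \ Ro G x y w'
          ⊆ (Ro G x y x \ Ro G x y u) ∪ (Ro G x y u \ Ro G x y w') from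
            sdiff_triangle _ _ _)).trans (card_union_le _ _)
      omega
  have : z ∈ ({w | (Ro G x y x \ Ro G x y w).card ≤ (Dst G x y).card} : Set Ω) := by
    rw [hW]; exact Set.mem_univ _
  exact this

theorem selfp [MulAction.IsPreprimitive G Ω] {x y : Ω} (hxy : x ≠ y) (hsp : Eo G x y y x)
    (h2 : ¬ TwoTr G Ω) (hmin : ∀ a b : Ω, a ≠ b → (Dst G x y).card ≤ (Dst G a b).card)
    (hk : 2 * (Dst G x y).card < (Ro G x y x).card) :
    Fintype.card Ω ≤ (Dst G x y).card ^ 2 + (Dst G x y).card := by
  have hxR : x ∉ Ro G x y x := by rw [mem_Ro]; exact Eo_irrefl hxy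
  have hN₂card : (univ \ insert x (Ro G x y x)).card + (Ro G x y x).card + 1
      = Fintype.card Ω := by
    have := card_sdiff_add_card_eq_card (subset_univ (insert x (Ro G x y x)))
    rw [card_insert_of_notMem hxR, card_univ] at this
    omega
  have hlow : ∀ z ∈ univ \ insert x (Ro G x y x), (Ro G x y x).card
      ≤ ((Ro G x y x).bipartiteAbove (Eo G x y) z).card + (Dst G x y).card := by
    intro z _
    have h1 := all_sdiff_le hxy hsp hk z
    have h2 : Ro G x y x ⊆ (Ro G x y x).bipartiteAbove (Eo G x y) z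
        ∪ (Ro G x y x \ Ro G x y z) := by
      intro b hb
      by_cases hab : Eo G x y z b
      · exact mem_union_left _ ((mem_bipartiteAbove _).mpr ⟨hb, hab⟩)
      · exact mem_union_right _ (mem_sdiff.mpr ⟨hb, by rwa [mem_Ro]⟩)
    have h3 := (card_le_card h2).trans (card_union_le _ _)
    omega
  have hup : ∀ u ∈ Ro G x y x,
      2 * ((univ \ insert x (Ro G x y x)).bipartiteBelow (Eo G x y) u).card + 2
        ≤ (Dst G x y).card := by
    intro u hu
    have hxu := mem_Ro.mp hu
    have h1 := two_mul_sdiff_le (G := G) x y u x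
    rw [Dst_symm, Dst_card_of_Eo hxu] at h1
    have h2 : (univ \ insert x (Ro G x y x)).bipartiteBelow (Eo G x y) u
        ⊆ (Ro G x y u \ Ro G x y x).erase x := by
      intro z hz
      rw [mem_bipartiteBelow] at hz
      obtain ⟨hz1, hz2⟩ := hz
      simp only [mem_sdiff, mem_univ, true_and, mem_insert, not_or] at hz1
      rw [mem_erase, mem_sdiff, mem_Ro]
      exact ⟨hz1.1, Eo_symm hsp hz2, hz1.2⟩
    have h3 : x ∈ Ro G x y u \ Ro G x y x := by
      rw [mem_sdiff, mem_Ro]
      exact ⟨Eo_symm hsp hxu, hxR⟩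
    have h4 := card_le_card h2
    rw [card_erase_of_mem h3] at h4
    have h5 : 0 < (Ro G x y u \ Ro G x y x).card := card_pos.mpr ⟨x, h3⟩
    omega
  have hdc := sum_card_bipartiteAbove_eq_sum_card_bipartiteBelow (Eo G x y)
    (s := univ \ insert x (Ro G x y x)) (t := Ro G x y x)
  have e1 := sum_le_sum hlow
  have e2 := sum_le_sum hup
  simp only [sum_add_distrib, sum_const, smul_eq_mul, ← mul_sum] at e1 e2
  rw [hdc] at e1
  have hne : (univ \ insert x (Ro G x y x)).Nonempty := by
    by_contra hcon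
    rw [not_nonempty_iff_eq_empty] at hcon
    apply h2
    have hall : ∀ w, w ≠ x → Eo G x y x w := by
      intro w hw
      have : w ∉ univ \ insert x (Ro G x y x) := by rw [hcon]; exact notMem_empty _
      simp only [mem_sdiff, mem_univ, true_and, not_not, mem_insert] at this
      rcases this with h | h
      · exact absurd h hw
      · exact mem_Ro.mp h
    have key : ∀ a b : Ω, a ≠ b → ∃ k : G, k • x = a ∧ k • y = b := by
      intro a b hab
      obtain ⟨k₁, rfl⟩ := MulAction.exists_smul_eq G x a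
      have : k₁⁻¹ • b ≠ x := by
        intro h
        apply hab
        rw [← h, smul_inv_smul]
      obtain ⟨k₂, h3, h4⟩ := hall _ this
      exact ⟨k₁ * k₂, by rw [mul_smul, h3], by rw [mul_smul, h4, smul_inv_smul]⟩
    intro a b c d' hab hcd
    obtain ⟨k, rfl, rfl⟩ := key a b hab
    obtain ⟨k', rfl, rfl⟩ := key c d' hcd
    exact ⟨k' * k⁻¹, by rw [mul_smul, inv_smul_smul], by rw [mul_smul, inv_smul_smul]⟩
  obtain ⟨z, hz⟩ := hne
  have hz' : z ≠ x ∧ z ∉ Ro G x y x := by
    simp only [mem_sdiff, mem_univ, true_and, mem_insert, not_or] at hz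
    exact hz
  have hDsub : Dst G x z ⊆ (univ \ insert x (Ro G x y x)) ∪ (univ \ insert z (Ro G x y z)) := by
    intro z' hz'D
    by_contra hcon
    rw [mem_union, not_or] at hcon
    obtain ⟨h3n, h4n⟩ := hcon
    have h3 : z' ∈ insert x (Ro G x y x) := by
      by_contra hh
      exact h3n (mem_sdiff.mpr ⟨mem_univ _, hh⟩)
    have h4 : z' ∈ insert z (Ro G x y z) := by
      by_contra hh
      exact h4n (mem_sdiff.mpr ⟨mem_univ _, hh⟩)
    rw [mem_insert] at h3 h4
    rw [mem_Dst] at hz'D
    apply hz'D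
    rcases h3 with rfl | h3
    · rcases h4 with h4 | h4
      · exact absurd h4.symm hz'.1
      · exact absurd (mem_Ro.mpr (Eo_symm hsp (mem_Ro.mp h4))) hz'.2
    · rcases h4 with rfl | h4
      · exact absurd h3 hz'.2
      · obtain ⟨k₁, h5, h6⟩ := mem_Ro.mp h3
        obtain ⟨k₂, h7, h8⟩ := mem_Ro.mp h4
        exact ⟨k₂ * k₁⁻¹, by rw [mul_smul, inv_smul_eq_iff.mpr h6.symm, h8],
          by rw [mul_smul, inv_smul_eq_iff.mpr h5.symm, h7]⟩
  have hcardD : (Dst G x y).card ≤ 2 * (univ \ insert x (Ro G x y x)).card := by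
    have h1 := hmin x z (Ne.symm hz'.1)
    have h2 := (card_le_card hDsub).trans (card_union_le _ _)
    have h3 : (univ \ insert z (Ro G x y z)).card + (Ro G x y x).card + 1
        = Fintype.card Ω := by
      have hzR : z ∉ Ro G x y z := by rw [mem_Ro]; exact Eo_irrefl hxy
      have := card_sdiff_add_card_eq_card (subset_univ (insert z (Ro G x y z)))
      rw [card_insert_of_notMem hzR, card_univ, Ro_card x y z x] at this
      omega
    omega
  have hεpos : 0 < (univ \ insert x (Ro G x y x)).card := card_pos.mpr ⟨z, hz⟩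
  generalize (univ \ insert x (Ro G x y x)).card = ε at *
  generalize (Ro G x y x).card = ν at *
  generalize (Dst G x y).card = d at *
  generalize Fintype.card Ω = n at *
  generalize (∑ b ∈ Ro G x y x,
    ((univ \ insert x (Ro G x y x)).bipartiteBelow (Eo G x y) b).card) = S at *
  have h_a : ν * d ≤ 2 * ε * ν := by nlinarith
  have h_i : ν ≤ ε * d := by nlinarith
  have h_b : 2 * ε * d ≤ ε * ν := by nlinarith
  have hνpos : 0 < ν := by omega
  have h_ii : ε + 2 ≤ d := by
    have : ν * (ε + 2) ≤ ν * d := by nlinarith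
    exact Nat.le_of_mul_le_mul_left this hνpos
  have h_c : ε * d ≤ d * d := by nlinarith
  nlinarith

theorem uniprim [MulAction.IsPreprimitive G Ω] {x y : Ω} (hxy : x ≠ y)
    (h2 : ¬ TwoTr G Ω) (hmin : ∀ a b : Ω, a ≠ b → (Dst G x y).card ≤ (Dst G a b).card) :
    Fintype.card Ω ≤ (2 * (Dst G x y).card + 1) ^ 2 := by
  have hA := card_le (G := G) hxy
  have hd : 1 ≤ (Dst G x y).card := card_pos.mpr ⟨x, self_mem_Dst hxy⟩
  by_cases hsp : Eo G x y y x
  · by_cases hk : 2 * (Dst G x y).card < (Ro G x y x).card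
    · have := selfp hxy hsp h2 hmin hk
      nlinarith
    · rw [not_lt] at hk
      have : (Ro G x y x).card * (Dst G x y).card
          ≤ 2 * (Dst G x y).card * (Dst G x y).card := by nlinarith
      nlinarith
  · have h3 := nonself (G := G) hxy hsp
    have : (Ro G x y x).card * (Dst G x y).card
        ≤ (Dst G x y).card * (Dst G x y).card := by nlinarith
    nlinarith

end

end Cfsg.Agent.Lib.Helper23.MinDeg
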