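import Mathlib
import Cfsg.Agent.Lib.Helper23.MinDeg2

set_option autoImplicit false

namespace Cfsg.Agent.Lib.Helper23.MinDeg

open scoped Pointwise
open Finset

theorem comm_three {Ω : Type*} [DecidableEq Ω] [Fintype Ω] (p q : Equiv.Perm Ω) (α : Ω)
    (hp : p α ≠ α) (hq : q α ≠ α) (hpq : ∀ z, p z ≠ z → q z ≠ z → z = α) :
    (p⁻¹ * q⁻¹ * p * q).IsThreeCycle := by
  have inv_self : ∀ (f : Equiv.Perm Ω) (x : Ω), f⁻¹ (f x) = x := fun f x => by
    rw [Equiv.Perm.inv_eq_iff_eq]
  have self_inv : ∀ (f : Equiv.Perm Ω) (x : Ω), f (f⁻¹ x) = x := fun f x =>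
    Equiv.Perm.eq_inv_iff_eq.mp rfl
  have hp' : ∀ z, p z = z → p⁻¹ z = z := fun z h => by rw [Equiv.Perm.inv_eq_iff_eq, h]
  have hq' : ∀ z, q z = z → q⁻¹ z = z := fun z h => by rw [Equiv.Perm.inv_eq_iff_eq, h]
  have F : ∀ z, z ≠ α → p z ≠ z → q z = z := fun z hz h => by
    by_contra h2; exact hz (hpq z h h2)
  have F' : ∀ z, z ≠ α → q z ≠ z → p z = z := fun z hz h => by
    by_contra h2; exact hz (hpq z h2 h)
  obtain ⟨b, hb⟩ : ∃ b, b = p⁻¹ α := ⟨_, rfl⟩
  obtain ⟨c, hc⟩ : ∃ c, c = q⁻¹ α := ⟨_, rfl⟩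
  have hpb : p b = α := by rw [hb, self_inv]
  have hqc : q c = α := by rw [hc, self_inv]
  have hbα : b ≠ α := by
    intro h; rw [h] at hpb; exact hp hpb
  have hcα : c ≠ α := by
    intro h; rw [h] at hqc; exact hq hqc
  have hpb' : p b ≠ b := by rw [hpb]; exact hbα.symm
  have hqc' : q c ≠ c := by rw [hqc]; exact hcα.symm
  have hqb : q b = b := F b hbα hpb'
  have hpc : p c = c := F' c hcα hqc'
  have hbc : b ≠ c := by
    intro h; rw [h] at hpb'; exact hpb' hpc
  have key : p⁻¹ * q⁻¹ * p * q = Equiv.swap b α * Equiv.swap b c := by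
    ext z
    simp only [Equiv.Perm.mul_apply]
    by_cases hzα : z = α
    · rw [hzα]
      have h2 : q (q α) ≠ q α := fun h => hq (q.injective h)
      have h3 : p (q α) = q α := F' _ hq h2
      rw [h3, inv_self, Equiv.swap_apply_of_ne_of_ne hbα.symm hcα.symm,
        Equiv.swap_apply_right, hb]
    · by_cases hzb : z = b
      · rw [hzb, hqb, hpb, Equiv.swap_apply_left, Equiv.swap_apply_of_ne_of_ne hbc.symm hcα,
          ← hc]
        exact hp' c hpc
      · by_cases hzc : z = c
        · rw [hzc, hqc]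
          have h2 : p (p α) ≠ p α := fun h => hp (p.injective h)
          have h3 : q (p α) = p α := F _ hp h2
          rw [hq' _ h3, inv_self, Equiv.swap_apply_right,
            Equiv.swap_apply_left]
        · rw [Equiv.swap_apply_of_ne_of_ne hzb hzc, Equiv.swap_apply_of_ne_of_ne hzb hzα]
          by_cases hqz : q z = z
          · rw [hqz]
            by_cases hpz : p z = z
            · rw [hpz, hq' z hqz, hp' z hpz]
            · have h1 : p z ≠ α := by
                intro h
                apply hzb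
                rw [hb, ← h, inv_self]
              have h2 : p (p z) ≠ p z := fun h => hpz (p.injective h)
              rw [hq' _ (F _ h1 h2), inv_self]
          · have hpz : p z = z := F' z hzα hqz
            have h1 : q z ≠ α := by
              intro h
              apply hzc
              rw [hc, ← h, inv_self]
            have h2 : q (q z) ≠ q z := fun h => hqz (q.injective h)
            rw [F' _ h1 h2, inv_self, hp' z hpz]
  rw [key]
  exact Equiv.Perm.isThreeCycle_swap_mul_swap_same hbα hbc (Ne.symm hcα)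

theorem range_prim {G Ω : Type*} [Group G] [MulAction G Ω] [MulAction.IsPreprimitive G Ω] :
    MulAction.IsPreprimitive (↥(MulAction.toPermHom G Ω).range) Ω := by
  let φ : G → ↥(MulAction.toPermHom G Ω).range := (MulAction.toPermHom G Ω).rangeRestrict
  let f : Ω →ₑ[φ] Ω := { toFun := id, map_smul' := fun m a => rfl }
  exact MulAction.IsPreprimitive.of_surjective (f := f) Function.surjective_id

theorem exists_sep {G Ω : Type*} [Group G] [Finite G] [MulAction G Ω] [Fintype Ω]
    [DecidableEq Ω] (h2 : TwoTr G Ω) (α : Ω) (A : Finset Ω) (hA : α ∉ A)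
    (hcard : A.card * A.card < Fintype.card Ω - 1) :
    ∃ k : G, k • α = α ∧ ∀ a ∈ A, k • a ∉ A := by
  classical
  by_contra hcon
  have hcon' : ∀ k : G, k • α = α → ∃ a ∈ A, k • a ∈ A := by
    intro k hk
    by_contra h
    apply hcon
    refine ⟨k, hk, fun a ha hka => h ⟨a, ha, hka⟩⟩
  have := Fintype.ofFinite G
  let H : Finset G := univ.filter (fun k : G => k • α = α)
  let Hab : Ω → Ω → Finset G := fun a b => univ.filter (fun k : G => k • α = α ∧ k • a = b)
  have c1 : ∀ a b b', b ≠ α → b' ≠ α → (Hab a b).card ≤ (Hab a b').card := by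
    intro a b b' hb hb'
    obtain ⟨k₀, h1, h2'⟩ := h2 α b α b' (Ne.symm hb) (Ne.symm hb')
    apply Finset.card_le_card_of_injOn (fun k => k₀ * k)
    · intro k hk
      rw [Finset.mem_coe, mem_filter] at hk ⊢
      exact ⟨mem_univ _, by rw [mul_smul, hk.2.1, h1], by rw [mul_smul, hk.2.2, h2']⟩
    · intro k _ k' _ h
      exact mul_left_cancel h
  have c2 : ∀ a b, b ≠ α → (Fintype.card Ω - 1) * (Hab a b).card ≤ H.card := by
    intro a b hb
    have hsub : (univ.erase α).biUnion (fun b' => Hab a b') ⊆ H := by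
      intro k hk
      rw [mem_biUnion] at hk
      obtain ⟨b', _, hk⟩ := hk
      exact mem_filter.mpr ⟨mem_univ _, (mem_filter.mp hk).2.1⟩
    have hdisj : ∀ b₁ ∈ univ.erase α, ∀ b₂ ∈ univ.erase α, b₁ ≠ b₂ →
        Disjoint (Hab a b₁) (Hab a b₂) := by
      intro b₁ _ b₂ _ hne
      rw [Finset.disjoint_left]
      intro k hk1 hk2
      exact hne ((mem_filter.mp hk1).2.2.symm.trans (mem_filter.mp hk2).2.2)
    have h3 := card_le_card hsub
    rw [card_biUnion hdisj] at h3
    have h4 : ∑ b' ∈ univ.erase α, (Hab a b).card ≤ ∑ b' ∈ univ.erase α, (Hab a b').card := by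
      apply sum_le_sum
      intro b' hb'
      exact c1 a b b' hb (mem_erase.mp hb').1
    rw [sum_const, card_erase_of_mem (mem_univ α), card_univ, smul_eq_mul] at h4
    exact h4.trans h3
  have hH : H ⊆ A.biUnion (fun a => A.biUnion (fun b => Hab a b)) := by
    intro k hk
    have hkα := (mem_filter.mp hk).2
    obtain ⟨a, ha, hka⟩ := hcon' k hkα
    rw [mem_biUnion]
    refine ⟨a, ha, ?_⟩
    rw [mem_biUnion]
    exact ⟨k • a, hka, mem_filter.mpr ⟨mem_univ _, hkα, rfl⟩⟩
  have h5 : H.card ≤ ∑ a ∈ A, ∑ b ∈ A, (Hab a b).card := by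
    refine (card_le_card hH).trans (card_biUnion_le.trans ?_)
    apply sum_le_sum
    intro a _
    exact card_biUnion_le
  have h6 : (Fintype.card Ω - 1) * H.card ≤ A.card * A.card * H.card := by
    calc (Fintype.card Ω - 1) * H.card
        ≤ (Fintype.card Ω - 1) * ∑ a ∈ A, ∑ b ∈ A, (Hab a b).card :=
          Nat.mul_le_mul_left _ h5
      _ = ∑ a ∈ A, ∑ b ∈ A, (Fintype.card Ω - 1) * (Hab a b).card := by
          simp only [mul_sum]
      _ ≤ ∑ a ∈ A, ∑ b ∈ A, H.card := by
          apply sum_le_sum; intro a ha; apply sum_le_sum; intro b hb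
          exact c2 a b (fun h => hA (h ▸ hb))
      _ = A.card * A.card * H.card := by
          simp only [sum_const, smul_eq_mul]; ring
  have hHpos : 0 < H.card := card_pos.mpr ⟨1, mem_filter.mpr ⟨mem_univ _, one_smul _ _⟩⟩
  have := Nat.le_of_mul_le_mul_right h6 hHpos
  omega

theorem twotr_bound {G Ω : Type*} [Group G] [Finite G] [MulAction G Ω] [FaithfulSMul G Ω]
    [Fintype Ω] [DecidableEq Ω] [MulAction.IsPreprimitive G Ω] (h2 : TwoTr G Ω)
    (hA : ¬ alternatingGroup Ω ≤ (MulAction.toPermHom G Ω).range) (g : G)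
    (Γ : Finset Ω) (hΓ : ∀ z, z ∈ Γ ↔ g • z ≠ z) {α : Ω} (hα : α ∈ Γ) :
    Fintype.card Ω ≤ (Γ.card - 1) * (Γ.card - 1) + 1 := by
  by_contra hlt
  rw [not_le] at hlt
  have hcard : (Γ.erase α).card * (Γ.erase α).card < Fintype.card Ω - 1 := by
    rw [card_erase_of_mem hα]; omega
  obtain ⟨k, hkα, hkA⟩ := exists_sep h2 α (Γ.erase α) (notMem_erase α Γ) hcard
  have hgα : g • α ≠ α := (hΓ α).mp hα
  have hkinv : k⁻¹ • α = α := by rw [inv_smul_eq_iff, hkα]
  have h3 := comm_three (MulAction.toPermHom G Ω g) (MulAction.toPermHom G Ω (k * g * k⁻¹)) α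
    hgα (by
      change (k * g * k⁻¹) • α ≠ α
      rw [mul_smul, mul_smul, hkinv]
      intro h
      exact hgα (MulAction.injective k (h.trans hkα.symm))) (by
      intro z hz1 hz2
      change g • z ≠ z at hz1
      change (k * g * k⁻¹) • z ≠ z at hz2
      by_contra hzα
      have hzA : z ∈ Γ.erase α := mem_erase.mpr ⟨hzα, (hΓ z).mpr hz1⟩
      have hz3 : g • (k⁻¹ • z) ≠ k⁻¹ • z := by
        intro h
        apply hz2
        rw [mul_smul, mul_smul, h, smul_inv_smul]
      have hz4 : k⁻¹ • z ≠ α := by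
        intro h
        apply hzα
        rw [← hkα, ← h, smul_inv_smul]
      have hz5 : k⁻¹ • z ∈ Γ.erase α := mem_erase.mpr ⟨hz4, (hΓ _).mpr hz3⟩
      have := hkA _ hz5
      rw [smul_inv_smul] at this
      exact this hzA)
  have hmem : (MulAction.toPermHom G Ω g)⁻¹ * (MulAction.toPermHom G Ω (k * g * k⁻¹))⁻¹
      * (MulAction.toPermHom G Ω g) * (MulAction.toPermHom G Ω (k * g * k⁻¹))
      ∈ (MulAction.toPermHom G Ω).range :=
    ⟨g⁻¹ * (k * g * k⁻¹)⁻¹ * g * (k * g * k⁻¹), by simp only [map_mul, map_inv]⟩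
  exact hA (Equiv.Perm.alternatingGroup_le_of_isPreprimitive_of_isThreeCycle_mem
    range_prim h3 hmem)

end Cfsg.Agent.Lib.Helper23.MinDeg
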