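import Mathlib

set_option autoImplicit false

namespace Cfsg.Agent.Lib.Helper23.Weight

universe u

theorem ab {P : Type*} [Group P] [Finite P] (hodd : Odd (Nat.card P)) (M : Subgroup P)
    (hM : ∀ a ∈ M, ∀ b ∈ M, a * b = b * a) :
    ∀ (L : List (MulAut P)), (∀ S ∈ L, ∀ T ∈ L, S * T = T * S) → (∀ T ∈ L, T * T = 1) →
      (∀ T ∈ L, ∀ x ∈ M, T x ∈ M) →
      M ≤ Subgroup.closure {x | x ∈ M ∧ ∀ T ∈ L, T x = x ∨ T x = x⁻¹} := by
  intro L
  induction L with
  | nil =>
    intro _ _ _ x hx
    exact Subgroup.subset_closure ⟨hx, by simp⟩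
  | cons T L ih =>
    intro hc hi hinv
    have ih' := ih
      (fun S hS T' hT' => hc S (List.mem_cons_of_mem _ hS) T' (List.mem_cons_of_mem _ hT'))
      (fun T' hT' => hi T' (List.mem_cons_of_mem _ hT'))
      (fun T' hT' => hinv T' (List.mem_cons_of_mem _ hT'))
    refine ih'.trans ?_
    rw [Subgroup.closure_le]
    rintro x ⟨hxM, hx⟩
    obtain ⟨m, hm⟩ := hodd
    have hpow : ∀ z : P, z ^ (2 * (m + 1)) = z := by
      intro z
      have h1 : z ^ Nat.card P = 1 := pow_card_eq_one'
      have e : 2 * (m + 1) = Nat.card P + 1 := by omega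
      rw [e, pow_succ, h1, one_mul]
    have hTmem : T ∈ T :: L := List.mem_cons_self
    have hTT : ∀ z, T (T z) = z := fun z => by
      have h2 := congrArg (fun f : MulAut P => f z) (hi T hTmem)
      simpa [MulAut.mul_apply] using h2
    have hTxM : T x ∈ M := hinv T hTmem x hxM
    have hcomm : x * T x = T x * x := hM x hxM (T x) hTxM
    have hcomm' : x⁻¹ * T x = T x * x⁻¹ := hM _ (inv_mem hxM) (T x) hTxM
    have huM : (x * T x) ^ (m + 1) ∈ M := pow_mem (mul_mem hxM hTxM) _
    have hkM : (x * (T x)⁻¹) ^ (m + 1) ∈ M := pow_mem (mul_mem hxM (inv_mem hTxM)) _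
    have huk : (x * T x) ^ (m + 1) * (x * (T x)⁻¹) ^ (m + 1) = x := by
      have c1 : Commute (x * T x) (x * (T x)⁻¹) :=
        hM _ (mul_mem hxM hTxM) _ (mul_mem hxM (inv_mem hTxM))
      rw [← c1.mul_pow]
      have e1 : x * T x * (x * (T x)⁻¹) = x ^ 2 := by
        calc x * T x * (x * (T x)⁻¹) = x * (T x * x) * (T x)⁻¹ := by group
          _ = x * (x * T x) * (T x)⁻¹ := by rw [hcomm]
          _ = x * x := by group
          _ = x ^ 2 := (pow_two x).symm
      rw [e1, ← pow_mul, hpow]
    have hTu : T ((x * T x) ^ (m + 1)) = (x * T x) ^ (m + 1) := by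
      rw [map_pow, map_mul, hTT, hcomm]
    have hTk : T ((x * (T x)⁻¹) ^ (m + 1)) = ((x * (T x)⁻¹) ^ (m + 1))⁻¹ := by
      rw [map_pow, map_mul, map_inv, hTT, ← inv_pow, mul_inv_rev, inv_inv]
    have hu : (x * T x) ^ (m + 1) ∈ {y | y ∈ M ∧ ∀ T' ∈ T :: L, T' y = y ∨ T' y = y⁻¹} := by
      refine ⟨huM, fun T' hT' => ?_⟩
      rcases List.mem_cons.mp hT' with rfl | hT'L
      · exact Or.inl hTu
      · have hcTT' : T' (T x) = T (T' x) := by
          have h2 := congrArg (fun f : MulAut P => f x) (hc T' hT' T hTmem)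
          simpa [MulAut.mul_apply] using h2
        rcases hx T' hT'L with h | h
        · left
          rw [map_pow, map_mul, hcTT', h]
        · right
          rw [map_pow, map_mul, hcTT', h, map_inv, ← inv_pow]
          congr 1
          rw [hcomm, mul_inv_rev]
    have hk : (x * (T x)⁻¹) ^ (m + 1) ∈ {y | y ∈ M ∧ ∀ T' ∈ T :: L, T' y = y ∨ T' y = y⁻¹} := by
      refine ⟨hkM, fun T' hT' => ?_⟩
      rcases List.mem_cons.mp hT' with rfl | hT'L
      · exact Or.inr hTk
      · have hcTT' : T' (T x) = T (T' x) := by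
          have h2 := congrArg (fun f : MulAut P => f x) (hc T' hT' T hTmem)
          simpa [MulAut.mul_apply] using h2
        rcases hx T' hT'L with h | h
        · left
          rw [map_pow, map_mul, map_inv, hcTT', h]
        · right
          rw [map_pow, map_mul, map_inv, hcTT', h, map_inv, inv_inv, ← inv_pow, mul_inv_rev,
            inv_inv, hcomm']
    have hfin := mul_mem (Subgroup.subset_closure hu) (Subgroup.subset_closure hk)
    rw [huk] at hfin
    exact hfin

theorem gen_aux (p : ℕ) [Fact p.Prime] (hp2 : p ≠ 2) :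
    ∀ n : ℕ, ∀ (P : Type u) [Group P] [Finite P],
    Nat.card P = n → IsPGroup p P → ∀ L : List (MulAut P),
    (∀ S ∈ L, ∀ T ∈ L, S * T = T * S) → (∀ T ∈ L, T * T = 1) →
    Subgroup.closure {x : P | ∀ T ∈ L, T x = x ∨ T x = x⁻¹} = ⊤ := by
  intro n
  induction n using Nat.strong_induction_on with
  | _ n ih =>
  intro P _ _ hn hP L hc hi
  have hodd : Odd (Nat.card P) := by
    obtain ⟨k, hk⟩ := IsPGroup.iff_card.mp hP
    rw [hk]
    exact Odd.pow ((Fact.out : p.Prime).odd_of_ne_two hp2)
  by_cases hab : ∀ a b : P, a * b = b * a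
  · have h1 := ab hodd ⊤ (fun a _ b _ => hab a b) L hc hi (fun _ _ _ _ => Subgroup.mem_top _)
    rw [eq_top_iff]
    refine h1.trans (Subgroup.closure_mono ?_)
    rintro x ⟨_, hx⟩
    exact hx
  · have hnt : Nontrivial P := by
      by_contra hnt
      rw [not_nontrivial_iff_subsingleton] at hnt
      exact hab (fun a b => Subsingleton.elim _ _)
    have hZnt : Nontrivial (Subgroup.center P) := hP.center_nontrivial
    have hmap : ∀ T : MulAut P,
        (Subgroup.center P).map (T : P ≃* P).toMonoidHom = Subgroup.center P :=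
      fun T => Subgroup.characteristic_iff_map_eq.mp inferInstance T
    have hTZ : ∀ T : MulAut P, ∀ z ∈ Subgroup.center P, T z ∈ Subgroup.center P := by
      intro T z hz
      have h1 : T z ∈ (Subgroup.center P).map (T : P ≃* P).toMonoidHom :=
        Subgroup.mem_map_of_mem _ hz
      rw [hmap T] at h1
      exact h1
    let φ : MulAut P → MulAut (P ⧸ Subgroup.center P) := fun T =>
      QuotientGroup.congr (Subgroup.center P) (Subgroup.center P) T (hmap T)
    have hφ : ∀ (T : MulAut P) (x : P), φ T (QuotientGroup.mk x) = QuotientGroup.mk (T x) :=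
      fun T x => rfl
    have hcardlt : Nat.card (P ⧸ Subgroup.center P) < n := by
      have h1 := Subgroup.card_eq_card_quotient_mul_card_subgroup (Subgroup.center P)
      have h2 : 1 < Nat.card (Subgroup.center P) := Finite.one_lt_card
      have h3 : 0 < Nat.card (P ⧸ Subgroup.center P) := Nat.card_pos
      rw [← hn, h1]
      nlinarith
    have hQ := ih _ hcardlt (P ⧸ Subgroup.center P) rfl (hP.to_quotient _) (L.map φ)
      (by
        intro S hS T hT
        obtain ⟨S', hS', rfl⟩ := List.mem_map.mp hS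
        obtain ⟨T', hT', rfl⟩ := List.mem_map.mp hT
        ext y
        obtain ⟨x, rfl⟩ := QuotientGroup.mk_surjective y
        rw [MulAut.mul_apply, MulAut.mul_apply, hφ, hφ, hφ, hφ]
        have h2 := congrArg (fun f : MulAut P => f x) (hc S' hS' T' hT')
        simp only [MulAut.mul_apply] at h2
        rw [h2])
      (by
        intro T hT
        obtain ⟨T', hT', rfl⟩ := List.mem_map.mp hT
        ext y
        obtain ⟨x, rfl⟩ := QuotientGroup.mk_surjective y
        rw [MulAut.mul_apply, hφ, hφ]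
        have h2 := congrArg (fun f : MulAut P => f x) (hi T' hT')
        simp only [MulAut.mul_apply, MulAut.one_apply] at h2
        rw [h2, MulAut.one_apply])
    have hsub : ∀ M : Subgroup P, (∀ a ∈ M, ∀ b ∈ M, a * b = b * a) →
        (∀ T ∈ L, ∀ x ∈ M, T x ∈ M) →
        M ≤ Subgroup.closure {x : P | ∀ T ∈ L, T x = x ∨ T x = x⁻¹} := by
      intro M hM hinv
      refine (ab hodd M hM L hc hi hinv).trans (Subgroup.closure_mono ?_)
      rintro x ⟨_, hx⟩
      exact hx
    have hZR : Subgroup.center P ≤ Subgroup.closure {x : P | ∀ T ∈ L, T x = x ∨ T x = x⁻¹} :=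
      hsub _ (fun a ha b hb => (Subgroup.mem_center_iff.mp ha b).symm) (fun T _ => hTZ T)
    have hkey : ∀ x : P, (∀ T ∈ L, φ T (QuotientGroup.mk x) = QuotientGroup.mk x ∨
        φ T (QuotientGroup.mk x) = (QuotientGroup.mk x)⁻¹) →
        x ∈ Subgroup.closure {x : P | ∀ T ∈ L, T x = x ∨ T x = x⁻¹} := by
      intro x hx
      have hcommK : ∀ a ∈ insert x (Subgroup.center P : Set P),
          ∀ b ∈ insert x (Subgroup.center P : Set P), a * b = b * a := by
        intro a ha b hb
        rcases ha with rfl | ha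
        · rcases hb with rfl | hb
          · rfl
          · exact (Subgroup.mem_center_iff.mp hb a)
        · exact (Subgroup.mem_center_iff.mp ha b).symm
      have hMx : ∀ a ∈ Subgroup.closure (insert x (Subgroup.center P : Set P)),
          ∀ b ∈ Subgroup.closure (insert x (Subgroup.center P : Set P)), a * b = b * a := by
        intro a ha b hb
        exact congrArg Subtype.val
          ((Subgroup.isMulCommutative_closure hcommK).is_comm.comm
            (⟨a, ha⟩ : Subgroup.closure (insert x (Subgroup.center P : Set P))) ⟨b, hb⟩)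
      refine hsub _ hMx ?_ (Subgroup.subset_closure (Set.mem_insert _ _))
      intro T hT
      have hle : Subgroup.closure (insert x (Subgroup.center P : Set P)) ≤
          (Subgroup.closure (insert x (Subgroup.center P : Set P))).comap
            (T : P ≃* P).toMonoidHom := by
        rw [Subgroup.closure_le]
        intro a ha
        rcases ha with rfl | ha
        · show T a ∈ Subgroup.closure (insert a (Subgroup.center P : Set P))
          rcases hx T hT with h | h
          · rw [hφ, QuotientGroup.eq] at h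
            have e : T a = a * ((T a)⁻¹ * a)⁻¹ := by group
            rw [e]
            exact mul_mem (Subgroup.subset_closure (Set.mem_insert _ _))
              (inv_mem (Subgroup.subset_closure (Set.mem_insert_of_mem _ h)))
          · rw [hφ, ← QuotientGroup.mk_inv, QuotientGroup.eq] at h
            have e : T a = a⁻¹ * ((T a)⁻¹ * a⁻¹)⁻¹ := by group
            rw [e]
            exact mul_mem (inv_mem (Subgroup.subset_closure (Set.mem_insert _ _)))
              (inv_mem (Subgroup.subset_closure (Set.mem_insert_of_mem _ h)))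
        · exact Subgroup.subset_closure (Set.mem_insert_of_mem _ (hTZ T a ha))
      exact fun y hy => hle hy
    rw [eq_top_iff]
    intro g _
    have hg : (QuotientGroup.mk g : P ⧸ Subgroup.center P) ∈
        (Subgroup.closure {x : P | ∀ T ∈ L, T x = x ∨ T x = x⁻¹}).map
          (QuotientGroup.mk' (Subgroup.center P)) := by
      have htop : (⊤ : Subgroup (P ⧸ Subgroup.center P)) ≤
          (Subgroup.closure {x : P | ∀ T ∈ L, T x = x ∨ T x = x⁻¹}).map
            (QuotientGroup.mk' (Subgroup.center P)) := by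
        rw [← hQ, Subgroup.closure_le]
        intro y hy
        obtain ⟨x, rfl⟩ := QuotientGroup.mk_surjective y
        exact ⟨x, hkey x (fun T hT => hy (φ T) (List.mem_map_of_mem hT)), rfl⟩
      exact htop (Subgroup.mem_top _)
    obtain ⟨r, hr, hrg⟩ := hg
    have h1 : r⁻¹ * g ∈ Subgroup.center P := QuotientGroup.eq.mp hrg
    have e : g = r * (r⁻¹ * g) := by group
    rw [e]
    exact mul_mem hr (hZR h1)

theorem gen (p : ℕ) [Fact p.Prime] (hp2 : p ≠ 2) (P : Type u) [Group P] [Finite P]
    (hP : IsPGroup p P) (L : List (MulAut P))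
    (hc : ∀ S ∈ L, ∀ T ∈ L, S * T = T * S) (hi : ∀ T ∈ L, T * T = 1) :
    Subgroup.closure {x : P | ∀ T ∈ L, T x = x ∨ T x = x⁻¹} = ⊤ :=
  gen_aux p hp2 _ P rfl hP L hc hi

theorem cyc_key {P : Type*} [Group P] (p : ℕ) [Fact p.Prime] (hp2 : p ≠ 2) (hP : IsPGroup p P)
    (T : MulAut P) (g z x : P) (hTg : T g ∈ Subgroup.zpowers g) (hz : z ∈ Subgroup.zpowers g)
    (hx : x ∈ Subgroup.zpowers g) (hTz : T z = z) (hTx : T x = x⁻¹) : z = 1 ∨ x = 1 := by
  obtain ⟨m, hm⟩ := hTg
  obtain ⟨b, rfl⟩ := hz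
  obtain ⟨a, rfl⟩ := hx
  have hm' : T g = g ^ m := hm.symm
  obtain ⟨k, hk⟩ := hP g
  obtain ⟨e, -, he⟩ := (Nat.dvd_prime_pow (Fact.out : p.Prime)).mp (orderOf_dvd_of_pow_eq_one hk)
  have hpZ : Prime (p : ℤ) := Nat.prime_iff_prime_int.mp Fact.out
  have h1 : (orderOf g : ℤ) ∣ (m - 1) * b := by
    rw [orderOf_dvd_iff_zpow_eq_one]
    have h0 : g ^ (m * b) = g ^ b := by
      rw [zpow_mul, ← hm', ← map_zpow]; exact hTz
    rw [sub_mul, one_mul, zpow_sub, h0, mul_inv_cancel]
  have h2 : (orderOf g : ℤ) ∣ (m + 1) * a := by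
    rw [orderOf_dvd_iff_zpow_eq_one]
    have h0 : g ^ (m * a) = (g ^ a)⁻¹ := by
      rw [zpow_mul, ← hm', ← map_zpow]; exact hTx
    rw [add_mul, one_mul, zpow_add, h0, inv_mul_cancel]
  rw [he] at h1 h2
  push_cast at h1 h2
  by_cases hd : (p : ℤ) ∣ m - 1
  · right
    have hnd : ¬ (p : ℤ) ∣ m + 1 := by
      intro h
      have h3 : (p : ℤ) ∣ 2 := by
        have h4 := dvd_sub h hd
        have e2 : m + 1 - (m - 1) = 2 := by ring
        rwa [e2] at h4
      have h4 : p ∣ 2 := by exact_mod_cast h3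
      exact hp2 ((Nat.prime_dvd_prime_iff_eq Fact.out Nat.prime_two).mp h4)
    have h5 := hpZ.pow_dvd_of_dvd_mul_left e hnd h2
    rw [← orderOf_dvd_iff_zpow_eq_one, he]
    exact_mod_cast h5
  · left
    have h5 := hpZ.pow_dvd_of_dvd_mul_left e hd h1
    rw [← orderOf_dvd_iff_zpow_eq_one, he]
    exact_mod_cast h5

theorem pair_comm {P : Type*} [Group P] [Finite P] (σ τ : MulAut P) (hc : σ * τ = τ * σ)
    (hτ : τ * τ = 1) (hfix : ∀ z, σ z = z → τ z = z → z = 1) :
    ∀ u v, σ u = u → σ v = v → u * v = v * u := by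
  have hc' : ∀ x, σ (τ x) = τ (σ x) := fun x => by
    have h2 := congrArg (fun f : MulAut P => f x) hc
    simpa [MulAut.mul_apply] using h2
  have hτ' : ∀ x, τ (τ x) = x := fun x => by
    have h2 := congrArg (fun f : MulAut P => f x) hτ
    simpa [MulAut.mul_apply] using h2
  let f : {x : P // σ x = x} → {x : P // σ x = x} := fun q =>
    ⟨q.1⁻¹ * τ q.1, by rw [map_mul, map_inv, hc', q.2]⟩
  have hinj : Function.Injective f := by
    intro q r hqr
    have h1 : q.1⁻¹ * τ q.1 = r.1⁻¹ * τ r.1 := congrArg Subtype.val hqr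
    have h2 : τ (r.1 * q.1⁻¹) = r.1 * q.1⁻¹ := by
      rw [map_mul, map_inv]
      have e : τ r.1 = r.1 * (q.1⁻¹ * τ q.1) := by rw [h1]; group
      rw [e]; group
    have h3 : σ (r.1 * q.1⁻¹) = r.1 * q.1⁻¹ := by rw [map_mul, map_inv, q.2, r.2]
    have h4 := hfix _ h3 h2
    exact Subtype.ext (mul_inv_eq_one.mp h4).symm
  have hsurj := Finite.injective_iff_surjective.mp hinj
  have hinv : ∀ u, σ u = u → τ u = u⁻¹ := by
    intro u hu
    obtain ⟨q, hq⟩ := hsurj ⟨u, hu⟩
    have h1 : q.1⁻¹ * τ q.1 = u := congrArg Subtype.val hq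
    rw [← h1, map_mul, map_inv, hτ']
    group
  intro u v hu hv
  have h1 := hinv (u * v) (by rw [map_mul, hu, hv])
  rw [map_mul, hinv u hu, hinv v hv, mul_inv_rev] at h1
  have h2 : (u⁻¹ * v⁻¹)⁻¹ = (v⁻¹ * u⁻¹)⁻¹ := by rw [h1]
  simpa using h2.symm

end Cfsg.Agent.Lib.Helper23.Weight
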