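import Mathlib
import Cfsg.Agent.Lib.Helper23.Weight1
import Cfsg.Agent.Lib.Helper21.CoprimeAut

set_option autoImplicit false

namespace Cfsg.Agent.Lib.Helper23.Weight

universe u

theorem inv_ne {P : Type*} [Group P] (p : ℕ) [Fact p.Prime] (hp2 : p ≠ 2) (hP : IsPGroup p P)
    (x : P) (hx : x ≠ 1) : x⁻¹ ≠ x := by
  intro h
  have h2 : x ^ 2 = 1 := by
    rw [pow_two]
    nth_rewrite 1 [← h]
    exact inv_mul_cancel x
  obtain ⟨k, hk⟩ := hP x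
  have h3 : orderOf x ∣ Nat.gcd 2 (p ^ k) :=
    Nat.dvd_gcd (orderOf_dvd_of_pow_eq_one h2) (orderOf_dvd_of_pow_eq_one hk)
  have h4 : Nat.gcd 2 (p ^ k) = 1 := by
    apply Nat.Coprime.pow_right
    exact (Nat.coprime_primes Nat.prime_two Fact.out).mpr (Ne.symm hp2)
  rw [h4, Nat.dvd_one, orderOf_eq_one_iff] at h3
  exact hx h3

theorem wt_gen {P : Type u} [Group P] [Finite P] (p : ℕ) [Fact p.Prime] (hp2 : p ≠ 2)
    (hP : IsPGroup p P) (I : Subgroup (MulAut P)) (hc : ∀ S ∈ I, ∀ T ∈ I, S * T = T * S)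
    (hi : ∀ T ∈ I, T * T = 1) :
    Subgroup.closure {x : P | ∀ T ∈ I, T x = x ∨ T x = x⁻¹} = ⊤ := by
  classical
  have hfin : (I : Set (MulAut P)).Finite := Set.toFinite _
  have h := gen p hp2 P hP hfin.toFinset.toList (by
    intro S hS T hT
    rw [Finset.mem_toList, Set.Finite.mem_toFinset] at hS hT
    exact hc S hS T hT) (by
    intro T hT
    rw [Finset.mem_toList, Set.Finite.mem_toFinset] at hT
    exact hi T hT)
  rw [← h]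
  congr 1
  ext x
  simp only [Set.mem_ofPred_eq, Finset.mem_toList, Set.Finite.mem_toFinset, SetLike.mem_coe]

theorem move {P : Type u} [Group P] [Finite P] (p : ℕ) [Fact p.Prime] (hp2 : p ≠ 2)
    (hP : IsPGroup p P) (I : Subgroup (MulAut P)) (hc : ∀ S ∈ I, ∀ T ∈ I, S * T = T * S)
    (hi : ∀ T ∈ I, T * T = 1) (S : MulAut P) (hSI : S ∈ I) (hS : S ≠ 1) :
    ∃ x : P, (∀ T ∈ I, T x = x ∨ T x = x⁻¹) ∧ x ≠ 1 ∧ S x = x⁻¹ := by
  by_contra hcon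
  push_neg at hcon
  apply hS
  have hle : Subgroup.closure {x : P | ∀ T ∈ I, T x = x ∨ T x = x⁻¹} ≤
      MonoidHom.eqLocus (S : P ≃* P).toMonoidHom (MonoidHom.id P) := by
    rw [Subgroup.closure_le]
    intro x hx
    show S x = x
    by_cases hx1 : x = 1
    · rw [hx1, map_one]
    · rcases hx S hSI with h | h
      · exact h
      · exact absurd h (hcon x hx hx1)
  rw [wt_gen p hp2 hP I hc hi] at hle
  ext x
  exact hle (Subgroup.mem_top x)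

theorem pg2 {P : Type u} [Group P] [Finite P] (I : Subgroup (MulAut P)) (hI8 : Nat.card I = 8)
    (x₁ x₂ : P) (h1 : ∀ T ∈ I, T x₁ = x₁ ∨ T x₁ = x₁⁻¹)
    (h2 : ∀ T ∈ I, T x₂ = x₂ ∨ T x₂ = x₂⁻¹) :
    ∃ S ∈ I, S ≠ 1 ∧ S x₁ = x₁ ∧ S x₂ = x₂ := by
  classical
  haveI : Finite I := Nat.finite_of_card_ne_zero (by rw [hI8]; norm_num)
  haveI : Fintype I := Fintype.ofFinite I
  have hcard : Fintype.card I = 8 := by rw [← Nat.card_eq_fintype_card, hI8]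
  obtain ⟨T, -, T', -, hne, heq⟩ := Finset.exists_ne_map_eq_of_card_lt_of_maps_to
    (s := (Finset.univ : Finset I)) (t := ({x₁, x₁⁻¹} : Finset P) ×ˢ ({x₂, x₂⁻¹} : Finset P))
    (f := fun T : I => (T.1 x₁, T.1 x₂))
    (by
      rw [Finset.card_univ, hcard, Finset.card_product]
      have e1 := Finset.card_le_two (a := x₁) (b := x₁⁻¹)
      have e2 := Finset.card_le_two (a := x₂) (b := x₂⁻¹)
      nlinarith)
    (by
      intro T _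
      simp only [Finset.mem_coe, Finset.mem_product, Finset.mem_insert, Finset.mem_singleton]
      exact ⟨h1 T.1 T.2, h2 T.1 T.2⟩)
  refine ⟨T.1⁻¹ * T'.1, mul_mem (inv_mem T.2) T'.2, ?_, ?_, ?_⟩
  · intro h
    apply hne
    apply Subtype.ext
    exact inv_mul_eq_one.mp h
  · have e : T'.1 x₁ = T.1 x₁ := (congrArg Prod.fst heq).symm
    rw [MulAut.mul_apply, e]
    exact MulAut.inv_apply_self _ _ _
  · have e : T'.1 x₂ = T.1 x₂ := (congrArg Prod.snd heq).symm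
    rw [MulAut.mul_apply, e]
    exact MulAut.inv_apply_self _ _ _

theorem basis {P : Type u} [Group P] [Finite P] (p : ℕ) [Fact p.Prime] (hp2 : p ≠ 2)
    (hP : IsPGroup p P) (I : Subgroup (MulAut P)) (hc : ∀ S ∈ I, ∀ T ∈ I, S * T = T * S)
    (hi : ∀ T ∈ I, T * T = 1) (hI8 : Nat.card I = 8) :
    ∃ a ∈ I, ∃ b ∈ I, ∃ c ∈ I, ∃ x₁ x₂ x₃ : P, x₁ ≠ 1 ∧ x₂ ≠ 1 ∧ x₃ ≠ 1 ∧
      a x₁ = x₁⁻¹ ∧ a x₂ = x₂ ∧ a x₃ = x₃ ∧ b x₁ = x₁ ∧ b x₂ = x₂⁻¹ ∧ b x₃ = x₃ ∧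
      c x₁ = x₁ ∧ c x₂ = x₂ ∧ c x₃ = x₃⁻¹ := by
  obtain ⟨S₁, hS₁I, hS₁⟩ : ∃ S ∈ I, S ≠ 1 := by
    by_contra hcon
    push_neg at hcon
    have h1 : Nat.card I = 1 := by
      haveI : Subsingleton I :=
        ⟨fun a b => Subtype.ext ((hcon a.1 a.2).trans (hcon b.1 b.2).symm)⟩
      exact Nat.card_of_subsingleton 1
    omega
  obtain ⟨x₁, hW₁, hx₁, hS₁x₁⟩ := move p hp2 hP I hc hi S₁ hS₁I hS₁
  obtain ⟨S₂, hS₂I, hS₂, hS₂x₁, -⟩ := pg2 I hI8 x₁ x₁ hW₁ hW₁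
  obtain ⟨x₂, hW₂, hx₂, hS₂x₂⟩ := move p hp2 hP I hc hi S₂ hS₂I hS₂
  obtain ⟨S₃, hS₃I, hS₃, hS₃x₁, hS₃x₂⟩ := pg2 I hI8 x₁ x₂ hW₁ hW₂
  obtain ⟨x₃, hW₃, hx₃, hS₃x₃⟩ := move p hp2 hP I hc hi S₃ hS₃I hS₃
  obtain ⟨b, hbI, hb1, hb2, hb3⟩ : ∃ b ∈ I, b x₁ = x₁ ∧ b x₂ = x₂⁻¹ ∧ b x₃ = x₃ := by
    rcases hW₃ S₂ hS₂I with h | h
    · exact ⟨S₂, hS₂I, hS₂x₁, hS₂x₂, h⟩
    · refine ⟨S₂ * S₃, mul_mem hS₂I hS₃I, ?_, ?_, ?_⟩
      · rw [MulAut.mul_apply, hS₃x₁, hS₂x₁]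
      · rw [MulAut.mul_apply, hS₃x₂, hS₂x₂]
      · rw [MulAut.mul_apply, hS₃x₃, map_inv, h, inv_inv]
  obtain ⟨a', ha'I, ha'1, ha'2⟩ : ∃ a ∈ I, a x₁ = x₁⁻¹ ∧ a x₂ = x₂ := by
    rcases hW₂ S₁ hS₁I with h | h
    · exact ⟨S₁, hS₁I, hS₁x₁, h⟩
    · refine ⟨S₁ * b, mul_mem hS₁I hbI, ?_, ?_⟩
      · rw [MulAut.mul_apply, hb1, hS₁x₁]
      · rw [MulAut.mul_apply, hb2, map_inv, h, inv_inv]
  obtain ⟨a, haI, ha1, ha2, ha3⟩ : ∃ a ∈ I, a x₁ = x₁⁻¹ ∧ a x₂ = x₂ ∧ a x₃ = x₃ := by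
    rcases hW₃ a' ha'I with h | h
    · exact ⟨a', ha'I, ha'1, ha'2, h⟩
    · refine ⟨a' * S₃, mul_mem ha'I hS₃I, ?_, ?_, ?_⟩
      · rw [MulAut.mul_apply, hS₃x₁, ha'1]
      · rw [MulAut.mul_apply, hS₃x₂, ha'2]
      · rw [MulAut.mul_apply, hS₃x₃, map_inv, h, inv_inv]
  exact ⟨a, haI, b, hbI, S₃, hS₃I, x₁, x₂, x₃, hx₁, hx₂, hx₃, ha1, ha2, ha3, hb1, hb2, hb3,
    hS₃x₁, hS₃x₂, hS₃x₃⟩

theorem enum {P : Type u} [Group P] [Finite P] (I : Subgroup (MulAut P)) (hI8 : Nat.card I = 8)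
    (a b c : MulAut P) (ha : a ∈ I) (hb : b ∈ I) (hc : c ∈ I) (x₁ x₂ x₃ : P)
    (h1 : x₁⁻¹ ≠ x₁) (h2 : x₂⁻¹ ≠ x₂) (h3 : x₃⁻¹ ≠ x₃)
    (ha1 : a x₁ = x₁⁻¹) (ha2 : a x₂ = x₂) (ha3 : a x₃ = x₃)
    (hb1 : b x₁ = x₁) (hb2 : b x₂ = x₂⁻¹) (hb3 : b x₃ = x₃)
    (hc1 : c x₁ = x₁) (hc2 : c x₂ = x₂) (hc3 : c x₃ = x₃⁻¹) :
    ∀ T ∈ I, T = 1 ∨ T = a ∨ T = b ∨ T = c ∨ T = a * b ∨ T = a * c ∨ T = b * c ∨
      T = a * b * c := by
  classical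
  haveI : Finite I := Nat.finite_of_card_ne_zero (by rw [hI8]; norm_num)
  let e : Bool × Bool × Bool → I := fun t =>
    ⟨(if t.1 then a else 1) * (if t.2.1 then b else 1) * (if t.2.2 then c else 1),
      mul_mem (mul_mem (by split_ifs; exacts [ha, one_mem _]) (by split_ifs; exacts [hb, one_mem _]))
        (by split_ifs; exacts [hc, one_mem _])⟩
  have hinj : Function.Injective e := by
    rintro ⟨i, j, k⟩ ⟨i', j', k'⟩ h
    have e1 := congrArg (fun T : I => T.1 x₁) h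
    have e2 := congrArg (fun T : I => T.1 x₂) h
    have e3 := congrArg (fun T : I => T.1 x₃) h
    have h1' := h1.symm
    have h2' := h2.symm
    have h3' := h3.symm
    cases i <;> cases j <;> cases k <;> cases i' <;> cases j' <;> cases k' <;>
      simp [e, MulAut.mul_apply, ha1, ha2, ha3, hb1, hb2, hb3, hc1, hc2, hc3, h1, h2, h3,
        h1', h2', h3'] at e1 e2 e3 ⊢
  have hbij := hinj.bijective_of_nat_card_le (by rw [hI8]; simp)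
  intro T hT
  obtain ⟨⟨i, j, k⟩, h⟩ := hbij.2 ⟨T, hT⟩
  have hT' : T = (if i then a else 1) * (if j then b else 1) * (if k then c else 1) :=
    (congrArg Subtype.val h).symm
  cases i <;> cases j <;> cases k <;> simp at hT' <;> simp [hT']

theorem indep_card {P : Type*} [CommGroup P] [Finite P] (p : ℕ) (ψ₁ ψ₂ ψ₃ : P →* P)
    (y₁ y₂ y₃ : P) (hy₁ : y₁ ^ p = 1) (hy₂ : y₂ ^ p = 1) (hy₃ : y₃ ^ p = 1)
    (h11 : orderOf (ψ₁ y₁) = p) (h12 : ψ₁ y₂ = 1) (h13 : ψ₁ y₃ = 1)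
    (h21 : ψ₂ y₁ = 1) (h22 : orderOf (ψ₂ y₂) = p) (h23 : ψ₂ y₃ = 1)
    (h31 : ψ₃ y₁ = 1) (h32 : ψ₃ y₂ = 1) (h33 : orderOf (ψ₃ y₃) = p) :
    p ^ 3 ≤ Nat.card (powMonoidHom p : P →* P).ker := by
  let f : Fin p × Fin p × Fin p → (powMonoidHom p : P →* P).ker := fun t =>
    ⟨y₁ ^ (t.1 : ℕ) * y₂ ^ (t.2.1 : ℕ) * y₃ ^ (t.2.2 : ℕ), by
      rw [MonoidHom.mem_ker, powMonoidHom_apply, mul_pow, mul_pow, ← pow_mul, ← pow_mul,
        ← pow_mul, mul_comm _ p, mul_comm _ p, mul_comm _ p, pow_mul, pow_mul, pow_mul,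
        hy₁, hy₂, hy₃]
      simp⟩
  have hinj : Function.Injective f := by
    rintro ⟨i, j, k⟩ ⟨i', j', k'⟩ h
    have h0 : y₁ ^ (i : ℕ) * y₂ ^ (j : ℕ) * y₃ ^ (k : ℕ) =
        y₁ ^ (i' : ℕ) * y₂ ^ (j' : ℕ) * y₃ ^ (k' : ℕ) := congrArg Subtype.val h
    have e1 := congrArg ψ₁ h0
    have e2 := congrArg ψ₂ h0
    have e3 := congrArg ψ₃ h0
    simp only [map_mul, map_pow, h12, h13, h21, h23, h31, h32, one_pow, mul_one, one_mul]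
      at e1 e2 e3
    have hi : (i : ℕ) = i' := pow_injOn_Iio_orderOf (by rw [Set.mem_Iio, h11]; exact i.2)
      (by rw [Set.mem_Iio, h11]; exact i'.2) e1
    have hj : (j : ℕ) = j' := pow_injOn_Iio_orderOf (by rw [Set.mem_Iio, h22]; exact j.2)
      (by rw [Set.mem_Iio, h22]; exact j'.2) e2
    have hk : (k : ℕ) = k' := pow_injOn_Iio_orderOf (by rw [Set.mem_Iio, h33]; exact k.2)
      (by rw [Set.mem_Iio, h33]; exact k'.2) e3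
    rw [Fin.ext hi, Fin.ext hj, Fin.ext hk]
  have h := Nat.card_le_card_of_injective f hinj
  rw [Nat.card_prod, Nat.card_prod, Nat.card_fin] at h
  calc p ^ 3 = p * (p * p) := by ring
    _ ≤ _ := h

theorem not_two_gen {P : Type u} [Group P] [Finite P] (hcomm : ∀ u v : P, u * v = v * u)
    (p : ℕ) [Fact p.Prime] (hp2 : p ≠ 2) (hP : IsPGroup p P) (a b c : MulAut P) (x₁ x₂ x₃ : P)
    (hx₁ : x₁ ≠ 1) (hx₂ : x₂ ≠ 1) (hx₃ : x₃ ≠ 1)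
    (ha1 : a x₁ = x₁⁻¹) (ha2 : a x₂ = x₂) (ha3 : a x₃ = x₃)
    (hb1 : b x₁ = x₁) (hb2 : b x₂ = x₂⁻¹) (hb3 : b x₃ = x₃)
    (hc1 : c x₁ = x₁) (hc2 : c x₂ = x₂) (hc3 : c x₃ = x₃⁻¹) :
    ¬ ∃ u v : P, Subgroup.closure {u, v} = ⊤ := by
  classical
  letI : CommGroup P := { (inferInstance : Group P) with mul_comm := hcomm }
  rintro ⟨u, v, huv⟩
  have hp : p.Prime := Fact.out
  have hrank : Group.rank P ≤ 2 := by
    have h1 : Subgroup.closure (({u, v} : Finset P) : Set P) = ⊤ := by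
      rw [← huv]
      congr 1
      simp
    exact (Group.rank_le h1).trans Finset.card_le_two
  have hub := (Cfsg.Agent.Lib.Helper21.CoprimeAut.card_omega_le (P := P) p hp.pos).trans
    (Nat.pow_le_pow_right hp.pos hrank)
  have hord : ∀ x : P, x ≠ 1 → orderOf (x ^ (orderOf x / p)) = p := by
    intro x hx
    obtain ⟨k, hk⟩ := hP x
    obtain ⟨e, -, he⟩ := (Nat.dvd_prime_pow hp).mp (orderOf_dvd_of_pow_eq_one hk)
    have he0 : e ≠ 0 := by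
      rintro rfl
      rw [pow_zero, orderOf_eq_one_iff] at he
      exact hx he
    have hdvd : p ∣ orderOf x := by
      rw [he]
      exact dvd_pow_self p he0
    exact orderOf_pow_orderOf_div (orderOf_pos x).ne' hdvd
  have hsq : ∀ y : P, orderOf y = p → orderOf (y * (y⁻¹)⁻¹) = p := by
    intro y hy
    rw [inv_inv, ← pow_two]
    have hcop : (orderOf y).Coprime 2 := by
      rw [hy]
      exact (Nat.coprime_primes hp Nat.prime_two).mpr hp2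
    rw [hcop.orderOf_pow, hy]
  have hpow : ∀ y : P, orderOf y = p → y ^ p = 1 := by
    intro y hy
    rw [← hy]
    exact pow_orderOf_eq_one y
  have hψ : ∀ (T : MulAut P) (y : P),
      (MonoidHom.id P * ((T : P ≃* P).toMonoidHom)⁻¹) y = y * (T y)⁻¹ := fun T y => rfl
  have hlb := indep_card p (MonoidHom.id P * ((a : P ≃* P).toMonoidHom)⁻¹)
    (MonoidHom.id P * ((b : P ≃* P).toMonoidHom)⁻¹)
    (MonoidHom.id P * ((c : P ≃* P).toMonoidHom)⁻¹)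
    (x₁ ^ (orderOf x₁ / p)) (x₂ ^ (orderOf x₂ / p)) (x₃ ^ (orderOf x₃ / p))
    (hpow _ (hord x₁ hx₁)) (hpow _ (hord x₂ hx₂)) (hpow _ (hord x₃ hx₃))
    (by rw [hψ, map_pow, ha1, inv_pow]; exact hsq _ (hord x₁ hx₁))
    (by rw [hψ, map_pow, ha2, mul_inv_cancel])
    (by rw [hψ, map_pow, ha3, mul_inv_cancel])
    (by rw [hψ, map_pow, hb1, mul_inv_cancel])
    (by rw [hψ, map_pow, hb2, inv_pow]; exact hsq _ (hord x₂ hx₂))
    (by rw [hψ, map_pow, hb3, mul_inv_cancel])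
    (by rw [hψ, map_pow, hc1, mul_inv_cancel])
    (by rw [hψ, map_pow, hc2, mul_inv_cancel])
    (by rw [hψ, map_pow, hc3, inv_pow]; exact hsq _ (hord x₃ hx₃))
  have h2 : 2 ≤ p := hp.two_le
  have : p ^ 3 ≤ p ^ 2 := hlb.trans hub
  nlinarith [pow_pos hp.pos 2]

end Cfsg.Agent.Lib.Helper23.Weight
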